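import Cfsg.Agent.SymNine40.Setup
import Cfsg.Agent.SymEight40.General

/-!
Basic consequences of a configuration.

* `Ctx.X`: coordinates as a total function.
* `Ctx.J`: the translations; `Ctx.N`: the monomial group.
* `Ctx.CentLe`: the centraliser of an element lies in the monomial group.
-/

set_option autoImplicit false
set_option maxRecDepth 20000

open Equiv Subgroup

namespace CfsgLib.SymNine40

open Mw

/-- The three-part of the monomial group. -/
def InP (m : Mw) : Prop := bits m.w = 0 ∧ pcode m.w ∈ ([0, 3, 4] : List (Fin 6))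

instance : DecidablePred InP := fun m => by unfold InP; infer_instance

theorem inP_ok : ∀ a : Fin 48, bits a = 0 → ∀ k, Ok k a := by decide +kernel

theorem ok_zero_le : ∀ k a, Ok 0 a → Ok k a := by decide +kernel

theorem ok_le_three : ∀ k a, Ok k a → Ok 3 a := by decide +kernel

theorem lin_mem : ∀ k a, Ok k a → Ok k (lin a).w := fun _ _ h => h

namespace Ctx

variable {G : Type*} [Group G] {k : Fin 4} (C : Ctx G k)

/-- Coordinates as a total function. -/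
noncomputable def X (m : Mw) : G := if h : Ok k m.w then C.ι ⟨m, h⟩ else 1

theorem X_eq (m : sub k) : C.X m.1 = C.ι m := by rw [X, dif_pos (mem_sub.mp m.2)]

theorem X_mul {a b : Mw} (ha : Ok k a.w) (hb : Ok k b.w) : C.X (a * b) = C.X a * C.X b := by
  have h1 := C.X_eq ⟨a, ha⟩
  have h2 := C.X_eq ⟨b, hb⟩
  have h3 := C.X_eq (⟨a, ha⟩ * ⟨b, hb⟩)
  rw [Subgroup.coe_mul] at h3
  rw [h3, map_mul, ← h1, ← h2]

theorem X_one : C.X 1 = 1 := by
  have := C.X_eq 1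
  rwa [OneMemClass.coe_one, map_one] at this

theorem X_inv {a : Mw} (ha : Ok k a.w) : C.X a⁻¹ = (C.X a)⁻¹ :=
  eq_inv_of_mul_eq_one_left (by rw [← C.X_mul (ok_inv k _ ha) ha, inv_mul_cancel, C.X_one])

theorem X_inj {a b : Mw} (ha : Ok k a.w) (hb : Ok k b.w) (h : C.X a = C.X b) : a = b := by
  rw [C.X_eq ⟨a, ha⟩, C.X_eq ⟨b, hb⟩] at h
  exact congrArg Subtype.val (C.inj h)

theorem X_ne {a b : Mw} (ha : Ok k a.w) (hb : Ok k b.w) (h : a ≠ b) : C.X a ≠ C.X b :=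
  fun e => h (C.X_inj ha hb e)

theorem X_eq_one {a : Mw} (ha : Ok k a.w) (h : C.X a = 1) : a = 1 :=
  C.X_inj ha (ok_one k) (h.trans C.X_one.symm)

/-- The monomial group. -/
abbrev N : Subgroup G := C.ι.range

theorem mem_N {g : G} : g ∈ C.N ↔ ∃ m, Ok k m.w ∧ C.X m = g :=
  ⟨fun ⟨m, e⟩ => ⟨m.1, m.2, (C.X_eq m).trans e⟩, fun ⟨m, hm, e⟩ =>
    ⟨⟨m, hm⟩, (C.X_eq ⟨m, hm⟩).symm.trans e⟩⟩

theorem X_mem_N (m : Mw) : C.X m ∈ C.N := by
  unfold X
  split
  · exact ⟨_, rfl⟩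
  · exact one_mem _

theorem X_conj {a b : Mw} (ha : Ok k a.w) (hb : Ok k b.w) :
    C.X a * C.X b * (C.X a)⁻¹ = C.X (a * b * a⁻¹) := by
  rw [← C.X_inv ha, ← C.X_mul ha hb, ← C.X_mul (ok_mul k _ _ ha hb) (ok_inv k _ ha)]

theorem X_commute {a b : Mw} (ha : Ok k a.w) (hb : Ok k b.w) :
    Commute (C.X a) (C.X b) ↔ a * b = b * a := by
  refine ⟨fun h => C.X_inj (ok_mul k _ _ ha hb) (ok_mul k _ _ hb ha) ?_, fun h => ?_⟩
  · rw [C.X_mul ha hb, C.X_mul hb ha, h.eq]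
  · rw [Commute, SemiconjBy, ← C.X_mul ha hb, ← C.X_mul hb ha, h]

/-- The element `x`. -/
noncomputable def x : G := C.X (tr xv)

/-- A translation. -/
noncomputable def T (v : Vec) : G := C.X (tr v)

theorem T_add (v w : Vec) : C.T (v + w) = C.T v * C.T w := by
  rw [T, tr_add, C.X_mul (ok_one k) (ok_one k)]; rfl

theorem T_zero : C.T 0 = 1 := C.X_one

theorem T_neg (v : Vec) : C.T (-v) = (C.T v)⁻¹ :=
  eq_inv_of_mul_eq_one_left (by rw [← C.T_add, neg_add_cancel, C.T_zero])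

theorem T_inj {v w : Vec} (h : C.T v = C.T w) : v = w :=
  tr_injective (C.X_inj (ok_one k) (ok_one k) h)

theorem T_cube (v : Vec) : C.T v * C.T v * C.T v = 1 := by
  rw [← C.T_add, ← C.T_add, (by decide +kernel : ∀ u : Vec, u + u + u = 0) v, C.T_zero]

theorem T_comm (v w : Vec) : Commute (C.T v) (C.T w) := by
  rw [Commute, SemiconjBy, ← C.T_add, ← C.T_add, add_comm]

theorem X_conj_T {a : Mw} (ha : Ok k a.w) (v : Vec) :
    C.X a * C.T v * (C.X a)⁻¹ = C.T (lact a.w v) := by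
  rw [T, C.X_conj ha (ok_one k), conj_tr, mul_inv_cancel_right]
  rfl

/-- The translations. -/
def J : Subgroup G := (C.ι.comp (trS k)).range

theorem T_eq (v : Vec) : C.T v = C.ι (trS k (Multiplicative.ofAdd v)) :=
  C.X_eq (trS k (Multiplicative.ofAdd v))

theorem mem_J {g : G} : g ∈ C.J ↔ ∃ v, C.T v = g :=
  ⟨fun ⟨v, h⟩ => ⟨v.toAdd, (C.T_eq _).trans h⟩,
    fun ⟨v, h⟩ => ⟨Multiplicative.ofAdd v, (C.T_eq v).symm.trans h⟩⟩

theorem T_mem_J (v : Vec) : C.T v ∈ C.J := C.mem_J.mpr ⟨v, rfl⟩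

theorem J_le_N : C.J ≤ C.N := fun _ ⟨v, h⟩ => ⟨trS k v, h⟩

theorem card_J : Nat.card C.J = 27 := by
  rw [J, ← Nat.card_congr (MonoidHom.ofInjective (fun a b h => tr_injective (congrArg Subtype.val
    (C.inj h)) : Function.Injective (C.ι.comp (trS k)))).toEquiv, Nat.card_eq_fintype_card]
  rfl

theorem J_comm {a b : G} (ha : a ∈ C.J) (hb : b ∈ C.J) : Commute a b := by
  obtain ⟨v, rfl⟩ := C.mem_J.mp ha
  obtain ⟨w, rfl⟩ := C.mem_J.mp hb
  exact C.T_comm v w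

theorem cent_x {g : G} (h : Commute g C.x) : ∃ m, Ok 0 m.w ∧ C.X m = g := by
  obtain ⟨m, hm, rfl⟩ := C.cent g (by rwa [← C.T_eq])
  exact ⟨m.1, hm, C.X_eq m⟩

theorem mem_N_of_cent_x {g : G} (h : Commute g C.x) : g ∈ C.N := by
  obtain ⟨m, -, rfl⟩ := C.cent_x h
  exact C.X_mem_N m

theorem mem_N_of_norm {g : G} (h : ∀ v, ∃ w, g * C.T v * g⁻¹ = C.T w) : g ∈ C.N := by
  refine C.norm g fun j hj => ?_
  obtain ⟨v, rfl⟩ := C.mem_J.mp hj
  obtain ⟨w, hw⟩ := h v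
  rw [hw]; exact C.T_mem_J w

theorem N_le_normalizer [Finite G] : C.N ≤ normalizer (C.J : Set G) := by
  intro g hg
  obtain ⟨m, hm, rfl⟩ := C.mem_N.mp hg
  refine mem_normalizer_fintype fun j hj => ?_
  obtain ⟨v, rfl⟩ := C.mem_J.mp hj
  rw [C.X_conj_T hm]
  exact C.T_mem_J _

theorem normalizer_le_N : normalizer (C.J : Set G) ≤ C.N :=
  fun g hg => C.norm g fun j hj => (mem_normalizer_iff.mp hg j).mp hj

theorem normal_of_top (h : C.N = ⊤) : C.J.Normal := by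
  refine ⟨fun j hj g => ?_⟩
  obtain ⟨m, hm, rfl⟩ := C.mem_N.mp (h.symm ▸ mem_top g : g ∈ C.N)
  obtain ⟨v, rfl⟩ := C.mem_J.mp hj
  rw [C.X_conj_T hm]
  exact C.T_mem_J _

theorem cent_J {g : G} (h : ∀ v, Commute g (C.T v)) : g ∈ C.J := by
  obtain ⟨m, hm, rfl⟩ := C.cent_x (h xv)
  have hw : m.w = 0 := cent_tr_table m hm fun v =>
    (C.X_commute (ok_zero_le k _ hm) (ok_one k)).mp (h v)
  refine C.mem_J.mpr ⟨m.v, ?_⟩
  rw [T, tr, ← hw]

theorem sig {K : Subgroup G} (hK : (Nat.card K).Coprime 3)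
    (h : ∀ v, ∀ a ∈ K, C.T v * a * (C.T v)⁻¹ ∈ K) : K = ⊥ := by
  refine C.hsig K hK fun j hj => ?_
  obtain ⟨v, rfl⟩ := C.mem_J.mp hj
  refine le_antisymm ?_ fun a ha => ?_
  · rintro _ ⟨a, ha, rfl⟩; exact h v a ha
  · refine ⟨(C.T v)⁻¹ * a * C.T v, ?_, ?_⟩
    · have := h (-v) a ha
      rwa [C.T_neg, inv_inv] at this
    · change C.T v * _ * (C.T v)⁻¹ = a
      group

/-- A base from a configuration. -/
def toBase : Base G where
  φ := C.ι.comp (Subgroup.inclusion fun m hm => ok_zero_le k m.w hm)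
  inj := C.inj.comp (Subgroup.inclusion_injective _)
  cent g hg := by
    obtain ⟨m, hm, rfl⟩ := C.cent g hg
    exact ⟨⟨m.1, hm⟩, rfl⟩
  hsig K hK h := C.hsig K hK h

include C in
theorem not_243 [Finite G] : ¬ 243 ∣ Nat.card G := C.toBase.not_243

/-- The centraliser of a translation lies in the monomial group. -/
def CentLe (v : Vec) : Prop := ∀ g : G, Commute g (C.T v) → g ∈ C.N

theorem centLe_x : C.CentLe xv := fun _ h => C.mem_N_of_cent_x h

theorem centLe_conj {v : Vec} (h : C.CentLe v) {a : Fin 48} (ha : Ok k a) :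
    C.CentLe (lact a v) := by
  intro g hg
  have h1 := h ((C.X (lin a))⁻¹ * g * C.X (lin a)) (by
    have := (Commute.conj_iff ((C.X (lin a))⁻¹)).mpr hg
    rw [show C.T (lact a v) = C.X (lin a) * C.T v * (C.X (lin a))⁻¹ from
      (C.X_conj_T (lin_mem k a ha) v).symm] at this
    simpa [mul_assoc] using this)
  have := mul_mem (mul_mem (C.X_mem_N (lin a)) h1) (inv_mem (C.X_mem_N (lin a)))
  simpa [mul_assoc] using this

theorem centLe_neg {v : Vec} (h : C.CentLe v) : C.CentLe (-v) := fun g hg => h g (by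
  rw [C.T_neg] at hg; simpa using hg.inv_right)

/-- The Sylow three-subgroup of the configuration. -/
noncomputable def P : Subgroup G where
  carrier := {g | ∃ m, InP m ∧ C.X m = g}
  one_mem' := ⟨1, by decide +kernel, C.X_one⟩
  mul_mem' := by
    rintro _ _ ⟨a, ha, rfl⟩ ⟨b, hb, rfl⟩
    exact ⟨a * b, (by decide +kernel : ∀ a b : Fin 48, bits a = 0 → bits b = 0 →
      pcode a ∈ ([0, 3, 4] : List (Fin 6)) → pcode b ∈ ([0, 3, 4] : List (Fin 6)) →
      bits (lmul a b) = 0 ∧ pcode (lmul a b) ∈ ([0, 3, 4] : List (Fin 6))) a.w b.w ha.1 hb.1 ha.2 hb.2,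
      C.X_mul (inP_ok _ ha.1 k) (inP_ok _ hb.1 k)⟩
  inv_mem' := by
    rintro _ ⟨a, ha, rfl⟩
    exact ⟨a⁻¹, (by decide +kernel : ∀ a : Fin 48, bits a = 0 →
      pcode a ∈ ([0, 3, 4] : List (Fin 6)) →
      bits (linv a) = 0 ∧ pcode (linv a) ∈ ([0, 3, 4] : List (Fin 6))) a.w ha.1 ha.2,
      C.X_inv (inP_ok _ ha.1 k)⟩

theorem card_P : Nat.card C.P = 81 := by
  let f : {m : Mw // InP m} → C.P := fun m => ⟨C.X m, m.1, m.2, rfl⟩
  have hf : Function.Bijective f := ⟨fun a b h => Subtype.ext (C.X_inj (inP_ok _ a.2.1 k)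
    (inP_ok _ b.2.1 k) (congrArg Subtype.val h)), fun ⟨g, m, hm, e⟩ => ⟨⟨m, hm⟩, Subtype.ext e⟩⟩
  rw [← Nat.card_eq_of_bijective f hf, Nat.card_eq_fintype_card]
  decide +kernel

theorem J_le_P : C.J ≤ C.P := fun g hg => by
  obtain ⟨v, rfl⟩ := C.mem_J.mp hg
  exact ⟨tr v, (by decide +kernel : bits 0 = 0 ∧ pcode 0 ∈ ([0, 3, 4] : List (Fin 6))), rfl⟩

include C in
theorem sylow_card [Finite G] (Q : Sylow 3 G) : Nat.card Q = 81 := by
  haveI := Fact.mk Nat.prime_three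
  obtain ⟨n, hn⟩ := Q.2.exists_card_eq
  have h1 : 81 ∣ Nat.card Q := by
    refine Q.pow_dvd_card_of_pow_dvd_card (n := 4) ?_
    rw [show 3 ^ 4 = Nat.card C.P from C.card_P.symm]
    exact Subgroup.card_subgroup_dvd_card _
  have h2 : n < 5 := by
    by_contra hlt
    refine C.not_243 ((show 243 ∣ Nat.card Q from ?_).trans (Subgroup.card_subgroup_dvd_card _))
    rw [hn]
    exact Nat.pow_dvd_pow 3 (not_lt.mp hlt)
  have h3 : 4 ≤ n := by
    rw [hn] at h1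
    exact (Nat.pow_dvd_pow_iff_le_right (by norm_num : 1 < 3)).mp h1
  rw [hn, show n = 4 by omega]
  norm_num

end Ctx

end CfsgLib.SymNine40
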