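import Cfsg.Agent.SymNine40.Interface

/-!
Finite tables for the case of even sign changes.
-/

set_option autoImplicit false
set_option maxRecDepth 20000

namespace CfsgLib.SymNine40.CaseTwo

open Mw

/-- The exponent of the three-cycle. -/
def ex (a : Fin 48) : ZMod 3 := if pcode a = 3 then 1 else if pcode a = 4 then 2 else 0

/-- The permutation of the linear part is even. -/
def Ev (a : Fin 48) : Prop := pcode a ∈ ([0, 3, 4] : List (Fin 6))

instance : DecidablePred Ev := fun a => by unfold Ev; infer_instance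

theorem ok_pi : Ok 2 piM.w := by decide +kernel
theorem ok_n12 : Ok 2 (lin 18).w := by decide +kernel
theorem ok_n23 : Ok 2 (lin 36).w := by decide +kernel
theorem ok_sigma : Ok 2 (lin 3).w := by decide +kernel

theorem cent_pi : ∀ m : Mw, Ok 2 m.w → m * piM = piM * m →
    m.v.1 = m.v.2.1 ∧ m.w ∈ ([0, 2, 18, 20] : List (Fin 48)) := by decide +kernel

theorem cent_pi_e3 : ∀ m : Mw, Ok 2 m.w → m * piM = piM * m → lact m.w e3 = e3 := by
  decide +kernel

theorem cent_pi_f : ∀ m : Mw, Ok 2 m.w → m * piM = piM * m →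
    lact m.w (1, 1, 0) = (1, 1, 0) → m = tr m.v ∨ m = tr m.v * piM := by decide +kernel

theorem cent_pi_split : ∀ m : Mw, Ok 2 m.w → m * piM = piM * m →
    m = tr m.v ∨ m = tr m.v * piM ∨ m * lin 18 = tr m.v ∨ m * lin 18 = tr m.v * piM := by
  decide +kernel

theorem cent_pi_plane : ∀ v : Vec, v.1 = v.2.1 → tr v * piM = piM * tr v := by decide +kernel

theorem plane_indep : ∀ i j : Fin 3, i.val • ((1, 1, 0) : Vec) + j.val • e3 = 0 → i = 0 ∧ j = 0 := by
  decide +kernel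

theorem plane_coords : ∀ v : Vec, v.1 = v.2.1 →
    ∃ i j : Fin 3, i.val • ((1, 1, 0) : Vec) + j.val • e3 = v := by decide +kernel

theorem pi_basic : piM * piM = 1 ∧ lin 18 * lin 18 = 1 ∧ piM ≠ 1 ∧ piM ≠ lin 18 ∧
    piM * lin 18 = lin 18 * piM ∧ lin 18 * tr (1, 1, 0) * lin 18 = tr (-(1, 1, 0)) ∧
    lin 36 * piM * (lin 36)⁻¹ = lin 18 * piM ∧ lin 36 * lin 18 = lin 18 * lin 36 ∧
    lin 36 * lin 36 = 1 := by
  decide +kernel

theorem cent_n12_e3 : lin 18 * tr e3 = tr e3 * lin 18 := by decide +kernel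

theorem no_root_pi : ∀ m : Mw, Ok 2 m.w → m * piM = piM * m → m * m ≠ piM := by decide +kernel

theorem root_n12 : Ok 2 (piM * lin 30).w ∧ (piM * lin 30) * (piM * lin 30) = lin 18 := by
  decide +kernel

theorem iso_one : ∀ m : Mw, Ok 2 m.w → m * lin 18 = lin 18 * m → m * m = 1 →
    m * piM = piM * m → m = 1 ∨ m = lin 18 ∨ m = piM ∨ m = piM * lin 18 := by decide +kernel

theorem iso_two : ∀ m : Mw, Ok 2 m.w → m * lin 18 = lin 18 * m → m * m = 1 →
    m * piM * m * piM = lin 18 → ∃ a : Mw, Ok 2 a.w ∧ a * lin 18 * a⁻¹ = m := by decide +kernel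

/-- The Sylow two-subgroup of the permutations. -/
def InD (m : Mw) : Prop :=
  m.v = 0 ∧ Ok 2 m.w ∧ pcode m.w ∈ ([0, 2] : List (Fin 6))

instance : DecidablePred InD := fun m => by unfold InD; infer_instance

theorem inD_mul : ∀ a b : Fin 48, InD (lin a) → InD (lin b) → InD (lin a * lin b) := by
  decide +kernel

theorem inD_inv : ∀ a : Fin 48, InD (lin a) → InD (lin a)⁻¹ := by decide +kernel

theorem inD_center : ∀ m : Mw, InD m → m ≠ 1 →
    (∀ n : Fin 48, InD (lin n) → m * lin n = lin n * m) → m = lin 18 := by decide +kernel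

theorem inD_n12 : InD (lin 18) ∧ InD piM ∧ ¬ Ev piM.w ∧ InD 1 := by decide +kernel

theorem inD_sign : ∀ m : Mw, InD m → pcode m.w = 0 → m ≠ 1 →
    ∃ a : Mw, Ok 2 a.w ∧ a * lin 18 * a⁻¹ = m := by decide +kernel

theorem inD_cent : ∀ m : Mw, InD m → m * lin 18 = lin 18 * m := by decide +kernel

theorem cent_n12_card : Fintype.card {m : Mw // Ok 2 m.w ∧ m * lin 18 = lin 18 * m} = 24 := by
  decide +kernel

theorem card_inD : Fintype.card {m : Mw // InD m} = 8 := by decide +kernel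

theorem card_inD_sign : Fintype.card {m : Mw // InD m ∧ pcode m.w = 0} = 4 := by decide +kernel

theorem even_squares : ∀ w : Fin 48, Ok 2 w → Ev w →
    ∃ a b : Fin 48, Ok 2 a ∧ Ok 2 b ∧ w = lmul (lmul a a) (lmul b b) := by decide +kernel

theorem odd_pi : ∀ w : Fin 48, Ok 2 w → ¬ Ev w → Ev (lmul w 2) := by decide +kernel

theorem translation_root : ∀ v : Vec, tr v = tr (-v) * tr (-v) := by decide +kernel

theorem ex_mul : ∀ a b : Fin 48, Ev a → Ev b → ex (lmul a b) = ex a + ex b := by decide +kernel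

theorem ex_inv : ∀ a : Fin 48, Ev a → ex (linv a) = - ex a := by decide +kernel

theorem ex_zero : ∀ m : Mw, InP m → ex m.w = 0 → m = tr m.v := by decide +kernel

theorem ex_three : ex 0 = 0 ∧ ex 3 = 1 ∧ ex 4 = 2 ∧ InP (lin 3) ∧ (lin 3)⁻¹ = lin 4 ∧
    piM * lin 3 * piM⁻¹ = lin 4 := by decide +kernel

theorem fix_line : ∀ w : Fin 48, Ok 2 w → Ev w → (lact w xv = xv ∨ lact w xv = -xv) →
    bits w = 0 := by decide +kernel

theorem not_real : ∀ w : Fin 48, Ok 2 w → lact w xv ≠ -xv := by decide +kernel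

theorem cube_ninth : ∀ m : Mw, InP m → m * m * m ≠ 1 →
    m * m * m = tr xv ∨ m * m * m = tr (-xv) := by decide +kernel

theorem cube_one_w : ∀ m : Mw, InP m → ex m.w ≠ 0 → m * m * m = 1 →
    ∃ u : Vec, (ex m.w = 1 ∧ tr u * lin 3 * (tr u)⁻¹ = m) ∨
      (ex m.w = 2 ∧ tr u * lin 4 * (tr u)⁻¹ = m) := by decide +kernel

theorem cent_sigma : ∀ m : Mw, Ok 0 m.w → m * lin 3 = lin 3 * m →
    InP m ∧ m * m * m = 1 ∧ ∃ c i : Fin 3, m = tr (c, c, c) * lin 3 ^ i.val := by decide +kernel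

theorem xv_sigma : tr xv * lin 3 = lin 3 * tr xv ∧ InP (tr xv) ∧
    (∀ c : Fin 3, ((c, c, c) : Vec) = 0 ∨ ((c, c, c) : Vec) = xv ∨ ((c, c, c) : Vec) = -xv) := by
  decide +kernel

theorem xv_three : ∀ i : Fin 3, tr xv * lin 3 ^ i.val * (tr xv * lin 3 ^ i.val) *
    (tr xv * lin 3 ^ i.val) = 1 ∧ InP (tr xv * lin 3 ^ i.val) ∧
    InP (tr (-xv) * lin 3 ^ i.val) ∧
    (tr (-xv) * lin 3 ^ i.val) * (tr (-xv) * lin 3 ^ i.val) * (tr (-xv) * lin 3 ^ i.val) = 1 ∧
    ex (tr xv * lin 3 ^ i.val).w = (i.val : ZMod 3) ∧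
    ex (tr (-xv) * lin 3 ^ i.val).w = (i.val : ZMod 3) := by decide +kernel

theorem shift_sigma : ∃ u : Vec, tr u * lin 3 * (tr u)⁻¹ = lin 3 * tr (-xv) := by decide +kernel

theorem sign_cube : ∀ m : Mw, Ok 2 m.w → pcode m.w = 0 → m * m * m = 1 → m = tr m.v := by
  decide +kernel

theorem sign_square : ∀ w : Fin 48, Ok 2 w → pcode w = 0 → lmul w w = 0 := by decide +kernel

theorem ev_sign : ∀ w : Fin 48, Ok 2 w → Ev w → ∃ s t : Fin 48, Ok 2 s ∧ pcode s = 0 ∧
    InP (lin t) ∧ ex t = ex w ∧ lmul s t = w := by decide +kernel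

theorem sign_ev : ∀ w : Fin 48, pcode w = 0 → Ev w := by decide +kernel

/-- The linear part of two signs. -/
def signOf (p q : Bool) : Fin 48 :=
  Fin.ofNat 48 (6 * ((if p then 1 else 0) + (if q then 2 else 0) + (if xor p q then 4 else 0)))

theorem signOf_mul : ∀ p q p' q' : Bool,
    lmul (signOf p q) (signOf p' q') = signOf (xor p p') (xor q q') := by decide +kernel

theorem signOf_ok : ∀ p q : Bool, Ok 2 (signOf p q) ∧ pcode (signOf p q) = 0 := by decide +kernel

theorem signOf_surj : ∀ w : Fin 48, Ok 2 w → pcode w = 0 → ∃ p q, signOf p q = w := by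
  decide +kernel

theorem signOf_inj : ∀ p q p' q' : Bool, signOf p q = signOf p' q' → p = p' ∧ q = q' := by
  decide +kernel

end CfsgLib.SymNine40.CaseTwo
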