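import Cfsg.Agent.SymNine40.Basic

/-!
Predicates used between the parts of the proof.

* `XType`, `Wt1`: the two special orbits of vectors.
* `SixType`, `Split`: the centraliser of a short translation is a product with the symmetric
  group of degree six.
* `CentPi`: the centraliser of the exchange of two blocks.
-/

set_option autoImplicit false
set_option maxRecDepth 20000

open Equiv Subgroup

namespace CfsgLib.SymNine40

open Mw

/-- A vector in the orbit of `±xv`. -/
def XType (k : Fin 4) (v : Vec) : Prop :=
  ∃ a, Ok k a ∧ (lact a xv = v ∨ lact a xv = -v)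

instance (k : Fin 4) (v : Vec) : Decidable (XType k v) := by unfold XType; infer_instance

/-- A vector with one non-zero coordinate. -/
def Wt1 (v : Vec) : Prop := v ∈ ([e1, e2, e3, -e1, -e2, -e3] : List Vec)

instance (v : Vec) : Decidable (Wt1 v) := by unfold Wt1; infer_instance

/-- The exchange of the first two blocks. -/
def piM : Mw := lin 2

/-- The exchange of the first two halves of six points. -/
def piSix : Perm (Fin 6) := swap 0 3 * swap 1 4 * swap 2 5

variable {G : Type*} [Group G]

/-- All relevant centralisers lie in the monomial group. -/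
def Ctx.AllLe {k : Fin 4} (C : Ctx G k) : Prop :=
  ∀ v : Vec, v ≠ 0 → (k = 3 → ¬ Wt1 v) → C.CentLe v

/-- The centraliser of a short translation is the symmetric group of degree six modulo it. -/
def Ctx.SixType (C : Ctx G 3) : Prop :=
  ∃ ψ : centralizer ({C.T e3} : Set G) →* Perm (Fin 6), Function.Surjective ψ ∧
    ∀ c, ψ c = 1 ↔ ∃ i : Fin 3, C.T (unit 2 i) = c

/-- A complement of a short translation in its centraliser, in coordinates. -/
structure Ctx.Split (C : Ctx G 3) where
  /-- the complement -/
  κ : Perm (Fin 6) →* G
  inj : Function.Injective κ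
  comm : ∀ p, Commute (κ p) (C.T e3)
  comm_t : ∀ p, Commute (κ p) (C.X (lin 24))
  decomp : ∀ g, Commute g (C.T e3) → ∃ i p, g = C.T (unit 2 i) * κ p
  compat : ∀ (m : Mw) (p : Perm (Fin 6)),
    (∀ i : Fin 6, toPerm m (i.castLE (by norm_num)) = (p i).castLE (by norm_num)) →
    (∀ j : Fin 9, 6 ≤ j.val → toPerm m j = j) → κ p = C.X m

/-- The centraliser of the exchange of the first two blocks. -/
def Ctx.CentPi (C : Ctx G 3) (S : C.Split) : Prop :=
  ∀ g, Commute g (C.X piM) → ∃ p i, ∃ e : Bool, p * piSix = piSix * p ∧
    g = S.κ p * C.X ⟨unit 2 i, if e then 24 else 0⟩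

end CfsgLib.SymNine40
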