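import Cfsg.Agent.SymNine40.Model

/-!
The subgroups of linear maps of a three-dimensional space over three elements in which the
stabiliser of a vector is the group of coordinate permutations and of order prime to nine.

* `classify`: after a change of coordinates they are the linear parts of one of the four kinds.
-/

set_option autoImplicit false
set_option maxRecDepth 20000

open Equiv

namespace CfsgLib.SymNine40

open Mw

theorem linv_act : ∀ a : Fin 48, ∀ v : Vec,
    lact (linv a) (lact a v) = v ∧ lact a (lact (linv a) v) = v := by decide +kernel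

/-- A linear part as a permutation of vectors. -/
def lp (a : Fin 48) : Perm Vec :=
  ⟨lact a, lact (linv a), fun v => (linv_act a v).1, fun v => (linv_act a v).2⟩

theorem lp_apply (a : Fin 48) (v : Vec) : lp a v = lact a v := rfl

theorem lp_mul (a b : Fin 48) : lp a * lp b = lp (lmul a b) :=
  Perm.ext fun v => (lact_lmul a b v).symm

theorem lp_zero : lp 0 = 1 := Perm.ext lact_zero

theorem lp_inj : ∀ a b : Fin 48, (∀ v, lact a v = lact b v) → a = b := by decide +kernel

theorem lp_injective : Function.Injective lp := fun a b h =>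
  lp_inj a b fun v => DFunLike.congr_fun h v

theorem lp_inv (a : Fin 48) : (lp a)⁻¹ = lp (linv a) := by
  rw [inv_eq_iff_mul_eq_one, lp_mul,
    show lmul a (linv a) = 0 from (by decide +kernel : ∀ a, lmul a (linv a) = 0) a, lp_zero]

/-- The first unit vector. -/
def e1 : Vec := (1, 0, 0)
/-- The second unit vector. -/
def e2 : Vec := (0, 1, 0)
/-- The third unit vector. -/
def e3 : Vec := (0, 0, 1)

/-- The linear extension of the images of the unit vectors. -/
def ext (c1 c2 c3 v : Vec) : Vec := v.1.val • c1 + v.2.1.val • c2 + v.2.2.val • c3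

theorem ext_unit : ∀ v : Vec, v.1.val • e1 + v.2.1.val • e2 + v.2.2.val • e3 = v := by
  decide +kernel

theorem add_eq_ext (f : Vec → Vec) (hf : ∀ v w, f (v + w) = f v + f w) (v : Vec) :
    f v = ext (f e1) (f e2) (f e3) v := by
  let F := AddMonoidHom.mk' f hf
  have h : F v = ext (F e1) (F e2) (F e3) v := by
    unfold ext
    rw [← map_nsmul, ← map_nsmul, ← map_nsmul, ← map_add, ← map_add, ext_unit]
  exact h

/-- The change of coordinates fixing `xv` and commuting with the permutations. -/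
def shear (b : Fin 3) (v : Vec) : Vec :=
  (v.1 + b * (v.1 + v.2.1 + v.2.2), v.2.1 + b * (v.1 + v.2.1 + v.2.2),
    v.2.2 + b * (v.1 + v.2.1 + v.2.2))

theorem shear_facts : ∀ b : Fin 3, ∀ v : Vec, shear b (shear (-b) v) = v ∧
    shear b xv = xv ∧ ∀ a : Fin 6, shear b (lact (a.castLE (by norm_num)) v) =
      lact (a.castLE (by norm_num)) (shear b v) := by decide +kernel

theorem shear_add : ∀ b : Fin 3, ∀ v w : Vec, shear b (v + w) = shear b v + shear b w := by
  decide +kernel

theorem shear_perm : ∀ b : Fin 3, ∀ a : Fin 48, Ok 0 a → ∀ v, shear b (lact a v) = lact a (shear b v) := by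
  decide +kernel

/-- The even sign change moving the central vector, in coordinates `b`. -/
def hb (b : Fin 3) (v : Vec) : Vec := shear b (lact 36 (shear (-b) v))

/-- The image of `xv` under `hb`. -/
def yb (b : Fin 3) : Vec := (1 - b, -1 - b, -1 - b)

theorem generated : ∀ b : Fin 3, ∀ v : Vec, ∃ i j l : Fin 3,
    v = i.val • xv + j.val • yb b + l.val • lact 3 (yb b) := by decide +kernel

theorem hb_values : ∀ b : Fin 3, hb b xv = yb b ∧ hb b (yb b) = xv ∧
    hb b (lact 3 (yb b)) = lact 4 (yb b) ∧ yb (b) ≠ xv := by decide +kernel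

/-- A sign. -/
def sg (c : Bool) (v : Vec) : Vec := if c then -v else v

/-- A relation among the four lines is preserved by the exchange with the given signs. -/
def RelKept (y : Vec) (c1 c2 c3 : Bool) : Prop := ∀ i j l m : Fin 3,
  i.val • xv + j.val • y + l.val • lact 3 y + m.val • lact 4 y = 0 →
  i.val • y + j.val • sg c1 xv + l.val • sg c2 (lact 4 y) + m.val • sg c3 (lact 3 y) = 0

instance (y : Vec) (c1 c2 c3 : Bool) : Decidable (RelKept y c1 c2 c3) := by
  unfold RelKept; infer_instance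

theorem inv_self (w : Perm Vec) (v : Vec) : w⁻¹ (w v) = v := w.symm_apply_apply v

/-- The vectors with first non-zero coordinate one. -/
def Pos (v : Vec) : Prop := v.1 = 1 ∨ (v.1 = 0 ∧ (v.2.1 = 1 ∨ (v.2.1 = 0 ∧ v.2.2 = 1)))

instance : DecidablePred Pos := fun v => by unfold Pos; infer_instance

theorem pos_neg : ∀ v : Vec, v ≠ 0 → (Pos (-v) ↔ ¬ Pos v) := by decide +kernel

theorem orb_table : ∀ n : Fin 27, (∀ p ∈ [5, 7, 11, 17, 19, 23], ¬ p ∣ n.val) →
    (n.val % 3 = 2 → 2 ∣ n.val → n.val = 2 ∨ n.val = 8 ∨ n.val = 26) ∧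
    (n.val % 3 = 1 → n.val ≤ 13 → n.val = 1 ∨ n.val = 4 ∨ n.val = 13) := by decide +kernel

set_option synthInstance.maxSize 4000 in
set_option synthInstance.maxHeartbeats 100000 in
theorem klein_table : ∀ y : Vec, (lact 1 y = y ∨ lact 1 y = -y) → y ≠ 0 → y ≠ xv → y ≠ -xv →
    ∀ c2 c3 : Bool, RelKept y false c2 c3 →
    ∃ b : Fin 3, (y = yb b ∧ c2 = false) ∨ (y = -yb b ∧ c2 = true) := by
  decide +kernel

theorem scalar_table : ∀ v1 : Vec, lact 1 v1 = v1 → v1 + lact 3 v1 + lact 4 v1 = -xv →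
    (∀ a : Fin 48, Ok 0 a → lact a e1 = ext v1 (lact 3 v1) (lact 4 v1) v1 →
      lact a e2 = ext v1 (lact 3 v1) (lact 4 v1) (lact 3 v1) → v1 = -e1) ∧
    ext v1 (lact 3 v1) (lact 4 v1) xv = -xv := by decide +kernel

theorem unit_rot : lact 3 e1 = e2 ∧ lact 4 e1 = e3 ∧ lact 1 e1 = e1 ∧ e1 + e2 + e3 = xv := by
  decide +kernel

theorem neg_act : ∀ v : Vec, lact 42 v = -v := by decide +kernel

theorem sigma_fixed : ∀ v : Vec, lact 3 v = v → v = 0 ∨ v = xv ∨ v = -xv := by decide +kernel

theorem three_dvd_fix (w : Perm Vec) (hw : ∀ v u, w (v + u) = w v + w u) :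
    Nat.card {v : Vec // w v = v} ∈ ({1, 3, 9, 27} : Finset ℕ) := by
  let S : AddSubgroup Vec := (AddMonoidHom.mk' w hw).eqLocus (AddMonoidHom.id Vec)
  have h : Nat.card {v : Vec // w v = v} = Nat.card S := rfl
  have hd : Nat.card S ∣ 27 := by
    have := S.card_addSubgroup_dvd_card
    rwa [Nat.card_eq_fintype_card (α := Vec), show Fintype.card Vec = 27 by rfl] at this
  rw [h]
  obtain ⟨i, hi, e⟩ := (Nat.dvd_prime_pow Nat.prime_three).mp (show Nat.card S ∣ 3 ^ 3 from hd)
  rw [e]
  interval_cases i <;> simp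

/-- A group of linear maps containing the permutations as stabiliser of `xv`. -/
structure LinGroup where
  /-- the group -/
  W : Subgroup (Perm Vec)
  /-- linearity -/
  add : ∀ w ∈ W, ∀ v u, w (v + u) = w v + w u
  /-- the permutations -/
  perms : ∀ a, Ok 0 a → lp a ∈ W
  /-- the stabiliser -/
  stab : ∀ w ∈ W, w xv = xv → ∃ a, Ok 0 a ∧ w = lp a
  /-- the Sylow bound -/
  nine : ¬ 9 ∣ Nat.card W

namespace LinGroup

variable (L : LinGroup)

theorem map_neg' {w : Perm Vec} (hw : w ∈ L.W) (v : Vec) : w (-v) = -w v :=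
  (AddMonoidHom.mk' w (L.add w hw)).map_neg v

theorem map_zero' {w : Perm Vec} (hw : w ∈ L.W) : w 0 = 0 :=
  (AddMonoidHom.mk' w (L.add w hw)).map_zero

open Classical in
/-- The orbit of `xv`. -/
noncomputable def orb : Finset Vec := Finset.univ.filter fun y => ∃ w ∈ L.W, w xv = y

theorem mem_orb {y : Vec} : y ∈ L.orb ↔ ∃ w ∈ L.W, w xv = y := by simp [orb]

theorem orb_map {y : Vec} (hy : y ∈ L.orb) {w : Perm Vec} (hw : w ∈ L.W) : w y ∈ L.orb := by
  obtain ⟨u, hu, rfl⟩ := L.mem_orb.mp hy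
  exact L.mem_orb.mpr ⟨w * u, mul_mem hw hu, rfl⟩

theorem xv_mem : xv ∈ L.orb := L.mem_orb.mpr ⟨1, one_mem _, rfl⟩

theorem zero_notMem : (0 : Vec) ∉ L.orb := by
  rintro h
  obtain ⟨w, hw, e⟩ := L.mem_orb.mp h
  have := congrArg (fun v => w⁻¹ v) e

  rw [inv_self, L.map_zero' (inv_mem hw)] at this
  exact absurd this (by decide)

theorem card_eq : Nat.card L.W = 6 * L.orb.card := by
  classical
  have h6 : Nat.card (MulAction.stabilizer L.W xv) = 6 := by
    let f : {a : Fin 48 // Ok 0 a} → MulAction.stabilizer L.W xv := fun a =>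
      ⟨⟨lp a, L.perms a a.2⟩, (by decide +kernel : ∀ a, Ok 0 a → lact a xv = xv) a a.2⟩
    have hf : Function.Bijective f := by
      refine ⟨fun a b h => Subtype.ext (lp_injective (congrArg Subtype.val (congrArg Subtype.val h))),
        fun s => ?_⟩
      obtain ⟨a, ha, e⟩ := L.stab _ s.1.2 s.2
      exact ⟨⟨a, ha⟩, Subtype.ext (Subtype.ext e.symm)⟩
    rw [← Nat.card_eq_of_bijective f hf, Nat.card_eq_fintype_card]
    decide +kernel
  have ho : Nat.card (MulAction.orbit L.W xv) = L.orb.card := by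
    rw [← Nat.card_eq_finsetCard L.orb]
    refine Nat.card_congr (Equiv.subtypeEquivRight fun y => ?_)
    rw [L.mem_orb]
    exact ⟨fun ⟨w, e⟩ => ⟨w, w.2, e⟩, fun ⟨w, hw, e⟩ => ⟨⟨w, hw⟩, e⟩⟩
  rw [← ho, ← h6, mul_comm, ← Nat.card_congr (MulAction.orbitProdStabilizerEquivGroup L.W xv),
    Nat.card_prod]

theorem orb_not_three : ¬ 3 ∣ L.orb.card := fun h =>
  L.nine (L.card_eq ▸ Nat.mul_dvd_mul (show 3 ∣ 6 by norm_num) h)

theorem prime_dvd {p : ℕ} (hp : p.Prime) (h : p ∣ Nat.card L.W) :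
    p ∣ 26 ∨ p ∣ 24 ∨ p ∣ 18 := by
  classical
  haveI := Fact.mk hp
  obtain ⟨g, hg⟩ := exists_prime_orderOf_dvd_card' (G := L.W) p h
  have hg' : orderOf (g : Perm Vec) = p := by rw [Subgroup.orderOf_coe]; exact hg
  have h1 := Perm.card_compl_support_modEq (p := p) (n := 1) (σ := (g : Perm Vec))
    (by rw [pow_one, ← hg', pow_orderOf_eq_one])
  rw [show (g : Perm Vec).supportᶜ.card = Nat.card {v : Vec // (g : Perm Vec) v = v} by
    rw [Nat.card_eq_fintype_card, Fintype.card_subtype]; congr 1; ext v; simp] at h1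
  have h2 := three_dvd_fix _ (L.add _ g.2)
  have h3 : Nat.card {v : Vec // (g : Perm Vec) v = v} ≠ 27 := by
    intro e
    have hall : ∀ v, (g : Perm Vec) v = v := by
      intro v
      by_contra hv
      have hlt : Fintype.card {v : Vec // (g : Perm Vec) v = v} < Fintype.card Vec :=
        Fintype.card_subtype_lt hv
      rw [← Nat.card_eq_fintype_card, e] at hlt
      simp at hlt
    rw [show (g : Perm Vec) = 1 from Perm.ext hall, orderOf_one] at hg'
    exact hp.one_lt.ne hg'
  simp only [Finset.mem_insert, Finset.mem_singleton] at h2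
  rw [show Fintype.card Vec = 27 by rfl] at h1
  rcases h2 with e | e | e | e
  · left; rw [e] at h1; exact (Nat.modEq_iff_dvd' (by norm_num)).mp h1
  · right; left; rw [e] at h1; exact (Nat.modEq_iff_dvd' (by norm_num)).mp h1
  · right; right; rw [e] at h1; exact (Nat.modEq_iff_dvd' (by norm_num)).mp h1
  · exact absurd e h3

theorem neg_mem (h : -xv ∈ L.orb) : lp 42 ∈ L.W := by
  obtain ⟨w0, hw0, e0⟩ := L.mem_orb.mp h
  have hfix : ∀ w ∈ L.W, w xv = -xv → ∀ a, Ok 0 a → ∃ b, Ok 0 b ∧ w * lp a * w⁻¹ = lp b := by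
    intro w hw e a ha
    refine L.stab _ (mul_mem (mul_mem hw (L.perms a ha)) (inv_mem hw)) ?_
    have e' : w⁻¹ xv = -xv := by
      rw [Perm.inv_eq_iff_eq, L.map_neg' hw, e, neg_neg]
    rw [Perm.mul_apply, Perm.mul_apply, e', lp_apply,
      (by decide +kernel : ∀ a, Ok 0 a → lact a (-xv) = -xv) a ha, L.map_neg' hw, e, neg_neg]
  have hσ : ∃ w ∈ L.W, w xv = -xv ∧ w * lp 3 * w⁻¹ = lp 3 := by
    obtain ⟨b, hb, e⟩ := hfix w0 hw0 e0 3 (by decide +kernel)
    have hb' : b = 3 ∨ b = 4 := by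
      refine (by decide +kernel : ∀ b, Ok 0 b → b ≠ 0 → lmul (lmul b b) b = 0 → b = 3 ∨ b = 4) b hb
        ?_ (lp_injective ?_)
      · rintro rfl
        rw [lp_zero, mul_inv_eq_one] at e
        exact absurd (lp_injective ((mul_eq_left.mp e).trans lp_zero.symm)) (by decide +kernel)
      · rw [← lp_mul, ← lp_mul, ← e, show w0 * lp 3 * w0⁻¹ * (w0 * lp 3 * w0⁻¹) * (w0 * lp 3 * w0⁻¹)
          = w0 * (lp 3 * lp 3 * lp 3) * w0⁻¹ by group, lp_mul, lp_mul,
          show lmul (lmul 3 3) 3 = 0 by decide +kernel, lp_zero, mul_one, mul_inv_cancel]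
    rcases hb' with rfl | rfl
    · exact ⟨w0, hw0, e0, e⟩
    · refine ⟨w0 * lp 1, mul_mem hw0 (L.perms 1 (by decide +kernel)), ?_, ?_⟩
      · rw [Perm.mul_apply, lp_apply, show lact 1 xv = xv by decide +kernel, e0]
      · rw [show w0 * lp 1 * lp 3 * (w0 * lp 1)⁻¹ = w0 * (lp 1 * lp 3 * (lp 1)⁻¹) * w0⁻¹ by group,
          lp_inv, lp_mul, lp_mul, show lmul (lmul 1 3) (linv 1) = linv 3 by decide +kernel, ← lp_inv,
          ← conj_inv, e, lp_inv]
        exact congrArg lp (by decide +kernel)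
  obtain ⟨w1, hw1, e1', hc1⟩ := hσ
  have hπ : ∃ w ∈ L.W, w xv = -xv ∧ w * lp 3 * w⁻¹ = lp 3 ∧ w * lp 1 * w⁻¹ = lp 1 := by
    obtain ⟨b, hb, e⟩ := hfix w1 hw1 e1' 1 (by decide +kernel)
    have hb2 : lmul b b = 0 := lp_injective (by
      rw [← lp_mul, ← e, show w1 * lp 1 * w1⁻¹ * (w1 * lp 1 * w1⁻¹) = w1 * (lp 1 * lp 1) * w1⁻¹ by
        group, lp_mul, show lmul 1 1 = 0 by decide +kernel, lp_zero, mul_one, mul_inv_cancel])
    have hb0 : b ≠ 0 := by
      rintro rfl
      rw [lp_zero, mul_inv_eq_one] at e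
      exact absurd (lp_injective ((mul_eq_left.mp e).trans lp_zero.symm)) (by decide +kernel)
    obtain ⟨c, hc, hcx, hc3, hcb⟩ := (by decide +kernel : ∀ b, Ok 0 b → b ≠ 0 → lmul b b = 0 →
      ∃ c, Ok 0 c ∧ lact c (-xv) = -xv ∧ lmul (lmul c 3) (linv c) = 3 ∧
        lmul (lmul c b) (linv c) = 1) b hb hb0 hb2
    refine ⟨lp c * w1, mul_mem (L.perms c hc) hw1, ?_, ?_, ?_⟩
    · rw [Perm.mul_apply, e1', lp_apply, hcx]
    · rw [show lp c * w1 * lp 3 * (lp c * w1)⁻¹ = lp c * (w1 * lp 3 * w1⁻¹) * (lp c)⁻¹ by group,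
        hc1, lp_inv, lp_mul, lp_mul, hc3]
    · rw [show lp c * w1 * lp 1 * (lp c * w1)⁻¹ = lp c * (w1 * lp 1 * w1⁻¹) * (lp c)⁻¹ by group,
        e, lp_inv, lp_mul, lp_mul, hcb]
  obtain ⟨w, hw, hwx, hw3, hw1'⟩ := hπ
  have hcom : ∀ a v, w * lp a * w⁻¹ = lp a → w (lact a v) = lact a (w v) := by
    intro a v h
    have := DFunLike.congr_fun h (w v)
    simpa [Perm.mul_apply, lp_apply] using this
  have h2 : w e2 = lact 3 (w e1) := by rw [← hcom 3 _ hw3, unit_rot.1]
  have h3 : w e3 = lact 4 (w e1) := by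
    rw [show e3 = lact 3 e2 by decide +kernel, hcom 3 _ hw3, h2, ← lact_lmul,
      show lmul 3 3 = 4 by decide +kernel]
  have hfixv : lact 1 (w e1) = w e1 := by rw [← hcom 1 _ hw1', unit_rot.2.2.1]
  have hsum : w e1 + lact 3 (w e1) + lact 4 (w e1) = -xv := by
    rw [← h2, ← h3, ← L.add w hw, ← L.add w hw, unit_rot.2.2.2, hwx]
  have hlin : ∀ v, w v = ext (w e1) (lact 3 (w e1)) (lact 4 (w e1)) v := fun v => by
    rw [add_eq_ext w (L.add w hw) v, h2, h3]
  obtain ⟨a, ha, hsq⟩ := L.stab (w * w) (mul_mem hw hw) (by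
    rw [Perm.mul_apply, hwx, L.map_neg' hw, hwx, neg_neg])
  have hv : w e1 = -e1 := (scalar_table (w e1) hfixv hsum).1 a ha
    (by rw [← hlin, ← lp_apply, ← hsq]; rfl)
    (by rw [← hlin, ← h2, ← lp_apply, ← hsq]; rfl)
  have : w = lp 42 := by
    refine Perm.ext fun v => ?_
    rw [hlin, hv, lp_apply]
    exact (by decide +kernel : ∀ v, ext (-e1) (lact 3 (-e1)) (lact 4 (-e1)) v = lact 42 v) v
  exact this ▸ hw

theorem orb_mod : L.orb.card % 3 = (L.orb.filter fun y => lact 3 y = y).card % 3 := by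
  classical
  let τ : Perm L.orb := (lp 3).subtypePerm fun y => by
    refine ⟨fun h => ?_, fun h => L.orb_map h (L.perms 3 (by decide +kernel))⟩
    have := L.orb_map h (inv_mem (L.perms 3 (by decide +kernel)))
    rwa [inv_self] at this
  haveI := Fact.mk Nat.prime_three
  have h := Perm.card_compl_support_modEq (p := 3) (n := 1) (σ := τ) (Perm.ext fun y => Subtype.ext
    ((by decide +kernel : ∀ v, lact 3 (lact 3 (lact 3 v)) = v) (y : Vec)))
  rw [Fintype.card_coe] at h
  rw [← h]
  congr 1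
  refine Finset.card_bij (fun y _ => (y : Vec)) ?_ (fun _ _ _ _ => Subtype.ext) ?_
  · intro y hy
    simp only [Finset.mem_compl, Perm.mem_support, not_not] at hy
    exact Finset.mem_filter.mpr ⟨y.2, congrArg Subtype.val hy⟩
  · intro y hy
    rw [Finset.mem_filter] at hy
    exact ⟨⟨y, hy.1⟩, Finset.mem_compl.mpr fun hs => Perm.mem_support.mp hs (Subtype.ext hy.2), rfl⟩

theorem cases_card : (L.orb.card = 1 ∧ -xv ∉ L.orb) ∨ (L.orb.card = 2 ∧ -xv ∈ L.orb) ∨
    (L.orb.card = 4 ∧ -xv ∉ L.orb) ∨ (L.orb.card = 8 ∧ -xv ∈ L.orb) ∨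
    L.orb.card = 13 ∨ L.orb.card = 26 := by
  classical
  have h3 := L.orb_mod
  have hp : ∀ p, p.Prime → p ∣ L.orb.card → p ∣ 26 ∨ p ∣ 24 ∨ p ∣ 18 := fun p hp hd =>
    L.prime_dvd hp (L.card_eq ▸ hd.trans (dvd_mul_left _ _))
  have hsub : L.orb ⊆ Finset.univ.erase 0 := fun y hy =>
    Finset.mem_erase.mpr ⟨fun e => L.zero_notMem (e ▸ hy), Finset.mem_univ _⟩
  have h26 : L.orb.card ≤ 26 := by
    have := Finset.card_le_card hsub
    rwa [Finset.card_erase_of_mem (Finset.mem_univ _), Finset.card_univ,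
      show Fintype.card Vec = 27 by rfl] at this
  have hF : ∀ y, y ∈ L.orb.filter (fun y => lact 3 y = y) ↔ y ∈ L.orb ∧ (y = xv ∨ y = -xv) := by
    intro y
    rw [Finset.mem_filter]
    refine and_congr_right fun hy => ⟨fun e => ?_, ?_⟩
    · exact (sigma_fixed y e).resolve_left (fun e => L.zero_notMem (e ▸ hy))
    · rintro (rfl | rfl) <;> decide +kernel
  have hnd : ∀ p ∈ [5, 7, 11, 17, 19, 23], ¬ p ∣ L.orb.card := by
    intro p hp' hd
    simp only [List.mem_cons, List.not_mem_nil, or_false] at hp'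
    rcases hp' with rfl | rfl | rfl | rfl | rfl | rfl <;>
      exact absurd (hp _ (by norm_num) hd) (by norm_num)
  by_cases h : -xv ∈ L.orb
  · have hF2 : L.orb.filter (fun y => lact 3 y = y) = {xv, -xv} := by
      ext y
      rw [hF, Finset.mem_insert, Finset.mem_singleton]
      exact ⟨fun h => h.2, fun e => ⟨by rcases e with rfl | rfl <;> [exact L.xv_mem; exact h], e⟩⟩
    rw [hF2, Finset.card_pair (by decide)] at h3
    have hneg : L.orb.image (- ·) = L.orb := by
      refine Finset.eq_of_subset_of_card_le (fun y hy => ?_)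
        (by rw [Finset.card_image_of_injective _ neg_injective])
      obtain ⟨z, hz, rfl⟩ := Finset.mem_image.mp hy
      exact neg_act z ▸ L.orb_map hz (L.neg_mem h)
    have heven : 2 ∣ L.orb.card := by
      have hb : (L.orb.filter fun v => ¬ Pos v) = (L.orb.filter Pos).image (- ·) := by
        ext v
        simp only [Finset.mem_filter, Finset.mem_image]
        refine ⟨fun ⟨h1, h2⟩ => ⟨-v, ⟨hneg ▸ Finset.mem_image_of_mem _ h1,
          (pos_neg v fun e => L.zero_notMem (e ▸ h1)).mpr h2⟩, neg_neg v⟩, ?_⟩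
        rintro ⟨z, ⟨h1, h2⟩, rfl⟩
        exact ⟨hneg ▸ Finset.mem_image_of_mem _ h1,
          fun h3 => (pos_neg z fun e => L.zero_notMem (e ▸ h1)).mp h3 h2⟩
      have := L.orb.card_filter_add_card_filter_not Pos
      rw [hb, Finset.card_image_of_injective _ neg_injective] at this
      exact ⟨_, this.symm.trans (two_mul _).symm⟩
    rcases (orb_table ⟨L.orb.card, by omega⟩ hnd).1 (by simpa using h3) heven with e | e | e
    · exact Or.inr (Or.inl ⟨e, h⟩)
    · exact Or.inr (Or.inr (Or.inr (Or.inl ⟨e, h⟩)))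
    · exact Or.inr (Or.inr (Or.inr (Or.inr (Or.inr e))))
  · have hF1 : L.orb.filter (fun y => lact 3 y = y) = {xv} := by
      ext y
      rw [hF, Finset.mem_singleton]
      exact ⟨fun ⟨h1, h2⟩ => h2.resolve_right (fun e => h (e ▸ h1)),
        fun e => ⟨e ▸ L.xv_mem, Or.inl e⟩⟩
    rw [hF1, Finset.card_singleton] at h3
    have hdis : Disjoint L.orb (L.orb.image (- ·)) := by
      rw [Finset.disjoint_left]
      intro y hy hy'
      obtain ⟨z, hz, rfl⟩ := Finset.mem_image.mp hy'
      obtain ⟨w, hw, rfl⟩ := L.mem_orb.mp hz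
      have := L.orb_map hy (inv_mem hw)
      rw [L.map_neg' (inv_mem hw), inv_self] at this
      exact h this
    have h13 : L.orb.card ≤ 13 := by
      have := Finset.card_le_card (Finset.union_subset hsub (show L.orb.image (- ·) ⊆ _ from fun y hy => by
        obtain ⟨z, hz, rfl⟩ := Finset.mem_image.mp hy
        exact Finset.mem_erase.mpr ⟨fun e => L.zero_notMem (neg_eq_zero.mp e ▸ hz),
          Finset.mem_univ _⟩))
      rw [Finset.card_union_of_disjoint hdis, Finset.card_image_of_injective _ neg_injective,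
        Finset.card_erase_of_mem (Finset.mem_univ _), Finset.card_univ,
        show Fintype.card Vec = 27 by rfl] at this
      omega
    rcases (orb_table ⟨L.orb.card, by omega⟩ hnd).2 (by simpa using h3) h13 with e | e | e
    · exact Or.inl ⟨e, h⟩
    · exact Or.inr (Or.inr (Or.inl ⟨e, h⟩))
    · exact Or.inr (Or.inr (Or.inr (Or.inr (Or.inl e))))

theorem not_thirteen (h : L.orb.card = 13 ∨ L.orb.card = 26) : False := by
  classical
  haveI : Fact (Nat.Prime 13) := ⟨by norm_num⟩
  have hW : Nat.card L.W = 78 ∨ Nat.card L.W = 156 := by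
    rcases h with e | e <;> rw [L.card_eq, e] <;> norm_num
  obtain ⟨⟨w, hw⟩, hword⟩ := exists_prime_orderOf_dvd_card' (G := L.W) 13
    (by rcases hW with e | e <;> rw [e] <;> norm_num)
  obtain ⟨S⟩ : Nonempty (Sylow 13 L.W) := inferInstance
  have hS : Nat.card (S : Subgroup L.W) = 13 := by
    rw [Sylow.card_eq_multiplicity]
    rcases hW with e | e <;> rw [e]
    · rw [show (78 : ℕ) = 6 * 13 from rfl, Nat.factorization_mul (by norm_num) (by norm_num),
        Finsupp.add_apply, Nat.Prime.factorization_self (by norm_num),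
        Nat.factorization_eq_zero_of_not_dvd (by norm_num), zero_add, pow_one]
    · rw [show (156 : ℕ) = 12 * 13 from rfl, Nat.factorization_mul (by norm_num) (by norm_num),
        Finsupp.add_apply, Nat.Prime.factorization_self (by norm_num),
        Nat.factorization_eq_zero_of_not_dvd (by norm_num), zero_add, pow_one]
  have h1 : Nat.card (Sylow 13 L.W) = 1 := by
    have hd := S.card_dvd_index
    have hi := (S : Subgroup L.W).card_mul_index
    rw [hS] at hi
    have hm : Nat.card (Sylow 13 L.W) % 13 = 1 := card_sylow_modEq_one 13 L.W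
    have hle := Nat.le_of_dvd (by omega) hd
    omega
  haveI : Subsingleton (Sylow 13 L.W) := (Nat.card_eq_one_iff_unique.mp h1).1
  haveI := Sylow.normal_of_subsingleton S
  set c : L.W := ⟨w, hw⟩ with hcdef
  have hzS : Subgroup.zpowers c = (S : Subgroup L.W) := by
    obtain ⟨T, hT⟩ := (IsPGroup.of_card (n := 1) (show Nat.card (Subgroup.zpowers c) = 13 ^ 1 by
      rw [Nat.card_zpowers, hword, pow_one])).exists_le_sylow
    rw [Subsingleton.elim T S] at hT
    refine Subgroup.eq_of_le_of_card_ge hT (by rw [hS, Nat.card_zpowers, hword])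
  have hgen : ∀ g : L.W, ∃ i : ℤ, g * c * g⁻¹ = c ^ i := by
    intro g
    have := (inferInstance : (S : Subgroup L.W).Normal).conj_mem c (hzS ▸ Subgroup.mem_zpowers c) g
    rw [← hzS, Subgroup.mem_zpowers_iff] at this
    exact ⟨this.choose, this.choose_spec.symm⟩
  have hcomm : ∀ g u : L.W, (g * u) * c * (g * u)⁻¹ = (u * g) * c * (u * g)⁻¹ := by
    intro g u
    obtain ⟨i, hi⟩ := hgen g
    obtain ⟨j, hj⟩ := hgen u
    rw [show (g * u) * c * (g * u)⁻¹ = g * (u * c * u⁻¹) * g⁻¹ by group, hj, ← conj_zpow, hi,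
      show (u * g) * c * (u * g)⁻¹ = u * (g * c * g⁻¹) * u⁻¹ by group, hi, ← conj_zpow, hj,
      ← zpow_mul, ← zpow_mul, mul_comm]
  set s : L.W := ⟨lp 3, L.perms 3 (by decide +kernel)⟩
  set p : L.W := ⟨lp 1, L.perms 1 (by decide +kernel)⟩
  have hs : p * s = s * s * p := Subtype.ext (by
    simp only [Subgroup.coe_mul, s, p, lp_mul]; exact congrArg lp (by decide +kernel))
  have hsc : s * c * s⁻¹ = c := by
    have h := hcomm p s
    rw [hs, show s * s * p * c * (s * s * p)⁻¹ = s * ((s * p) * c * (s * p)⁻¹) * s⁻¹ by group,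
      ← hcomm p s, hs] at h
    generalize hd : p * c * p⁻¹ = d at *
    have h' : s * (s * s * p * c * (s * s * p)⁻¹) * s⁻¹ = s * s * p * c * (s * s * p)⁻¹ := h
    have := congrArg (fun z => p⁻¹ * (s * s)⁻¹ * z * ((s * s) * p)) h'
    have hps : p⁻¹ * (s * s)⁻¹ * s * (s * s) * p = s * s := by
      refine Subtype.ext ?_
      simp only [Subgroup.coe_mul, Subgroup.coe_inv, s, p, lp_mul, lp_inv]
      exact congrArg lp (by decide +kernel)
    have h2 : (s * s) * c * (s * s)⁻¹ = c := by
      calc (s * s) * c * (s * s)⁻¹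
          = (p⁻¹ * (s * s)⁻¹ * s * (s * s) * p) * c * (p⁻¹ * (s * s)⁻¹ * s * (s * s) * p)⁻¹ := by
            rw [hps]
        _ = p⁻¹ * (s * s)⁻¹ * (s * (s * s * p * c * (s * s * p)⁻¹) * s⁻¹) * ((s * s) * p) := by
            group
        _ = p⁻¹ * (s * s)⁻¹ * (s * s * p * c * (s * s * p)⁻¹) * ((s * s) * p) := by rw [h']
        _ = c := by group
    have hs3 : s * s * s = 1 := Subtype.ext (by
      simp only [Subgroup.coe_mul, Subgroup.coe_one, s, lp_mul, ← lp_zero]
      exact congrArg lp (by decide +kernel))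
    calc s * c * s⁻¹ = s * ((s * s) * c * (s * s)⁻¹) * s⁻¹ := by rw [h2]
      _ = (s * s * s) * c * (s * s * s)⁻¹ := by group
      _ = c := by rw [hs3, one_mul, inv_one, mul_one]
  have hfix : lact 3 (w xv) = w xv := by
    have := DFunLike.congr_fun (congrArg Subtype.val (mul_inv_eq_iff_eq_mul.mp hsc)) xv
    simp only [Subgroup.coe_mul, Perm.mul_apply, s, c, lp_apply,
      show lact 3 xv = xv by decide +kernel] at this
    exact this
  have hxx : (w * w) xv = xv := by
    rcases sigma_fixed _ hfix with e | e | e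
    · exact absurd ((L.orb_map L.xv_mem hw)) (e ▸ L.zero_notMem)
    · rw [Perm.mul_apply, e, e]
    · rw [Perm.mul_apply, e, L.map_neg' hw, e, neg_neg]
  obtain ⟨a, ha, e⟩ := L.stab _ (mul_mem hw hw) hxx
  have h6 : (w * w) ^ 6 = 1 := by
    rw [e, pow_succ, pow_succ, pow_succ, pow_succ, pow_succ, pow_one, lp_mul, lp_mul, lp_mul, lp_mul,
      lp_mul, ← lp_zero]
    exact congrArg lp ((by decide +kernel : ∀ a, Ok 0 a →
      lmul (lmul (lmul (lmul (lmul a a) a) a) a) a = 0) a ha)
  have hw13 : orderOf w = 13 := by rw [← hword, hcdef, Subgroup.orderOf_mk]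
  have h12 : w ^ 12 = 1 := by rw [show 12 = 2 * 6 from rfl, pow_mul, sq, h6]
  have := orderOf_dvd_of_pow_eq_one h12
  rw [hw13] at this
  norm_num at this

/-- Representatives of the four lines of the orbit. -/
def four (y : Vec) : Fin 4 → Vec := ![xv, y, lact 3 y, lact 4 y]

/-- The change of coordinates as a permutation. -/
def shp (b : Fin 3) : Perm Vec :=
  ⟨shear b, shear (-b), fun v => by simpa using (shear_facts (-b) v).1, fun v => (shear_facts b v).1⟩

theorem four_sep : ∀ y : Vec, y ≠ 0 → y ≠ xv → y ≠ -xv → ∀ i j : Fin 4,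
    (four y i = four y j ∨ four y i = -four y j) → i = j := by decide +kernel

theorem four_fix : ∀ y : Vec, y ≠ 0 → y ≠ xv → y ≠ -xv → (∃ i : Fin 4, lact 1 y = four y i ∨
    lact 1 y = -four y i) → ∃ j : Fin 4, j ≠ 0 ∧
      (lact 1 (four y j) = four y j ∨ lact 1 (four y j) = -four y j) := by decide +kernel

theorem four_triv : ∀ y : Vec, y ≠ 0 → y ≠ xv → y ≠ -xv →
    (lact 1 y = y ∨ lact 1 y = -y) → ∀ a, Ok 0 a →
    (lact a y = y ∨ lact a y = -y) → (lact a (lact 3 y) = lact 3 y ∨ lact a (lact 3 y) = -lact 3 y) →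
    a = 0 := by decide +kernel

theorem card_injective : Fintype.card {f : Fin 3 → Fin 4 // Function.Injective f} = 24 := by
  decide +kernel

theorem card_pos : Fintype.card {v : Vec // Pos v} = 13 := by decide +kernel

theorem no_root {w : Perm Vec} (hw : w ∈ L.W) (h : ∀ v, w (w v) = -v) : False := by
  haveI := Fact.mk Nat.prime_two
  have hne : ∀ v : Vec, Pos v → v ≠ 0 := by decide +kernel
  let f : {v : Vec // Pos v} → {v : Vec // Pos v} := fun v =>
    if hp : Pos (w v) then ⟨w v, hp⟩ else ⟨-w v, (pos_neg _ fun e => hne _ v.2 (w.injective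
      (e.trans (L.map_zero' hw).symm))).mpr hp⟩
  have hf : Function.Involutive f := by
    intro v
    by_cases hp : Pos (w v)
    · have h1 : ¬ Pos (w (w v)) := by rw [h]; exact fun h2 => (pos_neg _ (hne _ v.2)).mp h2 v.2
      simp only [f, dif_pos hp, dif_neg h1]
      exact Subtype.ext (show -w (w v) = (v : Vec) by rw [h, neg_neg])
    · have h1 : Pos (w (-w v)) := by rw [L.map_neg' hw, h, neg_neg]; exact v.2
      simp only [f, dif_neg hp, dif_pos h1]
      exact Subtype.ext (show w (-w v) = (v : Vec) by rw [L.map_neg' hw, h, neg_neg])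
  obtain ⟨v, hv⟩ := Perm.exists_fixed_point_of_prime (p := 2) (n := 1)
    (by rw [card_pos]; norm_num) (σ := hf.toPerm f) (Perm.ext fun v => hf v)
  have hv' : f v = v := hv
  have he : w v = v ∨ w v = -(v : Vec) := by
    by_cases hp : Pos (w v)
    · simp only [f, dif_pos hp, Subtype.ext_iff] at hv'; exact Or.inl hv'
    · simp only [f, dif_neg hp, Subtype.ext_iff] at hv'; exact Or.inr (neg_eq_iff_eq_neg.mp hv')
  have h2 : w (w v) = (v : Vec) := by
    rcases he with e | e
    · rw [e, e]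
    · rw [e, L.map_neg' hw, e, neg_neg]
  exact hne _ v.2 ((by decide : ∀ u : Vec, -u = u → u = 0) _ ((h v).symm.trans h2))

theorem no_neg (h : -xv ∉ L.orb) {z : Vec} (hz : z ∈ L.orb) : -z ∉ L.orb := by
  intro hy
  obtain ⟨w, hw, rfl⟩ := L.mem_orb.mp hz
  have := L.orb_map hy (inv_mem hw)
  rw [L.map_neg' (inv_mem hw), inv_self] at this
  exact h this

theorem lp42_apply (v : Vec) : lp 42 v = -v := neg_act v

theorem eq_one_or_neg {u : Perm Vec} (hu : u ∈ L.W) {y : Vec} (h0 : y ≠ 0) (hy1 : y ≠ xv)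
    (hy2 : y ≠ -xv) (hπ : lact 1 y = y ∨ lact 1 y = -y) (hx : u xv = xv ∨ u xv = -xv)
    (hy : u y = y ∨ u y = -y) (hs : u (lact 3 y) = lact 3 y ∨ u (lact 3 y) = -lact 3 y) :
    u = 1 ∨ (u = lp 42 ∧ -xv ∈ L.orb) := by
  rcases hx with e | e
  · obtain ⟨a, ha, rfl⟩ := L.stab u hu e
    left
    rw [four_triv y h0 hy1 hy2 hπ a ha hy hs, lp_zero]
  · have hn : -xv ∈ L.orb := L.mem_orb.mpr ⟨u, hu, e⟩
    obtain ⟨a, ha, ea⟩ := L.stab (lp 42 * u) (mul_mem (L.neg_mem hn) hu)
      (by rw [Perm.mul_apply, e, lp42_apply, neg_neg])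
    have hap : ∀ v, lact a v = -u v := fun v => by rw [← lp_apply, ← ea, Perm.mul_apply, lp42_apply]
    have ha0 := four_triv y h0 hy1 hy2 hπ a ha
      (by rw [hap]; rcases hy with e | e <;> rw [e] <;> simp)
      (by rw [hap]; rcases hs with e | e <;> rw [e] <;> simp)
    refine Or.inr ⟨Perm.ext fun v => ?_, hn⟩
    rw [lp42_apply, ← neg_neg (u v), ← hap, ha0, lact_zero]

theorem klein (hc : (L.orb.card = 4 ∧ -xv ∉ L.orb) ∨ (L.orb.card = 8 ∧ -xv ∈ L.orb)) :
    ∃ b, shp b * lp 36 * (shp b)⁻¹ ∈ L.W := by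
  classical
  obtain ⟨y0, hy0, hy01, hy02⟩ : ∃ y ∈ L.orb, y ≠ xv ∧ y ≠ -xv := by
    by_contra hcon
    push Not at hcon
    have : L.orb ⊆ {xv, -xv} := fun y hy => by
      rw [Finset.mem_insert, Finset.mem_singleton]
      by_cases e : y = xv
      exacts [Or.inl e, Or.inr (hcon y hy e)]
    have := (Finset.card_le_card this).trans Finset.card_le_two
    omega
  have hfour : ∀ y ∈ L.orb, ∀ i, four y i ∈ L.orb := by
    intro y hy i
    fin_cases i
    · exact L.xv_mem
    · exact hy
    · exact L.orb_map hy (L.perms 3 (by decide +kernel))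
    · exact L.orb_map hy (L.perms 4 (by decide +kernel))
  have hcov : ∀ y ∈ L.orb, y ≠ xv → y ≠ -xv → ∀ z ∈ L.orb, ∃ i,
      z = four y i ∨ z = -four y i := by
    intro y hy h1 h2 z hz
    have h0 : y ≠ 0 := fun e => L.zero_notMem (e ▸ hy)
    have hinj : Function.Injective (four y) := fun i j e => four_sep y h0 h1 h2 i j (Or.inl e)
    rcases hc with ⟨h4, -⟩ | ⟨h8, hn⟩
    · have heq : Finset.univ.image (four y) = L.orb := Finset.eq_of_subset_of_card_le
        (fun v hv => by obtain ⟨i, -, rfl⟩ := Finset.mem_image.mp hv; exact hfour y hy i)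
        (by rw [h4, Finset.card_image_of_injective _ hinj, Finset.card_univ, Fintype.card_fin])
      rw [← heq] at hz
      obtain ⟨i, -, rfl⟩ := Finset.mem_image.mp hz
      exact ⟨i, Or.inl rfl⟩
    · let g : Fin 4 × Bool → Vec := fun p => if p.2 then -four y p.1 else four y p.1
      have hg : Function.Injective g := by
        rintro ⟨i, a⟩ ⟨j, b⟩ e
        obtain rfl : i = j := by
          cases a <;> cases b <;> simp only [g] at e
          · exact four_sep y h0 h1 h2 i j (Or.inl e)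
          · exact four_sep y h0 h1 h2 i j (Or.inr e)
          · exact (four_sep y h0 h1 h2 j i (Or.inr e.symm)).symm
          · exact four_sep y h0 h1 h2 i j (Or.inl (neg_injective e))
        have hne : four y i ≠ -four y i := fun e =>
          L.zero_notMem ((by decide : ∀ u : Vec, u = -u → u = 0) _ e ▸ hfour y hy i)
        cases a <;> cases b <;> simp [g] at e ⊢
        · exact hne e
        · exact hne e.symm
      have heq : Finset.univ.image g = L.orb := Finset.eq_of_subset_of_card_le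
        (fun v hv => by
          obtain ⟨⟨i, a⟩, -, rfl⟩ := Finset.mem_image.mp hv
          cases a
          · exact hfour y hy i
          · have hm := L.orb_map (hfour y hy i) (L.neg_mem hn)
            rw [lp42_apply] at hm
            exact hm)
        (by rw [h8, Finset.card_image_of_injective _ hg, Finset.card_univ]; rfl)
      rw [← heq] at hz
      obtain ⟨⟨i, a⟩, -, rfl⟩ := Finset.mem_image.mp hz
      cases a
      exacts [⟨i, Or.inl rfl⟩, ⟨i, Or.inr rfl⟩]
  obtain ⟨y, hy, hy1, hy2, hπ⟩ : ∃ y ∈ L.orb, y ≠ xv ∧ y ≠ -xv ∧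
      (lact 1 y = y ∨ lact 1 y = -y) := by
    have h0 : y0 ≠ 0 := fun e => L.zero_notMem (e ▸ hy0)
    obtain ⟨j, hj, h⟩ := four_fix y0 h0 hy01 hy02
      (hcov y0 hy0 hy01 hy02 _ (L.orb_map hy0 (L.perms 1 (by decide +kernel))))
    exact ⟨_, hfour y0 hy0 j, fun e => hj (four_sep y0 h0 hy01 hy02 j 0 (Or.inl e)),
      fun e => hj (four_sep y0 h0 hy01 hy02 j 0 (Or.inr e)), h⟩
  have h0 : y ≠ 0 := fun e => L.zero_notMem (e ▸ hy)
  choose q hq using fun z : L.orb => hcov y hy hy1 hy2 z z.2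
  let Φ : L.W → Fin 4 → Fin 4 := fun w i => q ⟨(w : Perm Vec) (four y i), L.orb_map (hfour y hy i) w.2⟩
  have hΦ : ∀ (w : L.W) i, (w : Perm Vec) (four y i) = four y (Φ w i) ∨
      (w : Perm Vec) (four y i) = -four y (Φ w i) := fun w i =>
    hq ⟨(w : Perm Vec) (four y i), L.orb_map (hfour y hy i) w.2⟩
  have hΦi : ∀ w, Function.Injective (Φ w) := by
    intro w i j e
    refine four_sep y h0 hy1 hy2 i j ?_
    have hj := hΦ w j
    rw [← e] at hj
    rcases hΦ w i with a | a <;> rcases hj with b | b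
    · exact Or.inl ((w : Perm Vec).injective (a.trans b.symm))
    · refine Or.inr ((w : Perm Vec).injective ?_)
      rw [L.map_neg' w.2, a, b, neg_neg]
    · refine Or.inr ((w : Perm Vec).injective ?_)
      rw [L.map_neg' w.2, a, b]
    · exact Or.inl ((w : Perm Vec).injective (a.trans b.symm))
  let Ψ : L.W → {f : Fin 3 → Fin 4 // Function.Injective f} := fun w =>
    ⟨fun i => Φ w i.castSucc, (hΦi w).comp (Fin.castSucc_injective 3)⟩
  have hfib : ∀ w w' : L.W, Ψ w = Ψ w' → (w : Perm Vec) = w' ∨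
      ((w : Perm Vec) = w' * lp 42 ∧ -xv ∈ L.orb) := by
    intro w w' e
    have hp : ∀ i : Fin 3, (w'⁻¹ * w : L.W).1 (four y i.castSucc) = four y i.castSucc ∨
        (w'⁻¹ * w : L.W).1 (four y i.castSucc) = -four y i.castSucc := by
      intro i
      have e' : Φ w i.castSucc = Φ w' i.castSucc := congrFun (congrArg Subtype.val e) i
      have a := hΦ w i.castSucc
      have b := hΦ w' i.castSucc
      rw [e'] at a
      simp only [Subgroup.coe_mul, Subgroup.coe_inv, Perm.mul_apply]
      have key : ∀ z, z = (w' : Perm Vec) (four y i.castSucc) →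
          ((w' : Perm Vec))⁻¹ z = four y i.castSucc := fun z hz => by rw [hz, inv_self]
      rcases b with b | b <;> rcases a with a | a <;> rw [a]
      · exact Or.inl (key _ b.symm)
      · exact Or.inr (by rw [L.map_neg' (inv_mem w'.2), key _ b.symm])
      · exact Or.inr (by rw [← neg_neg (four y (Φ w' i.castSucc)), L.map_neg' (inv_mem w'.2),
          key _ b.symm])
      · exact Or.inl (key _ b.symm)
    rcases L.eq_one_or_neg (w'⁻¹ * w).2 h0 hy1 hy2 hπ (hp 0) (hp 1) (hp 2) with h | ⟨h, hn⟩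
    · exact Or.inl (inv_mul_eq_one.mp h).symm
    · exact Or.inr ⟨inv_mul_eq_iff_eq_mul.mp h, hn⟩
  have hsurj : ∃ w : L.W, (Ψ w).1 = ![1, 0, 3] ∧ (-xv ∈ L.orb → (w : Perm Vec) xv = y) := by
    rcases hc with ⟨h4, hn⟩ | ⟨h8, hn⟩
    · have hinj : Function.Injective Ψ := fun w w' e => Subtype.ext
        ((hfib w w' e).resolve_right (fun h => hn h.2))
      have hb := (Nat.bijective_iff_injective_and_card Ψ).mpr ⟨hinj, by
        rw [L.card_eq, h4, Nat.card_eq_fintype_card, card_injective]⟩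
      obtain ⟨w, hw⟩ := hb.2 ⟨![1, 0, 3], by decide⟩
      exact ⟨w, congrArg Subtype.val hw, fun h => (hn h).elim⟩
    · let Ω : L.W → {f : Fin 3 → Fin 4 // Function.Injective f} × Bool := fun w =>
        (Ψ w, decide (Pos ((w : Perm Vec) xv)))
      have hinj : Function.Injective Ω := by
        intro w w' e
        rcases hfib w w' (congrArg Prod.fst e) with h | ⟨h, -⟩
        · exact Subtype.ext h
        · exfalso
          have e2 : Pos ((w : Perm Vec) xv) ↔ Pos ((w' : Perm Vec) xv) :=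
            decide_eq_decide.mp (congrArg Prod.snd e)
          rw [h, Perm.mul_apply, lp42_apply, L.map_neg' w'.2,
            pos_neg _ fun e => L.zero_notMem (e ▸ L.orb_map L.xv_mem w'.2)] at e2
          tauto
      have hb := (Nat.bijective_iff_injective_and_card Ω).mpr ⟨hinj, by
        rw [L.card_eq, h8, Nat.card_prod, Nat.card_eq_fintype_card, card_injective,
          Nat.card_eq_fintype_card, Fintype.card_bool]⟩
      obtain ⟨w, hw⟩ := hb.2 (⟨![1, 0, 3], by decide⟩, decide (Pos y))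
      refine ⟨w, congrArg (fun p => p.1.1) hw, fun _ => ?_⟩
      have hwx := hΦ w 0
      rw [show Φ w 0 = 1 from congrFun (congrArg (fun p => p.1.1) hw) 0] at hwx
      change (w : Perm Vec) xv = y ∨ (w : Perm Vec) xv = -y at hwx
      refine hwx.resolve_right fun h => ?_
      have e2 : Pos ((w : Perm Vec) xv) ↔ Pos y := decide_eq_decide.mp (congrArg Prod.snd hw)
      rw [h, pos_neg _ h0] at e2
      tauto
  obtain ⟨w, hw, hwx'⟩ := hsurj
  have w0 : Φ w 0 = 1 := congrFun hw 0
  have w1 : Φ w 1 = 0 := congrFun hw 1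
  have w2 : Φ w 2 = 3 := congrFun hw 2
  have w3 : Φ w 3 = 2 := by
    have a := (hΦi w).ne (show (3 : Fin 4) ≠ 0 by decide)
    have b := (hΦi w).ne (show (3 : Fin 4) ≠ 1 by decide)
    have c := (hΦi w).ne (show (3 : Fin 4) ≠ 2 by decide)
    rw [w0] at a
    rw [w1] at b
    rw [w2] at c
    revert a b c
    generalize Φ w 3 = r
    revert r
    decide
  set h : Perm Vec := (w : Perm Vec) with hh
  have e0 := hΦ w 0
  have e1 := hΦ w 1
  have e2 := hΦ w 2
  have e3 := hΦ w 3
  rw [w0, ← hh] at e0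
  rw [w1, ← hh] at e1
  rw [w2, ← hh] at e2
  rw [w3, ← hh] at e3
  change h xv = y ∨ h xv = -y at e0
  change h y = xv ∨ h y = -xv at e1
  change h (lact 3 y) = lact 4 y ∨ h (lact 3 y) = -lact 4 y at e2
  change h (lact 4 y) = lact 3 y ∨ h (lact 4 y) = -lact 3 y at e3
  have hxy : h xv = y := by
    by_cases hn : -xv ∈ L.orb
    · exact hwx' hn
    · refine e0.resolve_right fun e => L.no_neg hn hy ?_
      exact e ▸ L.orb_map L.xv_mem w.2
  have hyx : h y = xv := by
    refine e1.resolve_right fun e => ?_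
    have hn : -xv ∈ L.orb := e ▸ L.orb_map hy w.2
    have hm : ∀ v v', h v = v' → h (-v) = -v' := fun v v' e => by rw [L.map_neg' w.2, e]
    have hxx : (h * h) xv = -xv := by rw [Perm.mul_apply, hxy, e]
    have hyy : (h * h) y = -y := by rw [Perm.mul_apply, e, hm _ _ hxy]
    have hss : (h * h) (lact 3 y) = lact 3 y ∨ (h * h) (lact 3 y) = -lact 3 y := by
      rw [Perm.mul_apply]
      rcases e2 with a | a <;> rw [a] <;> rcases e3 with b | b
      · exact Or.inl b
      · exact Or.inr b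
      · exact Or.inr (hm _ _ b)
      · exact Or.inl (by rw [hm _ _ b, neg_neg])
    rcases L.eq_one_or_neg (mul_mem w.2 w.2) h0 hy1 hy2 hπ (Or.inr hxx) (Or.inr hyy) hss with k | ⟨k, -⟩
    · rw [k] at hxx
      exact absurd hxx (by decide)
    · exact L.no_root w.2 fun v => by
        rw [← Perm.mul_apply, k, lp42_apply]
  obtain ⟨c2, hc2⟩ : ∃ c, h (lact 3 y) = sg c (lact 4 y) := by
    rcases e2 with a | a
    exacts [⟨false, a⟩, ⟨true, a⟩]
  obtain ⟨c3, hc3⟩ : ∃ c, h (lact 4 y) = sg c (lact 3 y) := by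
    rcases e3 with a | a
    exacts [⟨false, a⟩, ⟨true, a⟩]
  let H := AddMonoidHom.mk' h (L.add h w.2)
  obtain ⟨b, hbc⟩ := klein_table y hπ h0 hy1 hy2 c2 c3 (by
    intro i j l m hrel
    have := congrArg H hrel
    rw [map_zero, map_add, map_add, map_add, map_nsmul, map_nsmul, map_nsmul, map_nsmul] at this
    simpa only [H, AddMonoidHom.mk'_apply, hxy, hyx, hc2, hc3, sg, Bool.false_eq_true, if_false] using this)
  refine ⟨b, ?_⟩
  obtain ⟨v1, v2, v3, -⟩ := hb_values b
  have hval : ∀ v, (shp b * lp 36 * (shp b)⁻¹) v = hb b v := fun v => rfl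
  have hlin : ∀ v u, hb b (v + u) = hb b v + hb b u := fun v u => by
    simp only [hb, shear_add, lact_add]
  let B := AddMonoidHom.mk' (hb b) hlin
  have hext : ∀ (g : Vec →+ Vec), g xv = B xv → g (yb b) = B (yb b) →
      g (lact 3 (yb b)) = B (lact 3 (yb b)) → ∀ v, g v = B v := by
    intro g a1 a2 a3 v
    obtain ⟨i, j, l, rfl⟩ := generated b v
    simp only [map_add, map_nsmul, a1, a2, a3]
  rcases hbc with ⟨rfl, rfl⟩ | ⟨rfl, rfl⟩
  · have : shp b * lp 36 * (shp b)⁻¹ = h := Perm.ext fun v => by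
      rw [hval]
      exact (hext H (hxy.trans v1.symm) (hyx.trans v2.symm) (hc2.trans v3.symm) v).symm
    exact this ▸ w.2
  · have hn : -xv ∈ L.orb := by
      by_contra hn
      have h3 := L.orb_map (L.orb_map hy (L.perms 3 (by decide +kernel))) w.2
      rw [lp_apply] at h3
      change h _ ∈ _ at h3
      rw [hc2] at h3
      exact L.no_neg hn h3 (by
        simpa [sg, lp_apply] using L.orb_map hy (L.perms 4 (by decide +kernel)))
    have hl : ∀ v : Vec, lact 3 (-v) = -lact 3 v ∧ lact 4 (-v) = -lact 4 v := by decide +kernel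
    have : shp b * lp 36 * (shp b)⁻¹ = lp 42 * h := Perm.ext fun v => by
      rw [hval, Perm.mul_apply, lp42_apply]
      refine (hext (-H) ?_ ?_ ?_ v).symm
      · change -(h xv) = hb b xv
        rw [hxy, neg_neg, v1]
      · change -(h (yb b)) = hb b (yb b)
        rw [v2, ← L.map_neg' w.2, hyx]
      · change -(h (lact 3 (yb b))) = hb b (lact 3 (yb b))
        rw [v3, ← L.map_neg' w.2, ← (hl _).1, hc2, (hl _).2]
        simp [sg]
    exact this ▸ mul_mem (L.neg_mem hn) w.2

theorem shp_zero : shp 0 = 1 := Perm.ext (by decide +kernel)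

theorem shp_comm (b : Fin 3) {a : Fin 48} (ha : Ok 0 a) : shp b * lp a * (shp b)⁻¹ = lp a := by
  rw [mul_inv_eq_iff_eq_mul]
  exact Perm.ext fun v => shear_perm b a ha v

theorem shp_neg (b : Fin 3) : shp b * lp 42 * (shp b)⁻¹ = lp 42 := by
  rw [mul_inv_eq_iff_eq_mul]
  exact Perm.ext ((by decide +kernel : ∀ b v, shear b (lact 42 v) = lact 42 (shear b v)) b)

theorem decompose : ∀ a : Fin 48, ∃ s ∈ ([0, 36, 30, 18] : List (Fin 48)), ∃ n : Bool, ∃ p,
    Ok 0 p ∧ a = lmul (lmul s (if n then 42 else 0)) p ∧ (Ok 2 a → n = false) := by decide +kernel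

/-- The linear groups are the linear parts of one of the four kinds, after a change of
coordinates. -/
theorem classify : ∃ b k, ∀ w, w ∈ L.W ↔ ∃ a, Ok k a ∧ w = shp b * lp a * (shp b)⁻¹ := by
  classical
  have key : ∀ b k, (∀ a, Ok k a → shp b * lp a * (shp b)⁻¹ ∈ L.W) →
      Fintype.card {a : Fin 48 // Ok k a} = 6 * L.orb.card →
      ∃ b k, ∀ w, w ∈ L.W ↔ ∃ a, Ok k a ∧ w = shp b * lp a * (shp b)⁻¹ := by
    intro b k hsub hcard
    let f : {a : Fin 48 // Ok k a} → L.W := fun a => ⟨_, hsub a a.2⟩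
    have hf : Function.Bijective f := (Nat.bijective_iff_injective_and_card f).mpr ⟨fun a a' e =>
      Subtype.ext (lp_injective (mul_left_cancel (mul_right_cancel (congrArg Subtype.val e)))),
      by rw [Nat.card_eq_fintype_card, hcard, L.card_eq]⟩
    refine ⟨b, k, fun w => ⟨fun hw => ?_, ?_⟩⟩
    · obtain ⟨a, ha⟩ := hf.2 ⟨w, hw⟩
      exact ⟨a, a.2, (congrArg Subtype.val ha).symm⟩
    · rintro ⟨a, ha, rfl⟩; exact hsub a ha
  rcases L.cases_card with ⟨h, -⟩ | ⟨h, hn⟩ | ⟨h, hn⟩ | ⟨h, hn⟩ | h | h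
  · refine key 0 0 (fun a ha => ?_) (by rw [h]; decide +kernel)
    rw [shp_comm 0 ha]; exact L.perms a ha
  · refine key 0 1 (fun a ha => ?_) (by rw [h]; decide +kernel)
    obtain ⟨n, p, hp, rfl⟩ := (by decide +kernel : ∀ a, Ok 1 a → ∃ n : Bool, ∃ p, Ok 0 p ∧
      a = lmul (if n then 42 else 0) p) a ha
    rw [shp_zero, one_mul, inv_one, mul_one, ← lp_mul]
    cases n
    · simpa [lp_zero] using L.perms p hp
    · simpa using mul_mem (L.neg_mem hn) (L.perms p hp)
  rotate_left 2
  · exact (L.not_thirteen (Or.inl h)).elim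
  · exact (L.not_thirteen (Or.inr h)).elim
  all_goals
    obtain ⟨b, hb⟩ := L.klein (by first | exact Or.inl ⟨h, hn⟩ | exact Or.inr ⟨h, hn⟩)
    have hT : ∀ s ∈ ([0, 36, 30, 18] : List (Fin 48)), shp b * lp s * (shp b)⁻¹ ∈ L.W := by
      intro s hs
      have h3 := L.perms 3 (by decide +kernel)
      have hrot : ∀ t, shp b * lp t * (shp b)⁻¹ ∈ L.W →
          shp b * lp (lmul (lmul 3 t) (linv 3)) * (shp b)⁻¹ ∈ L.W := by
        intro t ht
        have := mul_mem (mul_mem h3 ht) (inv_mem h3)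
        rw [show lp 3 = shp b * lp 3 * (shp b)⁻¹ from (shp_comm b (by decide +kernel)).symm] at this
        convert this using 1
        rw [← lp_mul, ← lp_mul, ← lp_inv]
        group
      have h30 := hrot 36 hb
      have h18 := hrot _ h30
      simp only [List.mem_cons, List.not_mem_nil, or_false] at hs
      rcases hs with rfl | rfl | rfl | rfl
      · simp [lp_zero]
      · exact hb
      · rwa [show lmul (lmul 3 36) (linv 3) = 30 by decide +kernel] at h30
      · rwa [show lmul (lmul 3 (lmul (lmul 3 36) (linv 3))) (linv 3) = 18 by decide +kernel] at h18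
  · refine key b 2 (fun a ha => ?_) (by rw [h]; decide +kernel)
    obtain ⟨s, hs, n, p, hp, rfl, hn2⟩ := decompose a
    rw [hn2 ha, if_neg (by decide), ← lp_mul, ← lp_mul, lp_zero, mul_one]
    have := mul_mem (hT s hs) (L.perms p hp)
    rw [show lp p = shp b * lp p * (shp b)⁻¹ from (shp_comm b hp).symm] at this
    convert this using 1
    group
  · refine key b 3 (fun a ha => ?_) (by rw [h]; decide +kernel)
    obtain ⟨s, hs, n, p, hp, rfl, -⟩ := decompose a
    rw [← lp_mul, ← lp_mul]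
    have hN : shp b * lp (if n then 42 else 0) * (shp b)⁻¹ ∈ L.W := by
      cases n
      · simp [lp_zero]
      · rw [if_pos rfl, shp_neg]; exact L.neg_mem hn
    have := mul_mem (mul_mem (hT s hs) hN) (L.perms p hp)
    rw [show lp p = shp b * lp p * (shp b)⁻¹ from (shp_comm b hp).symm] at this
    convert this using 1
    group

end LinGroup

end CfsgLib.SymNine40
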