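import Cfsg.Agent.SymNine40.Data

/-!
The group of monomial affine maps of a three-dimensional space over three elements.

* `Mw`: the group, of order `1296`.
* `Kind`: the four subgroups of linear parts containing the permutations.
* `toPerm`: the action on nine points.
-/

set_option autoImplicit false
set_option maxRecDepth 20000

namespace CfsgLib.SymNine40

/-- Translations. -/
abbrev Vec : Type := Fin 3 × Fin 3 × Fin 3

/-- A byte of a packed table row. -/
def byteAt (n i : ℕ) : ℕ := (n >>> (8 * i)) % 256

/-- An element: a translation and a linear part. -/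
structure Mw where
  /-- translation -/
  v : Vec
  /-- linear part -/
  w : Fin 48
deriving DecidableEq

/-- Product of linear parts. -/
def lmul (a b : Fin 48) : Fin 48 := Fin.ofNat 48 (byteAt (Data.mulTab.getD a 0) b)

/-- Inverse of a linear part. -/
def linv (a : Fin 48) : Fin 48 := Fin.ofNat 48 (byteAt Data.invTab a)

/-- Decoding of a translation. -/
def decV (n : ℕ) : Vec := (Fin.ofNat 3 (n / 9), Fin.ofNat 3 (n / 3), Fin.ofNat 3 n)

/-- Encoding of a translation. -/
def encV (v : Vec) : ℕ := 9 * v.1.val + 3 * v.2.1.val + v.2.2.val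

/-- The action of linear parts on translations. -/
def lact (a : Fin 48) (v : Vec) : Vec := decV (byteAt (Data.actTab.getD a 0) (encV v))

namespace Mw

/-- Coordinates as a product. -/
def equivProd : Mw ≃ Vec × Fin 48 where
  toFun x := (x.v, x.w)
  invFun x := ⟨x.1, x.2⟩
  left_inv _ := rfl
  right_inv _ := rfl

instance : Fintype Mw := Fintype.ofEquiv _ equivProd.symm

instance : Mul Mw := ⟨fun x y => ⟨x.v + lact x.w y.v, lmul x.w y.w⟩⟩

instance : One Mw := ⟨⟨0, 0⟩⟩

instance : Inv Mw := ⟨fun x => ⟨lact (linv x.w) (-x.v), linv x.w⟩⟩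

theorem mul_def (x y : Mw) : x * y = ⟨x.v + lact x.w y.v, lmul x.w y.w⟩ := rfl

theorem lmul_assoc : ∀ p q r : Fin 48, lmul (lmul p q) r = lmul p (lmul q r) := by decide +kernel

theorem lact_add : ∀ a : Fin 48, ∀ v w : Vec, lact a (v + w) = lact a v + lact a w := by
  decide +kernel

theorem lact_lmul : ∀ a b : Fin 48, ∀ v : Vec, lact (lmul a b) v = lact a (lact b v) := by
  decide +kernel

theorem one_mul' : ∀ x : Mw, 1 * x = x := by decide +kernel

theorem inv_mul' : ∀ x : Mw, x⁻¹ * x = 1 := by decide +kernel

theorem mul_assoc' (x y z : Mw) : x * y * z = x * (y * z) := by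
  simp only [mul_def, lmul_assoc, lact_add, lact_lmul, add_assoc]

instance : Group Mw := Group.ofLeftAxioms mul_assoc' one_mul' inv_mul'

/-- A translation. -/
def tr (v : Vec) : Mw := ⟨v, 0⟩

/-- A linear element. -/
def lin (a : Fin 48) : Mw := ⟨0, a⟩

/-- The central translation of the permutations. -/
def xv : Vec := (1, 1, 1)

/-- The sign vector of a linear part. -/
def bits (a : Fin 48) : Fin 8 := Fin.ofNat 8 (a.val / 6)

/-- The permutation code of a linear part. -/
def pcode (a : Fin 48) : Fin 6 := Fin.ofNat 6 a.val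

/-- The four kinds of linear groups: the index is `0` for the permutations, `1` with the scalar
sign change, `2` with the even sign changes, `3` with all sign changes. -/
def okBits (k : Fin 4) (s : Fin 8) : Bool :=
  ([[0], [0, 7], [0, 3, 5, 6], [0, 1, 2, 3, 4, 5, 6, 7]].getD k.val []).contains s.val

/-- The linear part is of the given kind. -/
def Ok (k : Fin 4) (a : Fin 48) : Prop := okBits k (bits a) = true

instance (k : Fin 4) (a : Fin 48) : Decidable (Ok k a) := inferInstanceAs (Decidable (_ = true))

theorem ok_one : ∀ k, Ok k 0 := by decide +kernel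

theorem ok_mul : ∀ k a b, Ok k a → Ok k b → Ok k (lmul a b) := by decide +kernel

theorem ok_inv : ∀ k a, Ok k a → Ok k (linv a) := by decide +kernel

theorem lact_zero : ∀ v, lact 0 v = v := by decide +kernel

/-- The subgroup of a kind. -/
def sub (k : Fin 4) : Subgroup Mw where
  carrier := {m | Ok k m.w}
  one_mem' := ok_one k
  mul_mem' := fun {a b} ha hb => ok_mul k a.w b.w ha hb
  inv_mem' := fun {a} ha => ok_inv k a.w ha

theorem mem_sub {k : Fin 4} {m : Mw} : m ∈ sub k ↔ Ok k m.w := Iff.rfl

instance (k : Fin 4) : DecidablePred (· ∈ sub k) := fun m => decidable_of_iff _ mem_sub.symm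

theorem tr_mem (k : Fin 4) (v : Vec) : tr v ∈ sub k := ok_one k

theorem tr_add (v w : Vec) : tr (v + w) = tr v * tr w := by
  simp only [tr, mul_def, lact_zero]
  exact congrArg _ (by decide)

/-- A coordinate. -/
def co (v : Vec) (i : Fin 3) : Fin 3 := ![v.1, v.2.1, v.2.2] i

/-- The vector with one coordinate. -/
def unit (i c : Fin 3) : Vec :=
  (if i = 0 then c else 0, if i = 1 then c else 0, if i = 2 then c else 0)

/-- The image of a point. -/
def actPt (m : Mw) (p : Fin 9) : Fin 9 :=
  let i : Fin 3 := Fin.ofNat 3 (p.val / 3)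
  let c : Fin 3 := Fin.ofNat 3 p.val
  let u := lact m.w (unit i 1)
  let j : Fin 3 := if u.1 ≠ 0 then 0 else if u.2.1 ≠ 0 then 1 else 2
  let d : Fin 3 := co m.v j + co (lact m.w (unit i c)) j
  Fin.ofNat 9 (3 * j.val + d.val)

theorem actPt_one : ∀ p, actPt 1 p = p := by decide +kernel

/-- The image block. -/
def blk (a : Fin 48) (i : Fin 3) : Fin 3 :=
  let u := lact a (unit i 1)
  if u.1 ≠ 0 then 0 else if u.2.1 ≠ 0 then 1 else 2

theorem blk_lmul : ∀ a b i, blk (lmul a b) i = blk a (blk b i) := by decide +kernel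

theorem co_lact : ∀ a i, ∀ v : Vec, co (lact a v) (blk a i) = co (lact a (unit i (co v i))) (blk a i) := by
  decide +kernel

theorem co_add (v w : Vec) (i : Fin 3) : co (v + w) i = co v i + co w i := by
  fin_cases i <;> rfl

/-- Point from block and value. -/
def pt (i d : Fin 3) : Fin 9 := Fin.ofNat 9 (3 * i.val + d.val)

theorem actPt_pt (m : Mw) : ∀ i c, actPt m (pt i c) =
    pt (blk m.w i) (co m.v (blk m.w i) + co (lact m.w (unit i c)) (blk m.w i)) := by
  intro i c
  have h : ∀ i c : Fin 3, Fin.ofNat 3 ((pt i c).val / 3) = i ∧ Fin.ofNat 3 (pt i c).val = c := by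
    decide +kernel
  unfold actPt
  simp only [(h i c).1, (h i c).2]
  rfl

theorem actPt_mul (m n : Mw) (p : Fin 9) : actPt (m * n) p = actPt m (actPt n p) := by
  obtain ⟨i, c, rfl⟩ : ∃ i c, p = pt i c := by
    revert p; decide +kernel
  rw [actPt_pt, actPt_pt, actPt_pt, mul_def]
  simp only [blk_lmul, lact_lmul, co_add]
  refine congrArg _ ?_
  rw [add_assoc, ← co_add, ← lact_add]
  congr 1
  have h := co_lact m.w (blk n.w i) (n.v + lact n.w (unit i c))
  rw [h, co_add]

/-- The action on nine points. -/
def toPerm : Mw →* Equiv.Perm (Fin 9) where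
  toFun m := ⟨actPt m, actPt m⁻¹, fun p => by rw [← actPt_mul, inv_mul_cancel, actPt_one],
    fun p => by rw [← actPt_mul, mul_inv_cancel, actPt_one]⟩
  map_one' := Equiv.ext actPt_one
  map_mul' m n := Equiv.ext (actPt_mul m n)

theorem toPerm_ker : ∀ m : Mw, (∀ p, actPt m p = p) → m = 1 := by decide +kernel

theorem toPerm_injective : Function.Injective toPerm := by
  rw [injective_iff_map_eq_one]
  exact fun m hm => toPerm_ker m fun p => by
    rw [← show toPerm m p = actPt m p from rfl, hm]; rfl

end Mw

end CfsgLib.SymNine40
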