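import Cfsg.Agent.SymNine40.Interface

/-!
Products of the complement of a short translation with the symmetric group on the last block.

* `Split.q`: the product map; `Split.q_mul`, `Split.q_inj`.
* `Split.kappa_std`: values of the complement on elements of the monomial group.
-/

set_option autoImplicit false
set_option maxRecDepth 20000

open Equiv Subgroup

namespace CfsgLib.SymNine40

open Mw

/-- An element of the symmetric group of the last block. -/
def Rm (p : Fin 3 × Bool) : Mw := ⟨unit 2 p.1, if p.2 then 24 else 0⟩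

/-- The product of `Rm` elements. -/
def rmul (a b : Fin 3 × Bool) : Fin 3 × Bool := (a.1 + (if a.2 then -b.1 else b.1), xor a.2 b.2)

/-- The inverse of an `Rm` element. -/
def rinv (a : Fin 3 × Bool) : Fin 3 × Bool := (if a.2 then a.1 else -a.1, a.2)

theorem Rm_facts : ∀ a b : Fin 3 × Bool, Rm a * Rm b = Rm (rmul a b) ∧ (Rm a)⁻¹ = Rm (rinv a) ∧
    Rm a = tr (unit 2 a.1) * lin (if a.2 then 24 else 0) := by decide +kernel

theorem Rm_ok : ∀ a, Ok 3 (Rm a).w := by decide +kernel

theorem Rm_center : ∀ a, Rm a * tr e3 = tr e3 * Rm a → Rm a * lin 24 = lin 24 * Rm a → a = (0, false) := by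
  decide +kernel

/-- The three-cycle on the first three of six points. -/
def cA : Perm (Fin 6) := swap 0 1 * swap 1 2
/-- The three-cycle on the last three of six points. -/
def cB : Perm (Fin 6) := swap 3 4 * swap 4 5

/-- The elements of the monomial group inside the complement. -/
def stdList : List (Perm (Fin 6) × Mw) :=
  [(swap 0 1, ⟨(1, 0, 0), 6⟩), (swap 1 2, lin 6), (swap 3 4, ⟨(0, 1, 0), 12⟩), (swap 4 5, lin 12),
    (piSix, lin 2), (cA, tr e1), (cB, tr e2), (cA * cB, tr (1, 1, 0)),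
    (swap 1 2 * swap 4 5, lin 18)]

theorem std_table' : (stdList.all fun q => decide (Ok 3 q.2.w ∧
    (∀ i : Fin 6, toPerm q.2 (i.castLE (by norm_num)) = (q.1 i).castLE (by norm_num)) ∧
    (∀ j : Fin 9, 6 ≤ j.val → toPerm q.2 j = j))) = true := by decide +kernel

theorem std_table : ∀ q ∈ stdList, Ok 3 q.2.w ∧
    (∀ i : Fin 6, toPerm q.2 (i.castLE (by norm_num)) = (q.1 i).castLE (by norm_num)) ∧
    (∀ j : Fin 9, 6 ≤ j.val → toPerm q.2 j = j) := fun q hq =>
  of_decide_eq_true (List.all_eq_true.mp std_table' q hq)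

namespace Ctx.Split

variable {G : Type*} [Group G] {C : Ctx G 3} (S : C.Split)

theorem kappa_std {p : Perm (Fin 6)} {m : Mw} (h : (p, m) ∈ stdList) : S.κ p = C.X m :=
  S.compat m p (std_table _ h).2.1 (std_table _ h).2.2

theorem comm_R (p : Perm (Fin 6)) (a : Fin 3 × Bool) : Commute (S.κ p) (C.X (Rm a)) := by
  rw [(Rm_facts a a).2.2, C.X_mul (ok_one 3) (by cases a.2 <;> decide +kernel)]
  refine Commute.mul_right ?_ ?_
  · obtain ⟨i, hi⟩ : ∃ i : ℕ, unit 2 a.1 = i • e3 :=
      ⟨a.1.val, (by decide +kernel : ∀ c : Fin 3, unit 2 c = c.val • e3) a.1⟩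
    rw [hi]
    have h : ∀ n : ℕ, Commute (S.κ p) (C.T (n • e3)) := by
      intro n
      induction n with
      | zero => rw [zero_nsmul, C.T_zero]; exact Commute.one_right _
      | succ n ih => rw [succ_nsmul, C.T_add]; exact ih.mul_right (S.comm p)
    exact h i
  · cases a.2
    · simp only [Bool.false_eq_true, if_false]
      rw [show lin 0 = 1 from rfl, C.X_one]
      exact Commute.one_right _
    · simpa using S.comm_t p

/-- The product map. -/
noncomputable def q (p : Perm (Fin 6)) (a : Fin 3 × Bool) : G := S.κ p * C.X (Rm a)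

theorem q_mul (p p' : Perm (Fin 6)) (a a' : Fin 3 × Bool) :
    S.q p a * S.q p' a' = S.q (p * p') (rmul a a') := by
  rw [q, q, q, ← (Rm_facts a a').1, C.X_mul (Rm_ok a) (Rm_ok a'), map_mul,
    show S.κ p * C.X (Rm a) * (S.κ p' * C.X (Rm a')) =
      S.κ p * (C.X (Rm a) * S.κ p') * C.X (Rm a') by group, ← (S.comm_R p' a).eq]
  group

theorem q_one : S.q 1 (0, false) = 1 := by
  rw [q, map_one, show Rm (0, false) = 1 from rfl, C.X_one, one_mul]

theorem q_inv (p : Perm (Fin 6)) (a : Fin 3 × Bool) : (S.q p a)⁻¹ = S.q p⁻¹ (rinv a) := by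
  refine inv_eq_of_mul_eq_one_right ?_
  rw [S.q_mul, mul_inv_cancel, (by decide +kernel : ∀ a, rmul a (rinv a) = (0, false)) a, S.q_one]

theorem q_eq_one {p : Perm (Fin 6)} {a : Fin 3 × Bool} (h : S.q p a = 1) :
    p = 1 ∧ a = (0, false) := by
  have hX : C.X (Rm a) = (S.κ p)⁻¹ := eq_inv_of_mul_eq_one_right h
  have h1 : Commute (C.X (Rm a)) (C.X (tr e3)) := hX ▸ (S.comm p).inv_left
  have h2 : Commute (C.X (Rm a)) (C.X (lin 24)) := hX ▸ (S.comm_t p).inv_left
  have ha := Rm_center a ((C.X_commute (Rm_ok a) (ok_one 3)).mp h1)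
    ((C.X_commute (Rm_ok a) (by decide +kernel)).mp h2)
  subst ha
  refine ⟨S.inj ?_, rfl⟩
  rw [map_one, ← inv_eq_one, ← hX]
  exact C.X_one

theorem q_inj {p p' : Perm (Fin 6)} {a a' : Fin 3 × Bool} (h : S.q p a = S.q p' a') :
    p = p' ∧ a = a' := by
  have h1 : S.q p a * (S.q p' a')⁻¹ = 1 := by rw [h, mul_inv_cancel]
  rw [S.q_inv, S.q_mul] at h1
  obtain ⟨h2, h3⟩ := S.q_eq_one h1
  exact ⟨mul_inv_eq_one.mp h2,
    (by decide +kernel : ∀ a a', rmul a (rinv a') = (0, false) → a = a') a a' h3⟩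

theorem q_conj (p p' : Perm (Fin 6)) (a a' : Fin 3 × Bool) :
    S.q p a * S.q p' a' * (S.q p a)⁻¹ = S.q (p * p' * p⁻¹) (rmul (rmul a a') (rinv a)) := by
  rw [S.q_mul, S.q_inv, S.q_mul]

theorem q_commute (p p' : Perm (Fin 6)) (a a' : Fin 3 × Bool) :
    Commute (S.q p a) (S.q p' a') ↔ p * p' = p' * p ∧ rmul a a' = rmul a' a := by
  rw [Commute, SemiconjBy, S.q_mul, S.q_mul]
  exact ⟨fun h => S.q_inj h, fun h => by rw [h.1, h.2]⟩

theorem q_kappa (p : Perm (Fin 6)) : S.q p (0, false) = S.κ p := by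
  rw [q, show Rm (0, false) = 1 from rfl, C.X_one, mul_one]

theorem q_R (a : Fin 3 × Bool) : S.q 1 a = C.X (Rm a) := by rw [q, map_one, one_mul]

theorem q_pi : S.q piSix (0, false) = C.X piM := by
  rw [S.q_kappa]; exact S.kappa_std (by simp [stdList, piM])

theorem centPi_iff (h : C.CentPi S) {g : G} (hg : Commute g (C.X piM)) :
    ∃ p a, p * piSix = piSix * p ∧ g = S.q p a := by
  obtain ⟨p, i, e, hp, rfl⟩ := h g hg
  exact ⟨p, (i, e), hp, rfl⟩

end Ctx.Split

end CfsgLib.SymNine40
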