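import Cfsg.Agent.SymNine40.Linear

/-!
The configuration of the three-local recognition of the symmetric group of degree nine.

* `Ctx`: the normaliser of the elementary abelian subgroup in coordinates.
* `Base.exists_ctx`: the configuration exists.
-/

set_option autoImplicit false
set_option maxRecDepth 20000

open Equiv Subgroup

namespace CfsgLib.SymNine40

open Mw LinGroup

theorem lmul_zero : ∀ a : Fin 48, lmul a 0 = a ∧ lmul 0 a = a ∧ linv 0 = 0 := by decide +kernel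

theorem conj_tr (m : Mw) (v : Vec) : m * tr v = tr (lact m.w v) * m := by
  simp only [tr, Mw.mul_def, lact_zero, (lmul_zero _).1, (lmul_zero _).2.1, add_comm]

theorem tr_zero : tr 0 = 1 := rfl

theorem tr_neg (v : Vec) : tr (-v) = (tr v)⁻¹ :=
  eq_inv_of_mul_eq_one_left (by rw [← tr_add, neg_add_cancel]; rfl)

theorem tr_injective : Function.Injective tr := fun _ _ h => congrArg Mw.v h

/-- The translations inside a kind. -/
def trS (k : Fin 4) : Multiplicative Vec →* sub k where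
  toFun v := ⟨tr v.toAdd, tr_mem k _⟩
  map_one' := rfl
  map_mul' v w := Subtype.ext (tr_add _ _)

theorem card_sub_zero : Fintype.card (sub 0) = 162 := by decide +kernel

/-- Translations of the nine points correspond to coordinates. -/
theorem cube_table : ∀ m : Mw, Ok 0 m.w → m.w ≠ 0 → m * m * m = 1 →
    (Finset.univ.filter fun n : Mw => Ok 0 n.w ∧ n * n * n = 1 ∧ n * m = m * n).card ≤ 26 := by
  decide +kernel

theorem central_table : ∀ m : Mw, Ok 0 m.w → (∀ v, m * tr v = tr v * m) →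
    m * lin 3 = lin 3 * m → ∃ c : Fin 3, m = tr (c, c, c) := by decide +kernel

theorem cent_tr_table : ∀ m : Mw, Ok 0 m.w → (∀ v, m * tr v = tr v * m) → m.w = 0 := by
  decide +kernel

/-- The hypotheses in coordinates. -/
structure Base (G : Type*) [Group G] where
  /-- the centraliser of `x` -/
  φ : sub 0 →* G
  inj : Function.Injective φ
  cent : ∀ g : G, Commute g (φ (trS 0 (Multiplicative.ofAdd xv))) → g ∈ φ.range
  hsig : ∀ K : Subgroup G, (Nat.card K).Coprime 3 →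
    (∀ j ∈ (φ.comp (trS 0)).range, K.map (MulAut.conj j).toMonoidHom = K) → K = ⊥

namespace Base

variable {G : Type*} [Group G] (D : Base G)

/-- The translations. -/
def τ (v : Vec) : G := D.φ (trS 0 (Multiplicative.ofAdd v))

/-- The elementary abelian subgroup. -/
def J : Subgroup G := (D.φ.comp (trS 0)).range

theorem τ_inj : Function.Injective D.τ := fun v w h =>
  tr_injective (congrArg Subtype.val (D.inj h))

theorem τ_add (v w : Vec) : D.τ (v + w) = D.τ v * D.τ w :=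
  map_mul (D.φ.comp (trS 0)) (Multiplicative.ofAdd v) (Multiplicative.ofAdd w)

theorem τ_zero : D.τ 0 = 1 := map_one (D.φ.comp (trS 0))

theorem τ_mem (v : Vec) : D.τ v ∈ D.J := ⟨Multiplicative.ofAdd v, rfl⟩

theorem mem_J {g : G} : g ∈ D.J ↔ ∃ v, D.τ v = g :=
  ⟨fun ⟨v, h⟩ => ⟨v.toAdd, h⟩, fun ⟨v, h⟩ => h ▸ D.τ_mem v⟩

theorem τ_conj (m : sub 0) (v : Vec) : D.φ m * D.τ v * (D.φ m)⁻¹ = D.τ (lact m.1.w v) := by
  rw [mul_inv_eq_iff_eq_mul, τ, τ, ← map_mul, ← map_mul]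
  exact congrArg D.φ (Subtype.ext (conj_tr m.1 v))

theorem cent_J {g : G} (h : ∀ v, Commute g (D.τ v)) : g ∈ D.J := by
  obtain ⟨m, rfl⟩ := D.cent g (h xv)
  have hw : m.1.w = 0 := cent_tr_table m.1 m.2 fun v => congrArg Subtype.val
    (D.inj (by simpa only [map_mul, τ] using (h v).eq) : m * trS 0 (Multiplicative.ofAdd v) =
      trS 0 (Multiplicative.ofAdd v) * m)
  refine D.mem_J.mpr ⟨m.1.v, congrArg D.φ (Subtype.ext ?_)⟩
  change tr m.1.v = m.1
  rw [tr, ← hw]

/-- The normaliser of the translations. -/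
abbrev N : Subgroup G := normalizer (D.J : Set G)

theorem exists_act (g : D.N) (v : Vec) : ∃ u, D.τ u = (g : G) * D.τ v * (g : G)⁻¹ :=
  D.mem_J.mp ((mem_normalizer_iff.mp g.2 _).mp (D.τ_mem v))

/-- The action on coordinates. -/
noncomputable def act (g : D.N) (v : Vec) : Vec := (D.exists_act g v).choose

theorem act_spec (g : D.N) (v : Vec) : D.τ (D.act g v) = (g : G) * D.τ v * (g : G)⁻¹ :=
  (D.exists_act g v).choose_spec

/-- The action as a homomorphism. -/
noncomputable def r : D.N →* Perm Vec where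
  toFun g :=
    { toFun := D.act g
      invFun := D.act g⁻¹
      left_inv := fun v => D.τ_inj (by rw [act_spec, act_spec, coe_inv]; group)
      right_inv := fun v => D.τ_inj (by rw [act_spec, act_spec, coe_inv]; group) }
  map_one' := Perm.ext fun v => D.τ_inj (by simp [act_spec])
  map_mul' g h := Perm.ext fun v => D.τ_inj (by simp [act_spec, mul_assoc])

theorem r_spec (g : D.N) (v : Vec) : D.τ (D.r g v) = (g : G) * D.τ v * (g : G)⁻¹ := D.act_spec g v

theorem r_ker {g : D.N} : D.r g = 1 ↔ (g : G) ∈ D.J := by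
  constructor
  · intro h
    refine D.cent_J fun v => ?_
    have := D.r_spec g v
    rw [h, Perm.one_apply] at this
    exact (mul_inv_eq_iff_eq_mul.mp this.symm)
  · intro h
    obtain ⟨u, hu⟩ := D.mem_J.mp h
    refine Perm.ext fun v => D.τ_inj ?_
    rw [r_spec, Perm.one_apply, ← hu, ← D.τ_add, add_comm, D.τ_add, mul_inv_cancel_right]

theorem φ_norm (m : sub 0) : D.φ m ∈ D.N := by
  rw [mem_normalizer_iff]
  refine fun j => ⟨fun hj => ?_, fun hj => ?_⟩
  · obtain ⟨v, rfl⟩ := D.mem_J.mp hj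
    rw [τ_conj]; exact D.τ_mem _
  · obtain ⟨v, hv⟩ := D.mem_J.mp hj
    have h := D.τ_conj m⁻¹ v
    rw [hv, map_inv, inv_inv,
      show (D.φ m)⁻¹ * (D.φ m * j * (D.φ m)⁻¹) * D.φ m = j by group] at h
    exact h ▸ D.τ_mem _

theorem r_φ (m : sub 0) : D.r ⟨D.φ m, D.φ_norm m⟩ = lp m.1.w :=
  Perm.ext fun v => D.τ_inj (by rw [r_spec, lp_apply, τ_conj])

theorem r_add (g : D.N) (v w : Vec) : D.r g (v + w) = D.r g v + D.r g w :=
  D.τ_inj (by simp only [τ_add, r_spec]; group)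

theorem card_J : Nat.card D.J = 27 := by
  rw [J, ← Nat.card_congr (MonoidHom.ofInjective (fun a b h => tr_injective (congrArg Subtype.val
    (D.inj h)) : Function.Injective (D.φ.comp (trS 0)))).toEquiv, Nat.card_eq_fintype_card]
  rfl

include D in
theorem not_243 [Finite G] : ¬ 243 ∣ Nat.card G := by
  classical
  intro hd
  haveI := Fact.mk Nat.prime_three
  let A : Subgroup (sub 0) :=
    { carrier := {m | pcode m.1.w ∈ ([0, 3, 4] : List (Fin 6))}
      one_mem' := by decide +kernel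
      mul_mem' := fun {a b} ha hb => (by decide +kernel : ∀ a b : Fin 48, Ok 0 a → Ok 0 b →
        pcode a ∈ ([0, 3, 4] : List (Fin 6)) → pcode b ∈ ([0, 3, 4] : List (Fin 6)) →
        pcode (lmul a b) ∈ ([0, 3, 4] : List (Fin 6))) a.1.w b.1.w a.2 b.2 ha hb
      inv_mem' := fun {a} ha => (by decide +kernel : ∀ a : Fin 48, Ok 0 a →
        pcode a ∈ ([0, 3, 4] : List (Fin 6)) → pcode (linv a) ∈ ([0, 3, 4] : List (Fin 6)))
        a.1.w a.2 ha }
  haveI : DecidablePred (· ∈ A) := fun m => decidable_of_iff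
    (pcode m.1.w ∈ ([0, 3, 4] : List (Fin 6))) Iff.rfl
  have hA : Nat.card A = 3 ^ 4 := by
    rw [Nat.card_congr (Equiv.subtypeEquivRight (p := (· ∈ A))
      (q := fun m : sub 0 => pcode m.1.w ∈ ([0, 3, 4] : List (Fin 6))) fun _ => Iff.rfl),
      Nat.card_eq_fintype_card]
    decide +kernel
  obtain ⟨P, hP⟩ := ((IsPGroup.of_card hA).map D.φ).exists_le_sylow
  haveI : Nontrivial P := by
    refine Finite.one_lt_card_iff_nontrivial.mp ?_
    have := Subgroup.card_le_of_le hP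
    rw [card_map_of_injective D.inj, hA] at this
    show 1 < Nat.card (P : Subgroup G)
    omega
  haveI := P.2.center_nontrivial
  obtain ⟨⟨⟨z, hzP⟩, hzc⟩, hz1⟩ := exists_ne (1 : center (P : Subgroup G))
  have hcz : ∀ a ∈ A, Commute z (D.φ a) := fun a ha =>
    (congrArg Subtype.val (mem_center_iff.mp hzc ⟨_, hP (mem_map_of_mem _ ha)⟩)).symm
  have htA : ∀ v, trS 0 (Multiplicative.ofAdd v) ∈ A := fun v => (by decide +kernel : pcode (0 : Fin 48) ∈ ([0, 3, 4] : List (Fin 6)))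
  obtain ⟨m, rfl⟩ := D.cent z (hcz _ (htA xv))
  have h3A : (⟨lin 3, (by decide +kernel : Ok 0 3)⟩ : sub 0) ∈ A :=
    (by decide +kernel : pcode 3 ∈ ([0, 3, 4] : List (Fin 6)))
  obtain ⟨c, hc⟩ := central_table m.1 m.2
    (fun v => congrArg Subtype.val (D.inj (by
      simpa only [map_mul] using (hcz _ (htA v)).eq) :
        m * trS 0 (Multiplicative.ofAdd v) = trS 0 (Multiplicative.ofAdd v) * m))
    (congrArg Subtype.val (D.inj (by simpa only [map_mul] using (hcz _ h3A).eq) :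
      m * ⟨lin 3, _⟩ = ⟨lin 3, _⟩ * m))
  have hxz : ∃ i : ℕ, trS 0 (Multiplicative.ofAdd xv) = m ^ i := by
    obtain ⟨i, hi⟩ := (by decide +kernel : ∀ c : Fin 3, c ≠ 0 → ∃ i : Fin 3,
      trS 0 (Multiplicative.ofAdd xv) = trS 0 (Multiplicative.ofAdd (c, c, c)) ^ i.val) c (by
        rintro rfl
        refine hz1 (Subtype.ext (Subtype.ext ?_))
        change D.φ m = 1
        rw [show m = 1 from Subtype.ext hc, map_one])
    exact ⟨i, hi.trans (by rw [show trS 0 (Multiplicative.ofAdd (c, c, c)) = m from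
      Subtype.ext hc.symm])⟩
  obtain ⟨i, hi⟩ := hxz
  have hle : (P : Subgroup G) ≤ D.φ.range := by
    intro p hp
    refine D.cent p ?_
    rw [hi, map_pow]
    exact Commute.pow_right (congrArg Subtype.val (mem_center_iff.mp hzc ⟨p, hp⟩)) i
  have h81 := Subgroup.card_dvd_of_le hle
  rw [← Nat.card_congr (MonoidHom.ofInjective D.inj).toEquiv,
    Nat.card_eq_fintype_card (α := sub 0), card_sub_zero] at h81
  have h243 : 243 ∣ Nat.card (P : Subgroup G) := P.pow_dvd_card_of_pow_dvd_card (n := 5) hd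
  have := h243.trans h81
  norm_num at this

theorem linGroup [Finite G] : ∃ L : LinGroup, L.W = D.r.range := by
  refine ⟨⟨D.r.range, ?_, ?_, ?_, ?_⟩, rfl⟩
  · rintro w ⟨g, rfl⟩; exact D.r_add g
  · exact fun a ha => ⟨⟨_, D.φ_norm ⟨lin a, ha⟩⟩, D.r_φ _⟩
  · rintro w ⟨g, rfl⟩ e
    have := D.r_spec g xv
    rw [e] at this
    obtain ⟨m, hm⟩ := D.cent g (mul_inv_eq_iff_eq_mul.mp this.symm)
    exact ⟨_, m.2, by rw [← D.r_φ m]; exact congrArg D.r (Subtype.ext hm.symm)⟩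
  · intro h9
    refine D.not_243 ?_
    have hk : Nat.card D.r.ker = 27 := by
      rw [← D.card_J]
      exact Nat.card_congr
        { toFun := fun g => ⟨g.1, D.r_ker.mp g.2⟩
          invFun := fun j => ⟨⟨j, le_normalizer j.2⟩, D.r_ker.mpr j.2⟩
          left_inv := fun g => rfl
          right_inv := fun j => rfl }
    have h := D.r.ker.card_mul_index
    rw [hk, Subgroup.index_ker] at h
    refine (Nat.mul_dvd_mul (dvd_refl 27) h9).trans ?_
    rw [h]
    exact Subgroup.card_subgroup_dvd_card _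

/-- The coordinate change of a base. -/
def shearH (b : Fin 3) : sub 0 →* sub 0 where
  toFun m := ⟨⟨shear b m.1.v, m.1.w⟩, m.2⟩
  map_one' := Subtype.ext ((by decide +kernel : ∀ b, (⟨shear b 0, 0⟩ : Mw) = 1) b)
  map_mul' m n := Subtype.ext (by
    simp only [Subgroup.coe_mul, Mw.mul_def, shear_add, shear_perm b _ m.2])

theorem shearH_inv (b : Fin 3) (m : sub 0) : shearH b (shearH (-b) m) = m :=
  Subtype.ext (show (⟨shear b (shear (-b) m.1.v), m.1.w⟩ : Mw) = ⟨m.1.v, m.1.w⟩ by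
    rw [(shear_facts b _).1])

theorem shearH_inj (b : Fin 3) : Function.Injective (shearH b) := fun m n h => by
  have := congrArg (shearH (-b)) h
  have e : shearH (-b) (shearH (- -b) m) = shearH (-b) (shearH (- -b) n) := by rwa [neg_neg]
  rwa [shearH_inv, shearH_inv] at e

theorem shearH_tr (b : Fin 3) (v : Vec) :
    shearH b (trS 0 (Multiplicative.ofAdd v)) = trS 0 (Multiplicative.ofAdd (shear b v)) :=
  Subtype.ext rfl

/-- Change of coordinates. -/
def rebase (b : Fin 3) : Base G where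
  φ := D.φ.comp (shearH b)
  inj := D.inj.comp (shearH_inj b)
  cent g hg := by
    rw [MonoidHom.comp_apply, shearH_tr, (shear_facts b xv).2.1] at hg
    obtain ⟨m, hm⟩ := D.cent g hg
    exact ⟨shearH (-b) m, by rw [MonoidHom.comp_apply, shearH_inv, hm]⟩
  hsig K hK h := by
    refine D.hsig K hK fun j hj => h j ?_
    obtain ⟨v, rfl⟩ := D.mem_J.mp hj
    refine ⟨Multiplicative.ofAdd (shear (-b) v), ?_⟩
    simp only [MonoidHom.comp_apply, shearH_tr, (shear_facts b v).1]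
    rfl

theorem rebase_τ (b : Fin 3) (v : Vec) : (D.rebase b).τ v = D.τ (shear b v) := rfl

theorem rebase_J (b : Fin 3) : (D.rebase b).J = D.J := by
  ext g
  rw [mem_J, mem_J]
  refine ⟨fun ⟨v, h⟩ => ⟨_, h⟩, fun ⟨v, h⟩ => ⟨shear (-b) v, ?_⟩⟩
  rw [rebase_τ, (shear_facts b v).1, h]

theorem rebase_x (b : Fin 3) : (D.rebase b).τ xv = D.τ xv := by
  rw [rebase_τ, (shear_facts b xv).2.1]

end Base

/-- The configuration: the normaliser of the translations in coordinates. -/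
structure Ctx (G : Type*) [Group G] (k : Fin 4) where
  /-- the coordinates -/
  ι : sub k →* G
  inj : Function.Injective ι
  cent : ∀ g : G, Commute g (ι (trS k (Multiplicative.ofAdd xv))) →
    ∃ m : sub k, Ok 0 m.1.w ∧ ι m = g
  norm : ∀ g : G, (∀ j ∈ (ι.comp (trS k)).range, g * j * g⁻¹ ∈ (ι.comp (trS k)).range) → g ∈ ι.range
  hsig : ∀ K : Subgroup G, (Nat.card K).Coprime 3 →
    (∀ j ∈ (ι.comp (trS k)).range, K.map (MulAut.conj j).toMonoidHom = K) → K = ⊥

namespace Base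

variable {G : Type*} [Group G] (D : Base G)

theorem mem_N_of_conj [Finite G] {g : G} (h : ∀ j ∈ D.J, g * j * g⁻¹ ∈ D.J) : g ∈ D.N :=
  Subgroup.mem_normalizer_fintype h

theorem ctx_zero [Finite G] (h : ∀ g : D.N, ∃ a, Ok 0 a ∧ D.r g = lp a) :
    ∃ C : Ctx G 0, ∀ v, C.ι (trS 0 (Multiplicative.ofAdd v)) = D.τ v := by
  refine ⟨⟨D.φ, D.inj, fun g hg => ?_, fun g hg => ?_, D.hsig⟩, fun v => rfl⟩
  · obtain ⟨m, rfl⟩ := D.cent g hg
    exact ⟨m, m.2, rfl⟩
  · obtain ⟨a, ha, e⟩ := h ⟨g, D.mem_N_of_conj hg⟩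
    refine D.cent g ?_
    have := D.r_spec ⟨g, D.mem_N_of_conj hg⟩ xv
    rw [e, lp_apply, (by decide +kernel : ∀ a, Ok 0 a → lact a xv = xv) a ha] at this
    exact (mul_inv_eq_iff_eq_mul.mp this.symm)

theorem sign_table : ∀ k : Fin 4, k ≠ 0 → ∀ v : Vec,
    (∀ a, Ok k a → pcode a = 0 → lact a v = v) → v = 0 := by decide +kernel

theorem pcode_facts : ∀ a b : Fin 48, (pcode b = 0 → pcode (lmul (lmul a b) (linv a)) = 0) ∧
    (pcode a = 0 → lmul a a = 0 ∧ pcode (linv a) = 0) ∧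
    (pcode a = 0 → pcode b = 0 → pcode (lmul a b) = 0 ∧ lmul a b = lmul b a) := by decide +kernel

theorem ctx_pos [Finite G] {k : Fin 4} (hk : k ≠ 0)
    (h : ∀ w, w ∈ D.r.range ↔ ∃ a, Ok k a ∧ w = lp a) :
    ∃ C : Ctx G k, ∀ v, C.ι (trS k (Multiplicative.ofAdd v)) = D.τ v := by
  classical
  haveI := Fact.mk Nat.prime_two
  have hex : ∀ g : D.N, ∃ a, Ok k a ∧ D.r g = lp a := fun g => (h _).mp ⟨g, rfl⟩
  choose lam hlamok hlam using hex
  have lam_mul : ∀ g g', lam (g * g') = lmul (lam g) (lam g') := fun g g' =>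
    lp_injective (by rw [← hlam, map_mul, hlam, hlam, lp_mul])
  have lam_one : lam 1 = 0 := lp_injective (by rw [← hlam, map_one, lp_zero])
  have lam_inv : ∀ g, lam g⁻¹ = linv (lam g) := fun g =>
    lp_injective (by rw [← hlam, map_inv, hlam, lp_inv])
  have lam_J : ∀ g, lam g = 0 ↔ (g : G) ∈ D.J := fun g => by
    rw [← D.r_ker, hlam]
    exact ⟨fun e => by rw [e, lp_zero], fun e => lp_injective (e.trans lp_zero.symm)⟩
  let E : Subgroup D.N :=
    { carrier := {g | pcode (lam g) = 0}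
      one_mem' := by change pcode (lam 1) = 0; rw [lam_one]; rfl
      mul_mem' := fun {a b} ha hb => by
        change pcode (lam (a * b)) = 0
        rw [lam_mul]; exact ((pcode_facts _ _).2.2 ha hb).1
      inv_mem' := fun {a} ha => by
        change pcode (lam a⁻¹) = 0
        rw [lam_inv]; exact ((pcode_facts _ 0).2.1 ha).2 }
  haveI : E.Normal := ⟨fun n hn g => by
    change pcode (lam (g * n * g⁻¹)) = 0
    rw [lam_mul, lam_mul, lam_inv]; exact (pcode_facts _ _).1 hn⟩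
  obtain ⟨T⟩ : Nonempty (Sylow 2 E) := inferInstance
  set T' : Subgroup D.N := (T : Subgroup E).map E.subtype with hT'
  set L : Subgroup D.N := normalizer (T' : Set D.N) with hL
  have hTE : ∀ t ∈ T', t ∈ E := fun t ht => by obtain ⟨e, -, rfl⟩ := ht; exact e.2
  have h2 : ∀ t ∈ T', ∃ n : ℕ, t ^ 2 ^ n = 1 := by
    intro t ht
    obtain ⟨e, he, rfl⟩ := ht
    obtain ⟨n, hn⟩ := T.2 ⟨e, he⟩
    exact ⟨n, congrArg E.subtype (congrArg Subtype.val hn)⟩
  have hJ3 : ∀ g : D.N, (g : G) ∈ D.J → g ^ 3 = 1 := by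
    intro g hg
    obtain ⟨v, hv⟩ := D.mem_J.mp hg
    refine Subtype.ext ?_
    rw [SubgroupClass.coe_pow, ← hv, pow_succ, sq, ← D.τ_add, ← D.τ_add,
      (by decide +kernel : ∀ v : Vec, v + v + v = 0) v]
    exact (map_one (D.φ.comp (trS 0)))
  have hTJ : ∀ t ∈ T', (t : G) ∈ D.J → t = 1 := by
    intro t ht hJ
    obtain ⟨n, hn⟩ := h2 t ht
    have := pow_gcd_eq_one.2 ⟨hn, hJ3 t hJ⟩
    rwa [(Nat.Coprime.pow_left n (by norm_num : (2 : ℕ).Coprime 3)).gcd_eq_one, pow_one] at this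
  have hE : ∀ g ∈ E, ∃ t ∈ T', lam t = lam g := by
    intro g hg
    have hsq : lam (g * g) = 0 := by rw [lam_mul]; exact ((pcode_facts _ 0).2.1 hg).1
    have h6 : (g ^ 3) ^ 2 ^ 1 = 1 := by
      rw [pow_one, ← pow_mul, show 3 * 2 = 2 * 3 from rfl, pow_mul, sq]
      exact hJ3 _ ((lam_J _).mp hsq)
    have hg3 : lam (g ^ 3) = lam g := by
      rw [pow_succ, sq, lam_mul, hsq, (lmul_zero _).2.1]
    set e : E := ⟨g ^ 3, pow_mem hg 3⟩
    have hp : IsPGroup 2 (zpowers e) := by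
      rintro ⟨z, i, rfl⟩
      refine ⟨1, Subtype.ext ?_⟩
      change (e ^ i) ^ 2 ^ 1 = 1
      rw [← zpow_natCast, ← zpow_mul, mul_comm, zpow_mul, zpow_natCast]
      rw [show e ^ 2 ^ 1 = 1 from Subtype.ext h6, one_zpow]
    obtain ⟨Q, hQ⟩ := hp.exists_le_sylow
    obtain ⟨c, hc⟩ := MulAction.exists_smul_eq E T Q
    have he : e ∈ (c • T : Sylow 2 E) := hc ▸ hQ (mem_zpowers e)
    obtain ⟨t, ht, hte⟩ : ∃ t ∈ (T : Subgroup E), c * t * c⁻¹ = e := by
      obtain ⟨t, ht, hte⟩ := he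
      exact ⟨t, ht, hte⟩
    refine ⟨t, ⟨t, ht, rfl⟩, ?_⟩
    rw [← hg3, show g ^ 3 = ((c * t * c⁻¹ : E) : D.N) by rw [hte]]
    simp only [Subgroup.coe_mul, Subgroup.coe_inv, lam_mul, lam_inv]
    rw [((pcode_facts _ _).2.2 c.2 t.2).2]
    exact ((by decide +kernel : ∀ a b, lmul (lmul a b) (linv b) = a) _ _).symm
    
  have hLJ : ∀ l ∈ L, (l : G) ∈ D.J → l = 1 := by
    intro l hl hJ
    obtain ⟨v, hv⟩ := D.mem_J.mp hJ
    suffices v = 0 by
      refine Subtype.ext ?_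
      rw [← hv, this]
      exact map_one (D.φ.comp (trS 0))
    refine sign_table k hk v fun a ha hp => ?_
    obtain ⟨g, hg⟩ := (h (lp a)).mpr ⟨a, ha, rfl⟩
    have hga : lam g = a := lp_injective ((hlam g).symm.trans hg)
    obtain ⟨t, ht, hta⟩ := hE g (show pcode (lam g) = 0 by rw [hga]; exact hp)
    have hc : (l * t * l⁻¹) * t⁻¹ ∈ T' :=
      mul_mem ((mem_normalizer_iff.mp hl t).mp ht) (inv_mem ht)
    have hcJ : ((l * t * l⁻¹ * t⁻¹ : D.N) : G) ∈ D.J := by
      refine (lam_J _).mp ?_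
      rw [lam_mul, lam_mul, lam_mul, lam_inv, lam_inv, (lam_J l).mpr hJ, (lmul_zero _).2.1,
        (lmul_zero 0).2.2, (lmul_zero _).1,
        (by decide +kernel : ∀ a, lmul a (linv a) = 0) (lam t)]
    have hcomm : t * l * t⁻¹ = l := by
      rw [mul_inv_eq_iff_eq_mul, ← mul_inv_eq_iff_eq_mul.mp (mul_inv_eq_one.mp (hTJ _ hc hcJ))]
    have := D.r_spec t v
    rw [hlam, hta, hga, lp_apply, hv, ← coe_mul, ← coe_inv, ← coe_mul, hcomm] at this
    exact D.τ_inj (this.trans hv.symm)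
  have hdec : ∀ g : D.N, ∃ v, ∃ l ∈ L, (g : G) = D.τ v * (l : G) := by
    intro g
    obtain ⟨l, hl, e, he, rfl⟩ := mem_sup_of_normal_right.mp
      ((Sylow.normalizer_sup_eq_top T).ge (mem_top g) : g ∈ L ⊔ E)
    obtain ⟨t, ht, hte⟩ := hE e he
    have hj : ((l * (e * t⁻¹) * l⁻¹ : D.N) : G) ∈ D.J := by
      refine (lam_J _).mp ?_
      rw [lam_mul, lam_mul, lam_mul, lam_inv, lam_inv, hte,
        (by decide +kernel : ∀ a, lmul a (linv a) = 0) (lam e), (lmul_zero _).1,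
        (by decide +kernel : ∀ a, lmul a (linv a) = 0) (lam l)]
    obtain ⟨v, hv⟩ := D.mem_J.mp hj
    refine ⟨v, l * t, mul_mem hl (le_normalizer ht), ?_⟩
    rw [hv, ← coe_mul]
    exact congrArg Subtype.val (by group)
  choose vec lpart hlL hdecv using hdec
  have hlam_l : ∀ g, lam (lpart g) = lam g := by
    intro g
    have e : g = ⟨D.τ (vec g), le_normalizer (D.τ_mem _)⟩ * lpart g := Subtype.ext (hdecv g)
    conv_rhs => rw [e]
    rw [lam_mul, (lam_J ⟨D.τ (vec g), _⟩).mpr (D.τ_mem _), (lmul_zero _).2.1]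
  have huniq : ∀ (g : D.N) v, ∀ l ∈ L, (g : G) = D.τ v * ((l : D.N) : G) → vec g = v ∧ lpart g = l := by
    intro g v l hl e
    have h1 : ((lpart g * l⁻¹ : D.N) : G) = D.τ (-vec g + v) := by
      rw [coe_mul, coe_inv, mul_inv_eq_iff_eq_mul, D.τ_add, mul_assoc, ← e, hdecv g, ← mul_assoc,
        ← D.τ_add, neg_add_cancel, D.τ_zero, one_mul]
    have h2 := hLJ _ (mul_mem (hlL g) (inv_mem hl)) (h1 ▸ D.τ_mem _)
    rw [mul_inv_eq_one] at h2
    refine ⟨D.τ_inj (mul_right_cancel ((hdecv g).symm.trans (e.trans ?_))), h2⟩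
    rw [h2]
  let f : D.N →* sub k :=
    { toFun := fun g => ⟨⟨vec g, lam g⟩, hlamok g⟩
      map_one' := by
        refine Subtype.ext ?_
        change (⟨vec 1, lam 1⟩ : Mw) = ⟨0, 0⟩
        rw [lam_one, (huniq 1 0 1 (one_mem _) (by
          simp only [OneMemClass.coe_one, mul_one]; exact (map_one (D.φ.comp (trS 0))).symm)).1]
      map_mul' := fun g g' => by
        refine Subtype.ext ?_
        change (⟨vec (g * g'), lam (g * g')⟩ : Mw) = ⟨vec g + lact (lam g) (vec g'), lmul (lam g) (lam g')⟩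
        rw [lam_mul, (huniq (g * g') (vec g + lact (lam g) (vec g')) (lpart g * lpart g')
          (mul_mem (hlL g) (hlL g')) ?_).1]
        rw [coe_mul, coe_mul, hdecv g, hdecv g', D.τ_add, ← lp_apply, ← hlam_l g, ← hlam, D.r_spec]
        group }
  have hfinj : Function.Injective f := by
    intro g g' e
    have e1 : vec g = vec g' := congrArg (fun m : sub k => m.1.v) e
    have e2 : lam g = lam g' := congrArg (fun m : sub k => m.1.w) e
    have hl : lpart g * (lpart g')⁻¹ = 1 := hLJ _ (mul_mem (hlL g) (inv_mem (hlL g')))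
      ((lam_J _).mp (by
        rw [lam_mul, lam_inv, hlam_l, hlam_l, e2,
          (by decide +kernel : ∀ a, lmul a (linv a) = 0) (lam g')]))
    refine Subtype.ext ?_
    rw [hdecv g, hdecv g', e1, mul_inv_eq_one.mp hl]
  have hfsurj : Function.Surjective f := by
    rintro ⟨⟨v, a⟩, ha⟩
    obtain ⟨g, hg⟩ := (h (lp a)).mpr ⟨a, ha, rfl⟩
    have hga : lam g = a := lp_injective ((hlam g).symm.trans hg)
    refine ⟨⟨D.τ v, le_normalizer (D.τ_mem v)⟩ * lpart g, Subtype.ext ?_⟩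
    change (⟨vec _, lam _⟩ : Mw) = ⟨v, a⟩
    rw [(huniq _ v _ (hlL g) rfl).1, lam_mul, hlam_l, hga,
      (lam_J ⟨D.τ v, _⟩).mpr (D.τ_mem _), (lmul_zero _).2.1]
  let e := MulEquiv.ofBijective f ⟨hfinj, hfsurj⟩
  have hτ : ∀ v, (e.symm (trS k (Multiplicative.ofAdd v)) : G) = D.τ v := by
    intro v
    have : e ⟨D.τ v, le_normalizer (D.τ_mem v)⟩ = trS k (Multiplicative.ofAdd v) := by
      refine Subtype.ext ?_
      change (⟨vec _, lam _⟩ : Mw) = ⟨v, 0⟩
      rw [(huniq ⟨D.τ v, le_normalizer (D.τ_mem v)⟩ v 1 (one_mem _) (by simp)).1,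
        (lam_J ⟨D.τ v, _⟩).mpr (D.τ_mem _)]
    rw [← this, e.symm_apply_apply]
  have hrange : ∀ g ∈ D.N, g ∈ (D.N.subtype.comp e.symm.toMonoidHom).range := fun g hg =>
    ⟨e ⟨g, hg⟩, congrArg Subtype.val (e.symm_apply_apply ⟨g, hg⟩)⟩
  have hJeq : ((D.N.subtype.comp e.symm.toMonoidHom).comp (trS k)).range = D.J := by
    ext g
    rw [D.mem_J]
    exact ⟨fun ⟨v, hv⟩ => ⟨v.toAdd, (hτ v.toAdd).symm.trans hv⟩,
      fun ⟨v, hv⟩ => ⟨Multiplicative.ofAdd v, (hτ v).trans hv⟩⟩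
  refine ⟨⟨D.N.subtype.comp e.symm.toMonoidHom, fun a b hab =>
    e.symm.injective (Subtype.ext hab), fun g hg => ?_, fun g hg => ?_, fun K hK hKJ => ?_⟩, hτ⟩
  · replace hg : Commute g (D.τ xv) := by simpa [hτ] using hg
    obtain ⟨m, rfl⟩ := D.cent g hg
    refine ⟨e ⟨D.φ m, D.φ_norm m⟩, ?_, congrArg Subtype.val (e.symm_apply_apply _)⟩
    have : lam ⟨D.φ m, D.φ_norm m⟩ = m.1.w := lp_injective ((hlam _).symm.trans (D.r_φ m))
    change Ok 0 (lam _)
    rw [this]; exact m.2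
  · exact hrange g (D.mem_N_of_conj fun j hj => hJeq ▸ hg j (hJeq.symm ▸ hj))
  · exact D.hsig K hK fun j hj => hKJ j (hJeq.symm ▸ hj)

/-- The configuration exists. -/
theorem exists_ctx [Finite G] : ∃ (k : Fin 4) (C : Ctx G k),
    (C.ι.comp (trS k)).range = D.J ∧ C.ι (trS k (Multiplicative.ofAdd xv)) = D.τ xv := by
  obtain ⟨L, hL⟩ := D.linGroup
  obtain ⟨b, k, hk⟩ := L.classify
  rw [hL] at hk
  set D' := D.rebase b
  have hN : D'.N = D.N := by rw [Base.N, Base.N, rebase_J]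
  have hiff : ∀ w, w ∈ D'.r.range ↔ ∃ a, Ok k a ∧ w = lp a := by
    intro w
    have hconv : ∀ (g : G) (h : g ∈ D.N) (h' : g ∈ D'.N),
        D'.r ⟨g, h'⟩ = (shp b)⁻¹ * D.r ⟨g, h⟩ * shp b := by
      intro g h h'
      refine Perm.ext fun v => D'.τ_inj ?_
      rw [r_spec, Perm.mul_apply, Perm.mul_apply, rebase_τ, rebase_τ]
      change g * D.τ (shear b v) * g⁻¹ = D.τ (shp b ((shp b)⁻¹ (D.r ⟨g, h⟩ (shp b v))))
      rw [show ∀ u, shp b ((shp b)⁻¹ u) = u from (shp b).apply_symm_apply, r_spec]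
      rfl
    constructor
    · rintro ⟨⟨g, hg⟩, rfl⟩
      obtain ⟨a, ha, e⟩ := (hk _).mp ⟨⟨g, hN ▸ hg⟩, rfl⟩
      refine ⟨a, ha, ?_⟩
      rw [hconv g (hN ▸ hg) hg, e]
      group
    · rintro ⟨a, ha, rfl⟩
      obtain ⟨⟨g, hg⟩, e⟩ := (hk _).mpr ⟨a, ha, rfl⟩
      refine ⟨⟨g, hN.symm ▸ hg⟩, ?_⟩
      rw [hconv g hg, e]
      group
  obtain ⟨C, hC⟩ : ∃ C : Ctx G k, ∀ v, C.ι (trS k (Multiplicative.ofAdd v)) = D'.τ v := by
    by_cases h0 : k = 0
    · subst h0
      exact D'.ctx_zero fun g => (hiff _).mp ⟨g, rfl⟩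
    · exact D'.ctx_pos h0 hiff
  refine ⟨k, C, ?_, (hC xv).trans (D.rebase_x b)⟩
  rw [← D.rebase_J b]
  ext g
  rw [mem_J]
  exact ⟨fun ⟨v, hv⟩ => ⟨v.toAdd, (hC v.toAdd).symm.trans hv⟩,
    fun ⟨v, hv⟩ => ⟨Multiplicative.ofAdd v, (hC v).trans hv⟩⟩

end Base

end CfsgLib.SymNine40
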