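import Cfsg.Agent.SymNine40.SixExtTable
import Cfsg.Agent.Perm.CoxeterA

/-!
The symmetric group of degree six is generated over its imprimitive subgroup of order seventy-two
by one transposition, and every embedding of that subgroup extends.

* `exists_extension`: the extension, with its uniqueness.
-/

set_option autoImplicit false
set_option maxRecDepth 20000
set_option maxHeartbeats 400000

open Equiv

namespace CfsgLib.SymNine40

open CfsgLib.SymEight40

/-- An embedding of the relations of the subgroup of order seventy-two extends to an injective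
endomorphism, and the extension is unique. -/
theorem exists_extension {a b p : Perm (Fin 6)} (ha : a * a = 1) (ha1 : a ≠ 1) (hb : b * b = 1)
    (hb1 : b ≠ 1) (hp : p * p = 1) (hp1 : p ≠ 1) (h : SixPre a b p) :
    ∃ α : Perm (Fin 6) →* Perm (Fin 6), Function.Injective α ∧ α (swap 0 1) = a ∧
      α (swap 1 2) = b ∧ α (swap 0 3 * swap 1 4 * swap 2 5) = p ∧
      ∀ γ : Perm (Fin 6) →* Perm (Fin 6), γ a = a → γ b = b → γ p = p → ∀ x, γ (α x) = α x := by
  obtain ⟨j, hj⟩ := invList6_class a (mem_invList6 a ha ha1)
  obtain ⟨g, hg⟩ := isConj_iff.mp (Perm.isConj_iff_cycleType_eq.mpr hj)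
  set c : Perm (Fin 6) →* Perm (Fin 6) := (MulAut.conj g).toMonoidHom with hc
  have hci : Function.Injective c := (MulAut.conj g).injective
  have hca : c a = rep6 j := hg
  have hmem : ∀ x : Perm (Fin 6), x * x = 1 → x ≠ 1 → c x ∈ invList6 := fun x h2 h1 =>
    mem_invList6 _ (by rw [← map_mul, h2, map_one]) fun e => h1 (hci (e.trans (map_one c).symm))
  have hpre := h.map c hci
  rw [hca] at hpre
  obtain ⟨s₀, hs₀, hgood, huniq⟩ :=
    six_extension_table j (c b) (hmem b hb hb1) hpre.1 (c p) (hmem p hp hp1) hpre
  obtain ⟨s, rfl⟩ : ∃ s, c s = s₀ := (MulAut.conj g).surjective s₀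
  have hS : SixGood a b p s := by
    rw [← hca] at hgood
    have e : ∀ y, (MulAut.conj g).symm.toMonoidHom (c y) = y := fun y =>
      (MulAut.conj g).symm_apply_apply y
    have := hgood.map (MulAut.conj g).symm.toMonoidHom
    rwa [e, e, e, e] at this
  have hs2 : s * s = 1 := hci (by
    rw [map_mul, map_one]
    exact (by decide +kernel : ∀ x ∈ invList6, x * x = 1) _ hs₀)
  obtain ⟨g1, g2, g3, g4, g5⟩ := hS
  obtain ⟨p1, p2, p3, p4, p5, p6⟩ := h
  have hc2 : p * a * p * (p * a * p) = 1 := by
    rw [show p * a * p * (p * a * p) = p * a * (p * p) * a * p by group, hp, mul_one,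
      mul_assoc p a a, ha, mul_one, hp]
  have hd2 : p * b * p * (p * b * p) = 1 := by
    rw [show p * b * p * (p * b * p) = p * b * (p * p) * b * p by group, hp, mul_one,
      mul_assoc p b b, hb, mul_one, hp]
  have hcd : p * a * p * (p * b * p) * (p * a * p) = p * b * p * (p * a * p) * (p * b * p) := by
    rw [show p * a * p * (p * b * p) * (p * a * p) = p * a * (p * p) * b * (p * p) * a * p by group,
      show p * b * p * (p * a * p) * (p * b * p) = p * b * (p * p) * a * (p * p) * b * p by group,
      hp, mul_one, mul_one, mul_one, mul_one, mul_assoc p a b, mul_assoc p (a * b) a, p1]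
    group
  have cube : ∀ {x y : Perm (Fin 6)}, x * x = 1 → y * y = 1 → x * y * x = y * x * y →
      (x * y) ^ 3 = 1 := fun {x y} hx hy hxy => by
    rw [pow_succ, pow_two, show x * y * (x * y) * (x * y) = (x * y * x) * (y * x * y) by group,
      hxy, show y * x * y * (y * x * y) = y * x * (y * y) * x * y by group, hy, mul_one,
      mul_assoc y x x, hx, mul_one, hy]
  have sq : ∀ {x y : Perm (Fin 6)}, x * x = 1 → y * y = 1 → x * y = y * x → (x * y) ^ 2 = 1 :=
    fun {x y} hx hy hxy => by
    rw [pow_two]
    nth_rewrite 2 [hxy]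
    rw [show x * y * (y * x) = x * (y * y) * x by group, hy, mul_one, hx]
  let t : ℕ → Perm (Fin 6) := fun i => [a, b, s, p * a * p, p * b * p].getD i 1
  obtain ⟨α, hα⟩ := CfsgLib.CoxeterA.exists_permHom (G := Perm (Fin 6)) 5 t
    ⟨fun i hi => by interval_cases i <;> assumption,
      fun i hi => by
        have hlt : i < 4 := by omega
        interval_cases i
        exacts [cube ha hb p1, cube hb hs2 g3.symm, cube hs2 hc2 g4, cube hc2 hd2 hcd],
      fun i k hik hk => by
        have hlt : i < 3 := by omega
        interval_cases i <;> interval_cases k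
        exacts [sq ha hs2 g1.symm, sq ha hc2 p3, sq ha hd2 p4, sq hb hc2 p5, sq hb hd2 p6,
          sq hs2 hd2 g2]⟩
  have e0 : α (swap 0 1) = a := hα 0
  have e1 : α (swap 1 2) = b := hα 1
  have e2 : α (swap 2 3) = s := hα 2
  have e3 : α (swap 3 4) = p * a * p := hα 3
  have e4 : α (swap 4 5) = p * b * p := hα 4
  have ep : α (swap 0 3 * swap 1 4 * swap 2 5) = p := by
    rw [← six_pi_word]
    simp only [piW, map_mul, e0, e1, e2, e3, e4]
    exact g5
  refine ⟨α, ?_, e0, e1, ep, fun γ ga gb gp x => ?_⟩
  · rw [← MonoidHom.ker_eq_bot_iff]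
    have hA : IsSimpleGroup (alternatingGroup (Fin 6)) := alternatingGroup.isSimpleGroup (by simp)
    rcases ((MonoidHom.normal_ker α).subgroupOf (alternatingGroup (Fin 6))).eq_bot_or_eq_top
      with hb' | ht
    · rw [eq_bot_iff]
      intro k hk
      refine Subgroup.mem_bot.mpr (six_centre k fun i => ?_)
      set w := k * swap i.castSucc i.succ * k⁻¹ * (swap i.castSucc i.succ)⁻¹ with hw
      have hw1 : α w = 1 := by
        rw [hw, map_mul, map_mul, map_mul, map_inv α k, MonoidHom.mem_ker.mp hk, one_mul, inv_one,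
          mul_one, ← map_mul, mul_inv_cancel, map_one]
      have hw2 : w ∈ alternatingGroup (Fin 6) := by
        rw [Perm.mem_alternatingGroup, hw, map_mul, map_mul, map_mul, map_inv, map_inv,
          mul_comm (Perm.sign k), mul_inv_cancel_right, mul_inv_cancel]
      have hw3 : (⟨w, hw2⟩ : alternatingGroup (Fin 6)) ∈
          α.ker.subgroupOf (alternatingGroup (Fin 6)) :=
        Subgroup.mem_subgroupOf.mpr (MonoidHom.mem_ker.mpr hw1)
      rw [hb', Subgroup.mem_bot] at hw3
      have hw4 : w = 1 := congrArg Subtype.val hw3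
      exact mul_inv_eq_iff_eq_mul.mp (mul_inv_eq_one.mp hw4)
    · exfalso
      have hm : (swap (0 : Fin 6) 1 * swap 1 2) ∈ alternatingGroup (Fin 6) := by
        rw [Perm.mem_alternatingGroup]; decide +kernel
      have this : (⟨_, hm⟩ : alternatingGroup (Fin 6)) ∈
          α.ker.subgroupOf (alternatingGroup (Fin 6)) := by rw [ht]; exact Subgroup.mem_top _
      rw [Subgroup.mem_subgroupOf] at this
      rw [MonoidHom.mem_ker, map_mul, e0, e1, mul_eq_one_iff_eq_inv,
        inv_eq_of_mul_eq_one_right hb] at this
      exact p2 this.symm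
  · have hs1 : γ s ≠ 1 := fun e => by
      have := congrArg γ g3
      rw [map_mul, map_mul, map_mul, map_mul, e, gb, one_mul, mul_one, hb] at this
      exact hb1 this
    have hgs : γ s = s := by
      have h' := (SixGood.map ⟨g1, g2, g3, g4, g5⟩ γ)
      rw [ga, gb, gp] at h'
      have h'' := h'.map c
      rw [hca] at h''
      exact hci (huniq _ (hmem _ (by rw [← map_mul, hs2, map_one]) hs1) h'')
    refine DFunLike.congr_fun (MonoidHom.eq_of_eqOn_denseM
      (Equiv.Perm.mclosure_swap_castSucc_succ 5) ?_ : γ.comp α = α) x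
    rintro _ ⟨i, rfl⟩
    rw [MonoidHom.comp_apply, hα]
    fin_cases i
    · exact ga
    · exact gb
    · exact hgs
    · show γ (p * a * p) = p * a * p
      rw [map_mul, map_mul, ga, gp]
    · show γ (p * b * p) = p * b * p
      rw [map_mul, map_mul, gb, gp]

end CfsgLib.SymNine40
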