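import Cfsg.Agent.SymEight40.SixTable
import Cfsg.Agent.Perm.CoxeterA

/-!
Finite facts on generators of the subgroup of order seventy-two in the symmetric group of degree
six.

* `six_extension_table`: the middle transposition exists and is unique.
-/

set_option autoImplicit false
set_option maxRecDepth 20000
set_option maxHeartbeats 400000

open Equiv

namespace CfsgLib.SymNine40

open CfsgLib.SymEight40

/-- The exchange of the halves in adjacent transpositions. -/
def piW {G : Type*} [Mul G] (a b s c d : G) : G := s * b * a * c * s * b * d * c * s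

/-- The relations of the generators of the subgroup of order seventy-two. -/
def SixPre (a b p : Perm (Fin 6)) : Prop :=
  a * b * a = b * a * b ∧ b ≠ a ∧ a * (p * a * p) = p * a * p * a ∧
    a * (p * b * p) = p * b * p * a ∧ b * (p * a * p) = p * a * p * b ∧
    b * (p * b * p) = p * b * p * b

/-- The relations of the middle transposition. -/
def SixGood (a b p s : Perm (Fin 6)) : Prop :=
  s * a = a * s ∧ s * (p * b * p) = p * b * p * s ∧ s * b * s = b * s * b ∧
    s * (p * a * p) * s = p * a * p * s * (p * a * p) ∧
    piW a b s (p * a * p) (p * b * p) = p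

instance (a b p : Perm (Fin 6)) : Decidable (SixPre a b p) := by unfold SixPre; infer_instance

instance (a b p s : Perm (Fin 6)) : Decidable (SixGood a b p s) := by
  unfold SixGood; infer_instance

theorem SixPre.map {a b p : Perm (Fin 6)} (h : SixPre a b p)
    (f : Perm (Fin 6) →* Perm (Fin 6)) (hf : Function.Injective f) :
    SixPre (f a) (f b) (f p) := by
  simpa only [SixPre, ← map_mul, hf.eq_iff, ne_eq] using h

theorem SixGood.map {a b p s : Perm (Fin 6)} (h : SixGood a b p s)
    (f : Perm (Fin 6) →* Perm (Fin 6)) : SixGood (f a) (f b) (f p) (f s) := by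
  obtain ⟨h1, h2, h3, h4, h5⟩ := h
  refine ⟨?_, ?_, ?_, ?_, ?_⟩
  · simpa only [map_mul] using congrArg f h1
  · simpa only [map_mul] using congrArg f h2
  · simpa only [map_mul] using congrArg f h3
  · simpa only [map_mul] using congrArg f h4
  · simpa only [piW, map_mul] using congrArg f h5

set_option synthInstance.maxSize 20000 in
set_option synthInstance.maxHeartbeats 800000 in
set_option maxHeartbeats 2000000 in
theorem six_extension_table : ∀ j : Fin 3, ∀ b ∈ invList6, rep6 j * b * rep6 j = b * rep6 j * b →
    ∀ p ∈ invList6, SixPre (rep6 j) b p →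
    ∃ s ∈ invList6, SixGood (rep6 j) b p s ∧
      ∀ s' ∈ invList6, SixGood (rep6 j) b p s' → s' = s := by
  decide +kernel

theorem six_pi_word : piW (swap (0 : Fin 6) 1) (swap 1 2) (swap 2 3) (swap 3 4) (swap 4 5) =
    swap 0 3 * swap 1 4 * swap 2 5 := by decide +kernel

theorem six_centre : ∀ k : Perm (Fin 6),
    (∀ i : Fin 5, k * swap i.castSucc i.succ = swap i.castSucc i.succ * k) → k = 1 := by
  decide +kernel

end CfsgLib.SymNine40
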