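import Cfsg.Agent.SymNine40.Interface
import Cfsg.Agent.SymNine40.SixAut
import Cfsg.Agent.PSp43Amalgam.Transfer

/-!
The centraliser of a short translation splits.

* `Ctx.SixType.split`: a complement isomorphic to the symmetric group of degree six, in
  coordinates.
-/

set_option autoImplicit false
set_option maxRecDepth 20000
set_option maxHeartbeats 400000

open Equiv Subgroup

namespace CfsgLib.SymNine40

open Mw

/-- The transposition of the first two points. -/
def mA : Mw := ⟨(1, 0, 0), 6⟩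

/-- The transposition of the second and third point. -/
def mB : Mw := lin 6

/-- The six words in two generators of a symmetric group of degree three. -/
def w6 {H : Type*} [Mul H] [One H] (a b : H) : Fin 6 → H := ![1, a, b, a * b, b * a, a * b * a]

/-- The words of the subgroup of order seventy-two. -/
def elt6 {H : Type*} [Mul H] [One H] (a b p : H) (i k : Fin 6) (e : Bool) : H :=
  w6 a b i * (p * w6 a b k * p) * (if e then p else 1)

theorem map_w6 {H K : Type*} [Group H] [Group K] (f : H →* K) (a b : H) (i : Fin 6) :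
    f (w6 a b i) = w6 (f a) (f b) i := by
  fin_cases i <;> simp [w6, map_mul]

theorem map_elt6 {H K : Type*} [Group H] [Group K] (f : H →* K) (a b p : H) (i k : Fin 6)
    (e : Bool) : f (elt6 a b p i k e) = elt6 (f a) (f b) (f p) i k e := by
  cases e <;> simp [elt6, map_mul, map_w6]

theorem fix6_elt : ∀ m : Mw, (∀ j : Fin 9, 6 ≤ j.val → toPerm m j = j) →
    ∃ i k e, m = elt6 mA mB piM i k e := by decide +kernel

theorem elt6_perm : ∀ i k e, ∀ x : Fin 6, toPerm (elt6 mA mB piM i k e) (x.castLE (by norm_num)) =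
    (elt6 (swap (0 : Fin 6) 1) (swap 1 2) (swap 0 3 * swap 1 4 * swap 2 5) i k e x).castLE
      (by norm_num) := by
  decide +kernel

theorem six_ok_three : ∀ a : Fin 48, Ok 3 a := by decide +kernel

theorem six_gen_facts :
    (mA * tr e3 = tr e3 * mA ∧ mB * tr e3 = tr e3 * mB ∧ piM * tr e3 = tr e3 * piM) ∧
    (lin 24 * mA = mA * lin 24 ∧ lin 24 * mB = mB * lin 24 ∧ lin 24 * piM = piM * lin 24) ∧
    (lin 24 * tr e3 = (tr e3)⁻¹ * lin 24) ∧
    (mA * mA = 1 ∧ mB * mB = 1 ∧ piM * piM = 1) ∧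
    (∀ i : Fin 3, mA ≠ tr (unit 2 i) ∧ mB ≠ tr (unit 2 i) ∧ piM ≠ tr (unit 2 i) ∧
      mB * mA ≠ tr (unit 2 i)) ∧
    (mA * mB * mA = mB * mA * mB ∧ mA * (piM * mA * piM) = piM * mA * piM * mA ∧
      mA * (piM * mB * piM) = piM * mB * piM * mA ∧ mB * (piM * mA * piM) = piM * mA * piM * mB ∧
      mB * (piM * mB * piM) = piM * mB * piM * mB) := by
  decide +kernel

theorem hom_eq_one_of_swaps {P : Type*} [Group P] (χ : Perm (Fin 6) →* P)
    (h : ∀ g : P, g * g = 1 → g = 1) : ∀ x, χ x = 1 := fun x => by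
  refine DFunLike.congr_fun (MonoidHom.eq_of_eqOn_denseM
    (Equiv.Perm.mclosure_swap_castSucc_succ 5) ?_ : χ = 1) x
  rintro _ ⟨i, rfl⟩
  exact h _ (by rw [← map_mul, Equiv.swap_mul_self, map_one])

variable {G : Type*} [Group G]

/-- The centraliser of the short translation. -/
abbrev Ctx.e3Cent (C : Ctx G 3) : Subgroup G := centralizer ({C.T e3} : Set G)

theorem Ctx.SixType.split [Finite G] {C : Ctx G 3} (h : C.SixType) : Nonempty C.Split := by
  obtain ⟨ψ, hψs, hψk⟩ : ∃ ψ : C.e3Cent →* Perm (Fin 6), Function.Surjective ψ ∧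
    ∀ c, ψ c = 1 ↔ ∃ i : Fin 3, C.T (unit 2 i) = c := h
  haveI := Fact.mk Nat.prime_three
  obtain ⟨⟨cA, cB, cP⟩, ⟨tA, tB, tP⟩, tinv, ⟨sA, sB, sP⟩, hne, ⟨r1, r2, r3, r4, r5⟩⟩ :=
    six_gen_facts
  have memC : ∀ g : G, g ∈ C.e3Cent ↔ Commute g (C.T e3) := fun g => mem_centralizer_singleton_iff
  let X : Mw →* G := MonoidHom.mk' C.X fun a b => C.X_mul (six_ok_three _) (six_ok_three _)
  have hXinj : Function.Injective X := fun a b e => C.X_inj (six_ok_three _) (six_ok_three _) e
  let Hc : Subgroup Mw := centralizer ({tr e3} : Set Mw)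
  let f : Hc →* C.e3Cent := (X.comp Hc.subtype).codRestrict C.e3Cent fun m => (memC _).mpr
    ((C.X_commute (six_ok_three _) (six_ok_three _)).mpr (mem_centralizer_singleton_iff.mp m.2))
  let hA : Hc := ⟨mA, mem_centralizer_singleton_iff.mpr cA⟩
  let hB : Hc := ⟨mB, mem_centralizer_singleton_iff.mpr cB⟩
  let hP : Hc := ⟨piM, mem_centralizer_singleton_iff.mpr cP⟩
  -- the kernel of `ψ`
  let c : C.e3Cent := ⟨C.T e3, (memC _).mpr (Commute.refl _)⟩
  have hc3 : c * c * c = 1 := Subtype.ext (C.T_cube e3)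
  have hker : ∀ k : C.e3Cent, ψ k = 1 → k = 1 ∨ k = c ∨ k = c * c := by
    intro k hk
    obtain ⟨i, hi⟩ := (hψk k).mp hk
    fin_cases i
    · left; exact Subtype.ext (hi.symm.trans C.T_zero)
    · right; left; exact Subtype.ext hi.symm
    · right; right
      exact Subtype.ext (hi.symm.trans ((congrArg C.T (by decide : unit 2 2 = e3 + e3)).trans
        (C.T_add e3 e3)))
  -- the order of the centraliser
  have hcard : Nat.card C.e3Cent = 2160 := by
    have hk : Nat.card ψ.ker = 3 := by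
      let u : Fin 3 → ψ.ker := fun i =>
        ⟨⟨C.T (unit 2 i), (memC _).mpr (C.T_comm _ _)⟩, (hψk _).mpr ⟨i, rfl⟩⟩
      have hu : Function.Bijective u := by
        refine ⟨fun i k e => ?_, fun ⟨k, hk⟩ => ?_⟩
        · have := C.T_inj (congrArg Subtype.val (congrArg Subtype.val e))
          exact (by decide +kernel : ∀ i k : Fin 3, unit 2 i = unit 2 k → i = k) i k this
        · obtain ⟨i, hi⟩ := (hψk k).mp hk
          exact ⟨i, Subtype.ext (Subtype.ext hi)⟩
      rw [← Nat.card_eq_of_bijective u hu, Nat.card_fin]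
    rw [← Subgroup.card_mul_index ψ.ker, hk, Subgroup.index_ker,
      MonoidHom.range_eq_top.mpr hψs, Subgroup.card_top, Nat.card_eq_fintype_card,
      Fintype.card_perm, Fintype.card_fin]
    rfl
  have hJle : C.J ≤ C.e3Cent := fun g hg => (memC g).mpr (C.J_comm hg (C.T_mem_J e3))
  have hJc : Nat.card (C.J.subgroupOf C.e3Cent) = 27 := by
    rw [Nat.card_congr (subgroupOfEquivOfLe hJle).toEquiv, C.card_J]
  have hidx : (C.J.subgroupOf C.e3Cent).index = 80 := by
    have := (C.J.subgroupOf C.e3Cent).card_mul_index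
    rw [hJc, hcard] at this
    omega
  have hp3 : IsPGroup 3 (C.J.subgroupOf C.e3Cent) := IsPGroup.of_card (n := 3) (by rw [hJc]; norm_num)
  let P : Sylow 3 C.e3Cent := hp3.toSylow (by rw [hidx]; norm_num)
  have hPJ : (P : Subgroup C.e3Cent) = C.J.subgroupOf C.e3Cent := rfl
  obtain ⟨V, hV1, hV2, -⟩ := PSp43Amalgam.exists_transfer P fun a ha b hb => by
    rw [hPJ] at ha hb
    exact Subtype.ext (C.J_comm (mem_subgroupOf.mp ha) (mem_subgroupOf.mp hb))
  have hVinv : ∀ g : C.e3Cent, g * g = 1 → V g = 1 := fun g hg => hV2 g ⟨orderOf g, rfl, by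
    have h2 : orderOf g ∣ 2 := orderOf_dvd_of_pow_eq_one (by rw [pow_two]; exact hg)
    exact Nat.Coprime.coprime_dvd_left h2 (by norm_num)⟩
  have hPtwo : ∀ g : (P : Subgroup C.e3Cent), g * g = 1 → g = 1 := fun g hg => by
    have h2 : orderOf g ∣ 2 := orderOf_dvd_of_pow_eq_one (by rw [pow_two]; exact hg)
    have h27 : orderOf g ∣ 27 := hJc ▸ hPJ ▸ orderOf_dvd_natCard g
    have := Nat.dvd_gcd h2 h27
    exact orderOf_eq_one_iff.mp (Nat.dvd_one.mp this)
  have hVc : V c ≠ 1 := by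
    intro e
    have h1 := hV1 c (by rw [hPJ]; exact mem_subgroupOf.mpr (C.T_mem_J e3)) fun n _ =>
      Subtype.ext ((memC _).mp n.2).eq
    rw [e, OneMemClass.coe_one, hPJ, hidx, show (80 : ℕ) = 3 * 26 + 2 by rfl, pow_add, pow_mul,
      show c ^ 3 = 1 by rw [pow_succ, pow_two]; exact hc3, one_pow, one_mul, pow_two] at h1
    have h2 : C.T (e3 + e3) = C.T 0 := by
      rw [C.T_add, C.T_zero]; exact (congrArg Subtype.val h1).symm
    exact (by decide +kernel : e3 + e3 ≠ 0) (C.T_inj h2)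
  have hVcc : V (c * c) ≠ 1 := fun e => hVc (by
    have h3 := congrArg V hc3
    rwa [map_mul, e, one_mul, map_one] at h3)
  -- the complement
  have hKinj : ∀ k : C.e3Cent, V k = 1 → ψ k = 1 → k = 1 := fun k hk hk' => by
    rcases hker k hk' with r | r | r
    · exact r
    · exact absurd (r ▸ hk) hVc
    · exact absurd (r ▸ hk) hVcc
  let ψK : V.ker →* Perm (Fin 6) := ψ.comp V.ker.subtype
  have hψK : Function.Bijective ψK := by
    refine ⟨(injective_iff_map_eq_one ψK).mpr fun k hk =>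
      Subtype.ext (hKinj k (MonoidHom.mem_ker.mp k.2) hk), MonoidHom.range_eq_top.mp ?_⟩
    rw [eq_top_iff, ← Equiv.Perm.closure_isSwap, closure_le]
    intro σ hσ
    obtain ⟨g, rfl⟩ := hψs σ
    have h2 : ψ g * ψ g = 1 := by
      obtain ⟨x, y, -, e⟩ := hσ
      rw [e, Equiv.swap_mul_self]
    refine ⟨⟨g * g * g, MonoidHom.mem_ker.mpr (hVinv _ ?_)⟩, ?_⟩
    · rw [show g * g * g * (g * g * g) = (g * g) * (g * g) * (g * g) by group]
      rcases hker (g * g) (by rw [map_mul, h2]) with r | r | r <;> rw [r]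
      · simp
      · exact hc3
      · rw [show c * c * (c * c) * (c * c) = c * c * c * (c * c * c) by group, hc3, one_mul]
    · show ψ (g * g * g) = ψ g
      rw [map_mul, map_mul, h2, one_mul]
  let e := MulEquiv.ofBijective ψK hψK
  let φ : Hc →* Perm (Fin 6) := ψ.comp f
  have hVf : ∀ m : Hc, V (f m) = 1 → (e.symm (φ m) : C.e3Cent) = f m := fun m hm => by
    have := e.symm_apply_apply (⟨f m, MonoidHom.mem_ker.mpr hm⟩ : V.ker)
    exact congrArg Subtype.val this
  have hsq : ∀ m : Hc, (m : Mw) * m = 1 → φ m * φ m = 1 ∧ V (f m) = 1 := fun m hm => by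
    have h1 : m * m = 1 := Subtype.ext hm
    exact ⟨by rw [← map_mul, h1, map_one], hVinv _ (by rw [← map_mul, h1, map_one])⟩
  have hφne : ∀ m : Hc, (∀ i : Fin 3, (m : Mw) ≠ tr (unit 2 i)) → φ m ≠ 1 := fun m hm hk => by
    obtain ⟨i, hi⟩ := (hψk (f m)).mp hk
    exact hm i (hXinj hi.symm)
  obtain ⟨α, hαi, αA, αB, αP, huniq⟩ := exists_extension (a := φ hA) (b := φ hB) (p := φ hP)
    (hsq hA sA).1 (hφne hA fun i => (hne i).1) (hsq hB sB).1 (hφne hB fun i => (hne i).2.1)
    (hsq hP sP).1 (hφne hP fun i => (hne i).2.2.1) (by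
      have q : ∀ {u v : Hc}, (u : Mw) = v → φ u = φ v := fun h => congrArg φ (Subtype.ext h)
      refine ⟨?_, fun hba => ?_, ?_, ?_, ?_, ?_⟩
      rotate_left 1
      · refine hφne (hB * hA) (fun i => (hne i).2.2.2) ?_
        rw [map_mul, hba, (hsq hA sA).1]
      all_goals simp only [← map_mul]
      exacts [q r2, q r3, q r4, q r5, q r1])
  let κ0 : Perm (Fin 6) →* G := C.e3Cent.subtype.comp (V.ker.subtype.comp e.symm.toMonoidHom)
  have hκ0 : ∀ m : Hc, V (f m) = 1 → κ0 (φ m) = C.X m := fun m hm =>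
    congrArg Subtype.val (hVf m hm)
  -- the reflection at the short translation
  let t := C.X (lin 24)
  have ht : t * C.T e3 * t⁻¹ = (C.T e3)⁻¹ := by
    rw [mul_inv_eq_iff_eq_mul]
    show X (lin 24) * X (tr e3) = (X (tr e3))⁻¹ * X (lin 24)
    rw [← map_inv, ← map_mul, ← map_mul, tinv]
  let τ : C.e3Cent →* C.e3Cent := ((MulAut.conj t).toMonoidHom.comp C.e3Cent.subtype).codRestrict C.e3Cent fun g => by
    refine (memC _).mpr ?_
    have hc' : Commute (MulAut.conj t (g : G)) (MulAut.conj t (C.T e3)) :=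
      ((memC _).mp g.2).map (MulAut.conj t)
    rw [MulAut.conj_apply, MulAut.conj_apply, ht, Commute.inv_right_iff] at hc'
    exact hc'
  let γ : Perm (Fin 6) →* Perm (Fin 6) :=
    ψ.comp (τ.comp (V.ker.subtype.comp e.symm.toMonoidHom))
  have hγ : ∀ m : Hc, lin 24 * (m : Mw) = m * lin 24 → V (f m) = 1 → γ (φ m) = φ m :=
    fun m hm hV => by
      show ψ (τ (e.symm (φ m) : C.e3Cent)) = ψ (f m)
      rw [hVf m hV]
      refine congrArg ψ (Subtype.ext ?_)
      show X (lin 24) * X m * (X (lin 24))⁻¹ = X m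
      rw [mul_inv_eq_iff_eq_mul, ← map_mul, ← map_mul, hm]
  have hτK : ∀ x, V (τ (e.symm x : C.e3Cent)) = 1 :=
    hom_eq_one_of_swaps (V.comp (τ.comp (V.ker.subtype.comp e.symm.toMonoidHom))) hPtwo
  refine ⟨{
    κ := κ0.comp α
    inj := (C.e3Cent.subtype_injective.comp (V.ker.subtype_injective.comp e.symm.injective)).comp hαi
    comm := fun p => (memC _).mp (e.symm (α p) : C.e3Cent).2
    comm_t := fun p => ?_
    decomp := fun g hg => ?_
    compat := fun m p hmp hfix => ?_ }⟩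
  · set x := α p
    have h1 : γ x = x := huniq γ (hγ hA tA (hsq hA sA).2) (hγ hB tB (hsq hB sB).2)
      (hγ hP tP (hsq hP sP).2) p
    have h2 : τ (e.symm x : C.e3Cent) = (e.symm x : C.e3Cent) := by
      refine inv_mul_eq_one.mp (hKinj _ ?_ ?_)
      · rw [map_mul, map_inv, hτK, MonoidHom.mem_ker.mp (e.symm x).2, inv_one, one_mul]
      · rw [map_mul, map_inv, show ψ (τ (e.symm x : C.e3Cent)) = x from h1,
          show ψ (e.symm x : C.e3Cent) = x from e.apply_symm_apply x, inv_mul_cancel]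
    exact (mul_inv_eq_iff_eq_mul.mp (congrArg Subtype.val h2)).symm
  · let g' : C.e3Cent := ⟨g, (memC g).mpr hg⟩
    obtain ⟨p, hp⟩ := (Finite.injective_iff_surjective.mp hαi) (ψ g')
    obtain ⟨i, hi⟩ := (hψk (g' * (e.symm (ψ g') : C.e3Cent)⁻¹)).mp (by
      rw [map_mul, map_inv, show ψ (e.symm (ψ g') : C.e3Cent) = ψ g' from e.apply_symm_apply _,
        mul_inv_cancel])
    refine ⟨i, p, ?_⟩
    show g = _ * κ0 (α p)
    rw [hp, hi]
    show g = g * ((e.symm (ψ g') : C.e3Cent) : G)⁻¹ * ((e.symm (ψ g') : C.e3Cent) : G)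
    rw [inv_mul_cancel_right]
  · obtain ⟨i, k, b, rfl⟩ := fix6_elt m hfix
    have hp : p = elt6 (swap 0 1) (swap 1 2) (swap 0 3 * swap 1 4 * swap 2 5) i k b :=
      Equiv.ext fun x => Fin.castLE_injective _ ((hmp x).symm.trans (elt6_perm i k b x))
    have hm : ((elt6 hA hB hP i k b : Hc) : Mw) = elt6 mA mB piM i k b := map_elt6 Hc.subtype _ _ _ _ _ _
    have hV : V (f (elt6 hA hB hP i k b)) = 1 := by
      rw [map_elt6, map_elt6, (hsq hA sA).2, (hsq hB sB).2, (hsq hP sP).2]
      fin_cases i <;> fin_cases k <;> cases b <;> simp [elt6, w6]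
    show κ0 (α p) = _
    rw [hp, map_elt6, αA, αB, αP, ← map_elt6 φ, hκ0 _ hV, hm]

end CfsgLib.SymNine40
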