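import Cfsg.Agent.SymNine40.Setup

/-!
The coordinates of the centraliser of a product of three three-cycles on nine points.

* `exists_base`: the hypotheses of the recognition give a base.
-/

set_option autoImplicit false
set_option maxRecDepth 20000

open Equiv Subgroup

namespace CfsgLib.SymNine40

open Mw

/-- The product of the three three-cycles. -/
def u9 : Perm (Fin 9) := swap 0 1 * swap 1 2 * swap 3 4 * swap 4 5 * swap 6 7 * swap 7 8

theorem u9_model : toPerm (tr xv) = u9 := Equiv.ext (by decide +kernel)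

theorem u9_orbit : ∀ a b : Fin 9, a.val / 3 = b.val / 3 → ∃ i : Fin 3, (u9 ^ i.val) a = b := by
  decide +kernel

theorem u9_cover : ∀ p : Fin 9, ∃ i : Fin 3, ∃ q : Fin 3, p = (u9 ^ i.val) (pt q 0) := by
  decide +kernel

theorem u9_sep : ∀ q q' : Fin 3, ∀ i : Fin 3, (u9 ^ i.val) (pt q 0) = pt q' 0 → q = q' := by
  decide +kernel

/-- The translation with prescribed images of the three base points. -/
def vOf (a b c : Fin 9) : Vec :=
  let f : ℕ → Fin 3 := fun j =>
    if a.val / 3 = j then Fin.ofNat 3 a.val else if b.val / 3 = j then Fin.ofNat 3 b.val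
    else Fin.ofNat 3 c.val
  (f 0, f 1, f 2)

theorem base_points : ∀ a b c : Fin 9, a.val / 3 ≠ b.val / 3 → a.val / 3 ≠ c.val / 3 →
    b.val / 3 ≠ c.val / 3 → ∃ p : Fin 6,
      actPt ⟨vOf a b c, p.castLE (by norm_num)⟩ (pt 0 0) = a ∧
      actPt ⟨vOf a b c, p.castLE (by norm_num)⟩ (pt 1 0) = b ∧
      actPt ⟨vOf a b c, p.castLE (by norm_num)⟩ (pt 2 0) = c := by decide +kernel

theorem ok_six : ∀ p : Fin 6, Ok 0 (p.castLE (by norm_num) : Fin 48) := by decide +kernel

theorem tr_xv_central : ∀ a : Fin 48, Ok 0 a → ∀ v : Vec,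
    (⟨v, a⟩ : Mw) * tr xv = tr xv * ⟨v, a⟩ := by decide +kernel

/-- The change of sign of translations. -/
def negH : sub 0 →* sub 0 where
  toFun m := ⟨⟨-m.1.v, m.1.w⟩, m.2⟩
  map_one' := Subtype.ext ((by decide +kernel : (⟨-(0 : Vec), 0⟩ : Mw) = 1))
  map_mul' m n := Subtype.ext (by
    change (⟨-(m.1.v + lact m.1.w n.1.v), _⟩ : Mw) = ⟨-m.1.v + lact m.1.w (-n.1.v), _⟩
    rw [(by decide +kernel : ∀ a v, lact a (-v) = -lact a v) m.1.w n.1.v, neg_add]
    rfl)

theorem negH_negH (m : sub 0) : negH (negH m) = m := Subtype.ext (by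
  change (⟨- -m.1.v, m.1.w⟩ : Mw) = m.1
  rw [neg_neg])

/-- The hypotheses give a base. -/
theorem exists_base {G : Type*} [Group G] [Finite G] (x : G) (hx : orderOf x = 3)
    (eC : centralizer ({x} : Set G) ≃* centralizer ({u9} : Set (Perm (Fin 9))))
    (J : Subgroup G) (hJC : J ≤ centralizer ({x} : Set G)) (hJcomm : IsMulCommutative J)
    (hJexp : ∀ j ∈ J, j ^ 3 = 1) (hJcard : Nat.card J = 27)
    (hJsig : ∀ K : Subgroup G, (Nat.card K).Coprime 3 →
      (∀ j ∈ J, K.map (MulAut.conj j).toMonoidHom = K) → K = ⊥) :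
    ∃ D : Base G, D.J = J ∧ D.τ xv = x := by
  classical
  have hmem : ∀ m : sub 0, toPerm m.1 ∈ centralizer ({u9} : Set (Perm (Fin 9))) := fun m => by
    rw [mem_centralizer_singleton_iff, ← u9_model, ← map_mul, ← map_mul]
    exact congrArg toPerm (tr_xv_central m.1.w m.2 m.1.v)
  let ψ : sub 0 →* centralizer ({u9} : Set (Perm (Fin 9))) :=
    (toPerm.comp (sub 0).subtype).codRestrict _ hmem
  have hψi : Function.Injective ψ := fun a b h =>
    Subtype.ext (toPerm_injective (congrArg Subtype.val h))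
  have hψs : Function.Surjective ψ := by
    rintro ⟨g, hg⟩
    rw [mem_centralizer_singleton_iff] at hg
    have hcm : ∀ (f : Perm (Fin 9)), Commute f u9 → ∀ (i : ℕ) (p : Fin 9),
        f ((u9 ^ i) p) = (u9 ^ i) (f p) := fun f hf i p =>
      DFunLike.congr_fun (hf.pow_right i).eq p
    have hne : ∀ q q' : Fin 3, q ≠ q' → (g (pt q 0)).val / 3 ≠ (g (pt q' 0)).val / 3 := by
      intro q q' hq e
      obtain ⟨i, hi⟩ := u9_orbit _ _ e
      rw [← hcm g hg] at hi
      exact hq (u9_sep q q' i (g.injective hi))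
    obtain ⟨p, h0, h1, h2⟩ := base_points _ _ _ (hne 0 1 (by decide)) (hne 0 2 (by decide))
      (hne 1 2 (by decide))
    set m : Mw := ⟨vOf (g (pt 0 0)) (g (pt 1 0)) (g (pt 2 0)), p.castLE (by norm_num)⟩
    refine ⟨⟨m, ok_six p⟩, Subtype.ext (Equiv.ext fun z => ?_)⟩
    obtain ⟨i, q, rfl⟩ := u9_cover z
    change toPerm m ((u9 ^ i.val) (pt q 0)) = g ((u9 ^ i.val) (pt q 0))
    rw [hcm g hg, hcm (toPerm m) (mem_centralizer_singleton_iff.mp (hmem ⟨m, ok_six p⟩))]
    refine congrArg _ ?_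
    fin_cases q
    exacts [h0, h1, h2]
  let e : sub 0 ≃* centralizer ({u9} : Set (Perm (Fin 9))) := MulEquiv.ofBijective ψ ⟨hψi, hψs⟩
  let φ0 : sub 0 →* G := (centralizer ({x} : Set G)).subtype.comp (e.trans eC.symm).toMonoidHom
  have hφi : Function.Injective φ0 := Subtype.val_injective.comp (e.trans eC.symm).injective
  have hφr : ∀ g : G, Commute g x → ∃ m, φ0 m = g := fun g hg =>
    ⟨(e.trans eC.symm).symm ⟨g, mem_centralizer_singleton_iff.mpr hg.eq⟩, by simp [φ0]⟩
  -- the element `x` in coordinates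
  obtain ⟨m0, hm0⟩ := hφr x (Commute.refl x)
  have hcen : ∀ m, m0 * m = m * m0 := fun m => hφi (by
    rw [map_mul, map_mul, hm0]
    exact (mem_centralizer_singleton_iff.mp (((e.trans eC.symm) m).2 : φ0 m ∈ _)).symm)
  obtain ⟨c, hc⟩ := central_table m0.1 m0.2
    (fun v => congrArg Subtype.val (hcen ⟨tr v, tr_mem 0 v⟩))
    (congrArg Subtype.val (hcen ⟨lin 3, (by decide +kernel : Ok 0 3)⟩))
  have hx1 : x ≠ 1 := fun h => by rw [h, orderOf_one] at hx; omega
  have hc0 : c ≠ 0 := by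
    rintro rfl
    exact hx1 (hm0 ▸ (by rw [show m0 = 1 from Subtype.ext hc, map_one]))
  obtain ⟨φ, hφ, hφinj, hφrange⟩ : ∃ φ : sub 0 →* G,
      φ (trS 0 (Multiplicative.ofAdd xv)) = x ∧ Function.Injective φ ∧
        ∀ g : G, Commute g x → ∃ m, φ m = g := by
    rcases (by decide +kernel : ∀ c : Fin 3, c ≠ 0 → c = 1 ∨ c = 2) c hc0 with rfl | rfl
    · exact ⟨φ0, by rw [← hm0]; exact congrArg φ0 (Subtype.ext hc.symm), hφi, hφr⟩
    · refine ⟨φ0.comp negH, ?_, hφi.comp (Function.LeftInverse.injective negH_negH), fun g hg => ?_⟩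
      · rw [MonoidHom.comp_apply, ← hm0]
        exact congrArg φ0 (Subtype.ext (hc.symm ▸ (by decide +kernel : (⟨-xv, 0⟩ : Mw) = tr (2, 2, 2))))
      · obtain ⟨m, hm⟩ := hφr g hg
        exact ⟨negH m, by rw [MonoidHom.comp_apply, negH_negH, hm]⟩
  -- the translations
  have hJle : J ≤ φ.range := fun j hj => hφrange j (mem_centralizer_singleton_iff.mp (hJC hj))
  set A := J.comap φ
  have hA : Nat.card A = 27 := by
    rw [← card_map_of_injective hφinj, map_comap_eq_self hJle, hJcard]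
  have hAc : ∀ a ∈ A, ∀ b ∈ A, a * b = b * a := fun a ha b hb => hφinj (by
    rw [map_mul, map_mul]
    exact congrArg Subtype.val (hJcomm.is_comm.comm (⟨φ a, ha⟩ : J) ⟨φ b, hb⟩))
  have hA3 : ∀ a ∈ A, a * a * a = 1 := fun a ha => hφinj (by
    rw [map_mul, map_mul, map_one, ← sq, ← pow_succ]; exact hJexp _ ha)
  have hAt : ∀ a ∈ A, a.1.w = 0 := by
    intro a ha
    by_contra hw
    have hle := Nat.card_le_card_of_injective
      (fun b : A => (⟨b.1.1, Finset.mem_filter.mpr ⟨Finset.mem_univ _, b.1.2,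
        congrArg Subtype.val (hA3 b.1 b.2), congrArg Subtype.val (hAc b.1 b.2 a ha)⟩⟩ :
        {n // n ∈ Finset.univ.filter fun n : Mw => Ok 0 n.w ∧ n * n * n = 1 ∧ n * a.1 = a.1 * n}))
      (fun b b' h => Subtype.ext (Subtype.ext (congrArg (fun z => z.1) h :)))
    rw [hA, Nat.card_eq_finsetCard] at hle
    have := cube_table a.1 a.2 hw (congrArg Subtype.val (hA3 a ha))
    omega
  have hJeq : (φ.comp (trS 0)).range = J := by
    have h1 : J ≤ (φ.comp (trS 0)).range := by
      intro j hj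
      obtain ⟨m, rfl⟩ := hJle hj
      refine ⟨Multiplicative.ofAdd m.1.v, congrArg φ (Subtype.ext ?_)⟩
      change tr m.1.v = m.1
      rw [tr, ← hAt m hj]
    refine (Subgroup.eq_of_le_of_card_ge h1 ?_).symm
    rw [hJcard, ← Nat.card_congr (MonoidHom.ofInjective (fun a b h => tr_injective (congrArg Subtype.val
      (hφinj h)) : Function.Injective (φ.comp (trS 0)))).toEquiv, Nat.card_eq_fintype_card]
    exact le_of_eq rfl
  exact ⟨⟨φ, hφinj, fun g hg => hφrange g (hφ ▸ hg), fun K hK h => hJsig K hK fun j hj =>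
    h j (hJeq.symm ▸ hj)⟩, hJeq, hφ⟩

end CfsgLib.SymNine40
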