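import Cfsg.Agent.SymNine40.Interface
import Cfsg.Agent.Perm.CoxeterA
import Mathlib.GroupTheory.SpecificGroups.Alternating.Simple

/-!
The symmetric group of degree nine generated by the monomial group and a complement.

* `Ctx.Split.exists_theta`: the map from the symmetric group, injective, compatible with the
  coordinates and covering two centralisers.
-/

set_option autoImplicit false
set_option maxRecDepth 20000

open Equiv Subgroup

namespace CfsgLib.SymNine40

open Mw

/-- The six-cycle as a word in five transpositions. -/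
def cyc5 {H : Type*} [Mul H] (a b c d e : H) : H := a * b * c * d * e

theorem map_cyc5 {H K : Type*} [Group H] [Group K] (f : H →* K) (a b c d e : H) :
    f (cyc5 a b c d e) = cyc5 (f a) (f b) (f c) (f d) (f e) := by simp only [cyc5, map_mul]

theorem conj_cyc5 {H : Type*} [Group H] (g a b c d e : H) :
    g * cyc5 a b c d e * g⁻¹ = cyc5 (g * a * g⁻¹) (g * b * g⁻¹) (g * c * g⁻¹) (g * d * g⁻¹)
      (g * e * g⁻¹) := by
  simp only [cyc5]; group

/-- The transpositions of consecutive points as monomial elements, for the points of one block. -/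
def blockSwap : Fin 8 → Mw :=
  ![⟨(1, 0, 0), 6⟩, lin 6, 1, ⟨(0, 1, 0), 12⟩, lin 12, 1, ⟨(0, 0, 1), 24⟩, lin 24]

theorem toPerm_blockSwap : ∀ i : Fin 8, i ≠ 2 → i ≠ 5 →
    toPerm (blockSwap i) = swap i.castSucc i.succ := by decide +kernel

theorem piSix_word : piSix = cyc5 (swap (0 : Fin 6) 1) (swap 1 2) (swap 2 3) (swap 3 4) (swap 4 5) ^ 3 ∧
    toPerm (lin 2) = cyc5 (swap (0 : Fin 9) 1) (swap 1 2) (swap 2 3) (swap 3 4) (swap 4 5) ^ 3 ∧
    toPerm (lin 1) = cyc5 (swap (3 : Fin 9) 4) (swap 4 5) (swap 5 6) (swap 6 7) (swap 7 8) ^ 3 := by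
  decide +kernel

theorem lin_word : ∀ a : Fin 48, ∃ x y z : Fin 2, ∃ i : Fin 6,
    lin a = lin 6 ^ x.val * lin 12 ^ y.val * lin 24 ^ z.val *
      (![1, lin 2, lin 1, lin 2 * lin 1, lin 1 * lin 2, lin 2 * lin 1 * lin 2] i : Mw) := by
  decide +kernel

theorem tr_word : ∀ v : Vec,
    tr v = (blockSwap 0 * lin 6) ^ v.1.val * (blockSwap 3 * lin 12) ^ v.2.1.val *
      (blockSwap 6 * lin 24) ^ v.2.2.val := by decide +kernel

theorem mw_split : ∀ m : Mw, m = tr m.v * lin m.w := by
  intro m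
  rw [tr, lin, Mw.mul_def, (by decide +kernel : ∀ c : Fin 48, lact c 0 = 0 ∧ lmul 0 c = c) _ |>.1,
    add_zero, ((by decide +kernel : ∀ c : Fin 48, lact c 0 = 0 ∧ lmul 0 c = c) m.w).2]

theorem even_tr : Equiv.Perm.sign (toPerm (tr e1)) = 1 ∧ tr e1 ≠ 1 := by decide +kernel

variable {G : Type*} [Group G] {C : Ctx G 3} (S : C.Split)

/-- The chain of the eight transpositions. -/
noncomputable def Ctx.Split.chainT : ℕ → G
  | 0 => S.κ (swap 0 1)
  | 1 => S.κ (swap 1 2)
  | 2 => S.κ (swap 2 3)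
  | 3 => S.κ (swap 3 4)
  | 4 => S.κ (swap 4 5)
  | 5 => C.X (lin 3) * S.κ (swap 2 3) * (C.X (lin 3))⁻¹
  | 6 => C.X (lin 3) * S.κ (swap 3 4) * (C.X (lin 3))⁻¹
  | 7 => C.X (lin 3) * S.κ (swap 4 5) * (C.X (lin 3))⁻¹
  | _ => 1

theorem Ctx.Split.chainT_mono : ∀ i : Fin 8, i ≠ 2 → i ≠ 5 →
    S.chainT i.val = C.X (blockSwap i) := by
  have hok : ∀ a, Ok 3 a := by decide +kernel
  have k0 : S.κ (swap 0 1) = C.X (blockSwap 0) :=
    S.compat _ _ (by decide +kernel) (by decide +kernel)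
  have k1 : S.κ (swap 1 2) = C.X (blockSwap 1) :=
    S.compat _ _ (by decide +kernel) (by decide +kernel)
  have k3 : S.κ (swap 3 4) = C.X (blockSwap 3) :=
    S.compat _ _ (by decide +kernel) (by decide +kernel)
  have k4 : S.κ (swap 4 5) = C.X (blockSwap 4) :=
    S.compat _ _ (by decide +kernel) (by decide +kernel)
  intro i h2 h5
  fin_cases i
  · exact k0
  · exact k1
  · exact absurd rfl h2
  · exact k3
  · exact k4
  · exact absurd rfl h5
  · change C.X (lin 3) * S.κ (swap 3 4) * (C.X (lin 3))⁻¹ = _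
    rw [k3, C.X_conj (hok _) (hok _)]
    exact congrArg C.X (by decide +kernel)
  · change C.X (lin 3) * S.κ (swap 4 5) * (C.X (lin 3))⁻¹ = _
    rw [k4, C.X_conj (hok _) (hok _)]
    exact congrArg C.X (by decide +kernel)

theorem Ctx.Split.chainT_low : ∀ i : Fin 5,
    S.chainT i.val = S.κ (swap i.castSucc i.succ) := by
  intro i
  fin_cases i <;> rfl

theorem Ctx.Split.chainT_high : ∀ i : Fin 5,
    S.chainT (i.val + 3) = C.X (lin 3) * S.chainT i.val * (C.X (lin 3))⁻¹ := by
  have hok : ∀ a, Ok 3 a := by decide +kernel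
  intro i
  fin_cases i
  · change S.chainT ((3 : Fin 8) : ℕ) = C.X (lin 3) * S.chainT ((0 : Fin 8) : ℕ) * _
    rw [S.chainT_mono 3 (by decide) (by decide), S.chainT_mono 0 (by decide) (by decide),
      C.X_conj (hok _) (hok _)]
    exact congrArg C.X (by decide +kernel)
  · change S.chainT ((4 : Fin 8) : ℕ) = C.X (lin 3) * S.chainT ((1 : Fin 8) : ℕ) * _
    rw [S.chainT_mono 4 (by decide) (by decide), S.chainT_mono 1 (by decide) (by decide),
      C.X_conj (hok _) (hok _)]
    exact congrArg C.X (by decide +kernel)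
  all_goals rfl

theorem Ctx.Split.commute_lastBlock (p : Perm (Fin 6)) :
    Commute (S.κ p) (C.X (lin 24)) ∧ Commute (S.κ p) (C.X (blockSwap 6)) := by
  have hok : ∀ a, Ok 3 a := by decide +kernel
  refine ⟨S.comm_t p, ?_⟩
  rw [(by decide +kernel : blockSwap 6 = tr e3 * lin 24), C.X_mul (ok_one 3) (hok _)]
  exact (S.comm p).mul_right (S.comm_t p)

theorem Ctx.Split.chain
    (hcom : Commute (S.κ (swap 2 3)) (C.X (lin 3) * S.κ (swap 2 3) * (C.X (lin 3))⁻¹)) :
    CoxeterA.Chain 8 S.chainT := by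
  have hok : ∀ a, Ok 3 a := by decide +kernel
  have hsq : ∀ i, i < 8 → S.chainT i * S.chainT i = 1 := by
    have hlow : ∀ i : Fin 5, S.chainT i.val * S.chainT i.val = 1 := fun i => by
      rw [S.chainT_low, ← map_mul, Equiv.swap_mul_self, map_one]
    intro i hi
    by_cases h : i < 5
    · exact hlow ⟨i, h⟩
    · have := S.chainT_high ⟨i - 3, by omega⟩
      rw [show (⟨i - 3, (by omega : i - 3 < 5)⟩ : Fin 5).val + 3 = i by simp; omega] at this
      rw [this, conj_mul, hlow, mul_one, mul_inv_cancel]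
  have hpair : ∀ i j : Fin 5, ∀ n : ℕ,
      (swap i.castSucc i.succ * swap j.castSucc j.succ : Perm (Fin 6)) ^ n = 1 →
      (S.chainT i.val * S.chainT j.val) ^ n = 1 ∧
      (S.chainT (i.val + 3) * S.chainT (j.val + 3)) ^ n = 1 := by
    intro i j n h
    have h1 : (S.chainT i.val * S.chainT j.val) ^ n = 1 := by
      rw [S.chainT_low, S.chainT_low, ← map_mul, ← map_pow, h, map_one]
    refine ⟨h1, ?_⟩
    rw [S.chainT_high, S.chainT_high, conj_mul, conj_pow, h1, mul_one, mul_inv_cancel]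
  have hbraid : ∀ i : Fin 4, (swap (i.castSucc : Fin 5).castSucc (i.castSucc : Fin 5).succ *
      swap (i.succ : Fin 5).castSucc (i.succ : Fin 5).succ : Perm (Fin 6)) ^ 3 = 1 := by
    decide +kernel
  have hfar : ∀ i j : Fin 5, i.val + 1 < j.val →
      (swap i.castSucc i.succ * swap j.castSucc j.succ : Perm (Fin 6)) ^ 2 = 1 := by
    decide +kernel
  refine ⟨hsq, fun i hi => ?_, fun i j hij hj => ?_⟩
  · by_cases h : i < 4
    · exact (hpair _ _ 3 (hbraid ⟨i, h⟩)).1
    · have := (hpair _ _ 3 (hbraid ⟨i - 3, by omega⟩)).2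
      simp only [Fin.val_castSucc, Fin.val_succ] at this
      rwa [show i - 3 + 3 = i by omega, show i - 3 + 1 + 3 = i + 1 by omega] at this
  · by_cases h : j < 5
    · exact (hpair ⟨i, by omega⟩ ⟨j, h⟩ 2 (hfar ⟨i, by omega⟩ ⟨j, h⟩ hij)).1
    by_cases h' : 3 ≤ i
    · have := (hpair ⟨i - 3, by omega⟩ ⟨j - 3, by omega⟩ 2
        (hfar ⟨i - 3, by omega⟩ ⟨j - 3, by omega⟩ (by simp; omega))).2
      rwa [show i - 3 + 3 = i by omega, show j - 3 + 3 = j by omega] at this
    have hc : Commute (S.chainT i) (S.chainT j) := by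
      have hi' : i = 0 ∨ i = 1 ∨ i = 2 := by omega
      have hj' : j = 5 ∨ j = 6 ∨ j = 7 := by omega
      have h6 : ∀ p, Commute (S.κ p) (S.chainT ((6 : Fin 8) : ℕ)) := fun p => by
        rw [S.chainT_mono 6 (by decide) (by decide)]; exact (S.commute_lastBlock p).2
      have h7 : ∀ p, Commute (S.κ p) (S.chainT ((7 : Fin 8) : ℕ)) := fun p => by
        rw [S.chainT_mono 7 (by decide) (by decide)]; exact (S.commute_lastBlock p).1
      have hconj : ∀ (a b : Fin 8), a ≠ 2 → a ≠ 5 → b ≠ 2 → b ≠ 5 →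
          lin 3 * blockSwap b * (lin 3)⁻¹ = blockSwap a →
          Commute (S.κ (swap 2 3)) (C.X (blockSwap b)) →
          Commute (S.chainT a.val) (S.chainT 5) := fun a b ha ha' hb hb' e hc => by
        rw [S.chainT_mono a ha ha', ← e, ← C.X_conj (hok _) (hok _)]
        exact ((Commute.conj_iff (C.X (lin 3))).mpr hc).symm
      rcases hj' with rfl | rfl | rfl
      · rcases hi' with rfl | rfl | rfl
        · exact hconj 0 6 (by decide) (by decide) (by decide) (by decide) (by decide +kernel)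
            (S.commute_lastBlock _).2
        · exact hconj 1 7 (by decide) (by decide) (by decide) (by decide) (by decide +kernel)
            (by rw [(by decide +kernel : blockSwap 7 = lin 24)]; exact (S.commute_lastBlock _).1)
        · exact hcom
      · rcases hi' with rfl | rfl | rfl <;> exact h6 _
      · rcases hi' with rfl | rfl | rfl <;> exact h7 _
    rw [sq, ← mul_assoc, hc.eq, mul_assoc (S.chainT j), hsq i (by omega), mul_one, hsq j hj]

/-- The coordinates as a homomorphism. -/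
noncomputable def Ctx.XAll (C : Ctx G 3) : Mw →* G := MonoidHom.mk' C.X fun a b =>
  C.X_mul ((by decide +kernel : ∀ x, Ok 3 x) a.w) ((by decide +kernel : ∀ x, Ok 3 x) b.w)

theorem Ctx.Split.exists_theta [Finite G] (hP : C.CentPi S)
    (hcom : Commute (S.κ (swap 2 3)) (C.X (lin 3) * S.κ (swap 2 3) * (C.X (lin 3))⁻¹)) :
    ∃ Θ : Perm (Fin 9) →* G, Function.Injective Θ ∧ (∀ m, Θ (toPerm m) = C.X m) ∧
      (∀ g, Commute g (C.T e3) → g ∈ Θ.range) ∧ (∀ g, Commute g (C.X piM) → g ∈ Θ.range) := by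
  have hok : ∀ a, Ok 3 a := by decide +kernel
  obtain ⟨Θ, hΘ⟩ := CoxeterA.exists_permHom 8 S.chainT (S.chain hcom)
  have hsw : ∀ i : Fin 8, i ≠ 2 → i ≠ 5 → Θ (toPerm (blockSwap i)) = C.X (blockSwap i) :=
    fun i h2 h5 => by rw [toPerm_blockSwap i h2 h5, hΘ, S.chainT_mono i h2 h5]
  -- the exchanges of blocks
  have hlow : cyc5 (Θ (swap 0 1)) (Θ (swap 1 2)) (Θ (swap 2 3)) (Θ (swap 3 4)) (Θ (swap 4 5)) =
      S.κ (cyc5 (swap 0 1) (swap 1 2) (swap 2 3) (swap 3 4) (swap 4 5)) := by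
    rw [map_cyc5]
    exact congr (congr (congr (congr (congrArg cyc5 (hΘ 0)) (hΘ 1)) (hΘ 2)) (hΘ 3)) (hΘ 4)
  have h2 : Θ (toPerm (lin 2)) = C.X (lin 2) := by
    rw [piSix_word.2.1, map_pow, map_cyc5, hlow, ← map_pow, ← piSix_word.1]
    exact S.compat _ _ (by decide +kernel) (by decide +kernel)
  have h1 : Θ (toPerm (lin 1)) = C.X (lin 1) := by
    rw [piSix_word.2.2, map_pow, map_cyc5]
    have e : cyc5 (Θ (swap 3 4)) (Θ (swap 4 5)) (Θ (swap 5 6)) (Θ (swap 6 7)) (Θ (swap 7 8)) =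
        C.X (lin 3) * cyc5 (Θ (swap 0 1)) (Θ (swap 1 2)) (Θ (swap 2 3)) (Θ (swap 3 4))
          (Θ (swap 4 5)) * (C.X (lin 3))⁻¹ := by
      rw [conj_cyc5]
      refine congr (congr (congr (congr (congrArg cyc5 ?_) ?_) ?_) ?_) ?_
      · exact (hΘ 3).trans ((S.chainT_high 0).trans
        (congrArg (fun a => C.X (lin 3) * a * (C.X (lin 3))⁻¹) (hΘ 0).symm))
      · exact (hΘ 4).trans ((S.chainT_high 1).trans
        (congrArg (fun a => C.X (lin 3) * a * (C.X (lin 3))⁻¹) (hΘ 1).symm))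
      · exact (hΘ 5).trans ((S.chainT_high 2).trans
        (congrArg (fun a => C.X (lin 3) * a * (C.X (lin 3))⁻¹) (hΘ 2).symm))
      · exact (hΘ 6).trans ((S.chainT_high 3).trans
        (congrArg (fun a => C.X (lin 3) * a * (C.X (lin 3))⁻¹) (hΘ 3).symm))
      · exact (hΘ 7).trans ((S.chainT_high 4).trans
        (congrArg (fun a => C.X (lin 3) * a * (C.X (lin 3))⁻¹) (hΘ 4).symm))
    rw [e, conj_pow, hlow, ← map_pow, ← piSix_word.1,
      S.compat piM piSix (by decide +kernel) (by decide +kernel), C.X_conj (hok _) (hok _)]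
    exact congrArg C.X (by decide +kernel)
  -- agreement
  have hall : ∀ m, Θ (toPerm m) = C.X m := by
    set H : Subgroup Mw := (Θ.comp toPerm).eqLocus C.XAll
    have hb : ∀ i : Fin 8, i ≠ 2 → i ≠ 5 → blockSwap i ∈ H := fun i a b => hsw i a b
    have g6 : lin 6 ∈ H := hb 1 (by decide) (by decide)
    have g12 : lin 12 ∈ H := hb 4 (by decide) (by decide)
    have g24 : lin 24 ∈ H := hb 7 (by decide) (by decide)
    have g2 : lin 2 ∈ H := h2
    have g1 : lin 1 ∈ H := h1
    intro m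
    suffices m ∈ H from this
    rw [mw_split m]
    refine mul_mem ?_ ?_
    · rw [tr_word]
      refine mul_mem (mul_mem (pow_mem (mul_mem (hb 0 (by decide) (by decide)) g6) _)
        (pow_mem (mul_mem (hb 3 (by decide) (by decide)) g12) _))
        (pow_mem (mul_mem (hb 6 (by decide) (by decide)) g24) _)
    · obtain ⟨x, y, z, i, e⟩ := lin_word m.w
      rw [e]
      refine mul_mem (mul_mem (mul_mem (pow_mem g6 _) (pow_mem g12 _)) (pow_mem g24 _)) ?_
      fin_cases i
      · exact one_mem H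
      · exact g2
      · exact g1
      · exact mul_mem g2 g1
      · exact mul_mem g1 g2
      · exact mul_mem (mul_mem g2 g1) g2
  -- injectivity
  have hinj : Function.Injective Θ := by
    rw [← MonoidHom.ker_eq_bot_iff]
    by_contra hne
    have hle := Equiv.Perm.alternatingGroup_le_of_normal (α := Fin 9) (N := Θ.ker)
      (by rw [Nat.card_fin]; norm_num) ((Subgroup.nontrivial_iff_ne_bot _).mpr hne)
    have h := MonoidHom.mem_ker.mp (hle (Equiv.Perm.mem_alternatingGroup.mpr even_tr.1))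
    rw [hall] at h
    exact even_tr.2 (C.X_eq_one (hok _) h)
  have hκ : ∀ p, S.κ p ∈ Θ.range := by
    intro p
    have hle : Submonoid.closure (Set.range fun i : Fin 5 => swap i.castSucc i.succ) ≤
        Θ.range.toSubmonoid.comap S.κ := by
      rw [Submonoid.closure_le]
      rintro _ ⟨i, rfl⟩
      refine ⟨swap ((i.castLE (by norm_num) : Fin 8).castSucc) (i.castLE (by norm_num) : Fin 8).succ, ?_⟩
      rw [hΘ, Fin.val_castLE, S.chainT_low]
    exact hle ((Equiv.Perm.mclosure_swap_castSucc_succ 5).symm ▸ Submonoid.mem_top p)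
  refine ⟨Θ, hinj, hall, fun g hg => ?_, fun g hg => ?_⟩
  · obtain ⟨i, p, rfl⟩ := S.decomp g hg
    exact mul_mem ⟨toPerm (tr (unit 2 i)), hall _⟩ (hκ p)
  · obtain ⟨p, i, e, -, rfl⟩ := hP g hg
    exact mul_mem (hκ p) ⟨_, hall _⟩

end CfsgLib.SymNine40
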