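import Mathlib

/-!
Involutions of the symmetric group of degree nine, for the last step of the recognition of that
group.

* `exists_conj_fixing`: two involutions fixing a set pointwise with the same number of moved
  points are conjugate by a permutation fixing that set.
* `decomp_one`, `decomp_two`: involutions commuting with one or two given transpositions.
* `Top.nC`: orders of some centralisers.
-/

set_option autoImplicit false
set_option maxRecDepth 20000

open Equiv Equiv.Perm

namespace CfsgLib.SymNine40.Top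

/-- Permutations of nine points. -/
abbrev P9 : Type := Perm (Fin 9)

/-- The number of moved points. -/
def ca {α : Type*} [Fintype α] [DecidableEq α] (p : Perm α) : ℕ := p.support.card

/-- A transposition. -/
def t1 : P9 := swap 5 6
/-- A transposition. -/
def t2 : P9 := swap 7 8
/-- A double transposition. -/
def d2 : P9 := t1 * t2
/-- A triple transposition. -/
def p6 : P9 := swap 0 3 * swap 1 4 * swap 2 5
/-- A quadruple transposition. -/
def q4 : P9 := swap 0 3 * swap 1 4 * swap 2 5 * swap 7 8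
/-- A three-cycle. -/
def y3 : P9 := swap 0 1 * swap 1 2
/-- A product of two three-cycles. -/
def y33 : P9 := swap 0 1 * swap 1 2 * (swap 3 4 * swap 4 5)

/-- Representatives of the classes of involutions. -/
def rep : Fin 4 → P9
  | 0 => t2
  | 1 => d2
  | 2 => p6
  | _ => q4

theorem rep_facts : ∀ j : Fin 4, rep j * rep j = 1 ∧ ca (rep j) = 2 * (j.val + 1) := by
  decide +kernel

theorem invol_type {α : Type*} [Fintype α] [DecidableEq α] {x : Perm α} (h : x * x = 1) :
    ∃ k, x.cycleType = Multiset.replicate k 2 ∧ ca x = 2 * k := by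
  by_cases h1 : x = 1
  · exact ⟨0, by simp [h1], by simp [ca, h1]⟩
  have : Fact (Nat.Prime 2) := ⟨Nat.prime_two⟩
  have ho : orderOf x = 2 := orderOf_eq_prime (by rw [pow_two, h]) h1
  obtain ⟨n, hn⟩ := cycleType_prime_order (σ := x) (by rw [ho]; exact Nat.prime_two)
  rw [ho] at hn
  have hs := x.sum_cycleType
  rw [hn, Multiset.sum_replicate, smul_eq_mul] at hs
  exact ⟨n + 1, hn, by unfold ca; omega⟩

theorem isConj_of_ca {α : Type*} [Fintype α] [DecidableEq α] {x y : Perm α} (hx : x * x = 1)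
    (hy : y * y = 1) (h : ca x = ca y) : IsConj x y := by
  obtain ⟨k, hk, hkc⟩ := invol_type hx
  obtain ⟨l, hl, hlc⟩ := invol_type hy
  rw [isConj_iff_cycleType_eq, hk, hl, show k = l by omega]

/-- An involution has one of the listed numbers of moved points. -/
theorem ca_cases {x : P9} (h : x * x = 1) :
    x = 1 ∨ ∃ j : Fin 4, IsConj (rep j) x ∧ ca x = 2 * (j.val + 1) := by
  obtain ⟨k, hk, hc⟩ := invol_type h
  rcases k with _ | k
  · left
    exact support_eq_empty_iff.mp (Finset.card_eq_zero.mp (by unfold ca at hc; omega))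
  · right
    have hle : ca x ≤ 9 := by simpa [ca] using Finset.card_le_univ x.support
    refine ⟨⟨k, by omega⟩, isConj_of_ca (rep_facts _).1 h ?_, by simpa using hc⟩
    rw [(rep_facts _).2]
    simp only [hc]

theorem ca_even {x : P9} (h : x * x = 1) : ∃ k, ca x = 2 * k := by
  obtain ⟨k, -, hc⟩ := invol_type h
  exact ⟨k, hc⟩

theorem exists_conj_fixing (F : Finset (Fin 9)) {a b : P9} (ha : a * a = 1) (hb : b * b = 1)
    (haF : ∀ x ∈ F, a x = x) (hbF : ∀ x ∈ F, b x = x) (h : ca a = ca b) :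
    ∃ c : P9, (∀ x ∈ F, c x = x) ∧ c * a * c⁻¹ = b := by
  have key : ∀ f : P9, (∀ x ∈ F, f x = x) →
      ∃ f' : Perm {x : Fin 9 // x ∉ F}, ofSubtype f' = f := by
    intro f hf
    have h1 : ∀ x, f x ∉ F ↔ x ∉ F := fun x => not_congr
      ⟨fun hx => by have := f.injective (hf _ hx); rwa [this] at hx,
        fun hx => by rw [hf x hx]; exact hx⟩
    exact ⟨f.subtypePerm h1, ofSubtype_subtypePerm h1 fun x hx hxF => hx (hf x hxF)⟩
  obtain ⟨a', rfl⟩ := key a haF
  obtain ⟨b', rfl⟩ := key b hbF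
  have hinj := ofSubtype_injective (p := fun x : Fin 9 => x ∉ F)
  have ha' : a' * a' = 1 := hinj (by rw [map_mul, ha, map_one])
  have hb' : b' * b' = 1 := hinj (by rw [map_mul, hb, map_one])
  have h' : ca a' = ca b' := by
    obtain ⟨k, hk, hkc⟩ := invol_type ha'
    obtain ⟨l, hl, hlc⟩ := invol_type hb'
    unfold ca at h hkc hlc ⊢
    rw [← sum_cycleType, ← sum_cycleType, cycleType_ofSubtype, cycleType_ofSubtype, sum_cycleType,
      sum_cycleType] at h
    exact h
  obtain ⟨c, hc⟩ := isConj_iff.mp (isConj_of_ca ha' hb' h')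
  exact ⟨ofSubtype c, fun x hx => ofSubtype_apply_of_not_mem c (by simpa using hx), by
    rw [← map_inv, ← map_mul, ← map_mul, hc]⟩

theorem commute_swap_of_fix {c : P9} {a b : Fin 9} (ha : c a = a) (hb : c b = b) :
    c * swap a b = swap a b * c := by
  rw [← mul_inv_eq_iff_eq_mul, ← swap_apply_apply, ha, hb]

theorem split_swap {w : P9} {a b : Fin 9} (hab : a ≠ b) (hc : w * swap a b = swap a b * w) :
    (w a = a ∧ w b = b) ∨ ((w * swap a b) a = a ∧ (w * swap a b) b = b) := by
  have h1 : w b = swap a b (w a) := by simpa using DFunLike.congr_fun hc a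
  by_cases ha : w a = a
  · left; exact ⟨ha, by rw [h1, ha, swap_apply_left]⟩
  by_cases hb : w a = b
  · right
    refine ⟨?_, ?_⟩
    · rw [mul_apply, swap_apply_left, h1, hb, swap_apply_right]
    · rw [mul_apply, swap_apply_right, hb]
  · rw [swap_apply_of_ne_of_ne ha hb] at h1
    exact absurd (w.injective h1) hab.symm

theorem ca_mul_swap {w : P9} {a b : Fin 9} (hab : a ≠ b) (ha : w a = a) (hb : w b = b) :
    ca (w * swap a b) = ca w + 2 := by
  unfold ca
  rw [Disjoint.card_support_mul, card_support_swap hab]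
  intro x
  by_cases hx : x = a
  · left; rw [hx, ha]
  by_cases hx' : x = b
  · left; rw [hx', hb]
  · right; exact swap_apply_of_ne_of_ne hx hx'

theorem ca_le_of_fix (F : Finset (Fin 9)) {a : P9} (h : ∀ x ∈ F, a x = x) :
    ca a + F.card ≤ 9 := by
  have hd : _root_.Disjoint a.support F := Finset.disjoint_left.mpr fun x hx hxF =>
    mem_support.mp hx (h x hxF)
  have := Finset.card_le_univ (a.support ∪ F)
  rw [Finset.card_union_of_disjoint hd] at this
  simpa [ca] using this

/-- An involution commuting with `t2`. -/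
theorem decomp_one {w : P9} (hw : w * w = 1) (hc : w * t2 = t2 * w) :
    ∃ a : P9, a * a = 1 ∧ a 7 = 7 ∧ a 8 = 8 ∧ (w = a ∨ w = a * t2) ∧
      ca (a * t2) = ca a + 2 ∧ a * t2 = t2 * a := by
  rcases split_swap (a := 7) (b := 8) (by decide) hc with ⟨h7, h8⟩ | ⟨h7, h8⟩
  · exact ⟨w, hw, h7, h8, Or.inl rfl, ca_mul_swap (by decide) h7 h8, hc⟩
  · have hc' : w * t2 * t2 = t2 * (w * t2) := by rw [← mul_assoc, ← hc]
    refine ⟨w * t2, ?_, h7, h8, Or.inr ?_, ca_mul_swap (by decide) h7 h8, hc'⟩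
    · rw [← mul_assoc, mul_assoc w t2 w, ← hc, ← mul_assoc, hw, one_mul, t2, swap_mul_self]
    · rw [mul_assoc, t2, swap_mul_self, mul_one]

/-- An involution commuting with `t1` and `t2`. -/
theorem decomp_two {w : P9} (hw : w * w = 1) (hc1 : w * t1 = t1 * w) (hc2 : w * t2 = t2 * w) :
    ∃ a : P9, a * a = 1 ∧ (∀ x ∈ ({5, 6, 7, 8} : Finset (Fin 9)), a x = x) ∧
      (w = a ∨ w = a * t1 ∨ w = a * t2 ∨ w = a * (t1 * t2)) ∧
      ca (a * t1) = ca a + 2 ∧ ca (a * t2) = ca a + 2 ∧ ca (a * (t1 * t2)) = ca a + 4 := by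
  obtain ⟨a, ha, h7, h8, hwa, -, hat⟩ := decomp_one hw hc2
  have hc : a * t1 = t1 * a := by
    have htt : t2 * t1 = t1 * t2 := by decide +kernel
    have htt' : t2 * t2 = 1 := by decide +kernel
    rcases hwa with e | e
    · rw [← e]; exact hc1
    · have e' : a = w * t2 := by rw [e, mul_assoc, htt', mul_one]
      rw [e', mul_assoc, htt, ← mul_assoc, hc1, mul_assoc]
  have main : ∀ b : P9, b * b = 1 → (∀ x ∈ ({5, 6, 7, 8} : Finset (Fin 9)), b x = x) →
      ca (b * t1) = ca b + 2 ∧ ca (b * t2) = ca b + 2 ∧ ca (b * (t1 * t2)) = ca b + 4 := by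
    intro b _ hF
    have e1 : ca (b * t1) = ca b + 2 := ca_mul_swap (a := 5) (b := 6) (by decide)
      (hF 5 (by decide)) (hF 6 (by decide))
    refine ⟨e1, ca_mul_swap (a := 7) (b := 8) (by decide) (hF 7 (by decide)) (hF 8 (by decide)),
      ?_⟩
    rw [← mul_assoc, t2, ca_mul_swap (by decide), e1]
    · rw [mul_apply, t1, swap_apply_of_ne_of_ne (by decide) (by decide), hF 7 (by decide)]
    · rw [mul_apply, t1, swap_apply_of_ne_of_ne (by decide) (by decide), hF 8 (by decide)]
  rcases split_swap (a := 5) (b := 6) (by decide) hc with ⟨h5, h6⟩ | ⟨h5, h6⟩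
  · have hF : ∀ x ∈ ({5, 6, 7, 8} : Finset (Fin 9)), a x = x := by
      simp only [Finset.mem_insert, Finset.mem_singleton, forall_eq_or_imp, forall_eq]
      exact ⟨h5, h6, h7, h8⟩
    refine ⟨a, ha, hF, ?_, main a ha hF⟩
    rcases hwa with e | e
    · exact Or.inl e
    · exact Or.inr (Or.inr (Or.inl e))
  · have hb : a * t1 * (a * t1) = 1 := by
      rw [← mul_assoc, mul_assoc a t1 a, ← hc, ← mul_assoc, ha, one_mul, t1, swap_mul_self]
    have htt : t1 * t1 = 1 := by decide +kernel
    have hF : ∀ x ∈ ({5, 6, 7, 8} : Finset (Fin 9)), (a * t1) x = x := by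
      simp only [Finset.mem_insert, Finset.mem_singleton, forall_eq_or_imp, forall_eq]
      refine ⟨h5, h6, ?_, ?_⟩
      · rw [mul_apply, t1, swap_apply_of_ne_of_ne (by decide) (by decide), h7]
      · rw [mul_apply, t1, swap_apply_of_ne_of_ne (by decide) (by decide), h8]
    refine ⟨a * t1, hb, hF, ?_, main _ hb hF⟩
    rcases hwa with e | e
    · exact Or.inr (Or.inl (by rw [e, mul_assoc, htt, mul_one]))
    · exact Or.inr (Or.inr (Or.inr (by rw [e, mul_assoc a t1, ← mul_assoc t1, htt, one_mul])))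

/-- The order of a centraliser. -/
noncomputable def nC (p : P9) : ℕ := Nat.card (Subgroup.centralizer ({p} : Set P9))

theorem nC_invol {p : P9} (h : p * p = 1) (k : ℕ) (hk : ca p = 2 * k) (hk0 : k ≠ 0) :
    nC p = (9 - 2 * k).factorial * 2 ^ k * k.factorial := by
  obtain ⟨l, hl, hlc⟩ := invol_type h
  rw [nC, nat_card_centralizer, hl, show l = k by omega, Multiset.sum_replicate,
    Multiset.prod_replicate, Multiset.toFinset_replicate, if_neg hk0, Finset.prod_singleton,
    Multiset.count_replicate_self, Fintype.card_fin, smul_eq_mul, mul_comm k 2]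

theorem nC_rep : nC t2 = 10080 ∧ nC d2 = 960 ∧ nC p6 = 288 ∧ nC q4 = 384 := by
  refine ⟨?_, ?_, ?_, ?_⟩
  · rw [nC_invol (p := t2) (rep_facts 0).1 1 (rep_facts 0).2 one_ne_zero]; rfl
  · rw [nC_invol (p := d2) (rep_facts 1).1 2 (rep_facts 1).2 two_ne_zero]; rfl
  · rw [nC_invol (p := p6) (rep_facts 2).1 3 (rep_facts 2).2 three_ne_zero]; rfl
  · rw [nC_invol (p := q4) (rep_facts 3).1 4 (rep_facts 3).2 four_ne_zero]; rfl

theorem y3_facts : y3 * y3 * y3 = 1 ∧ y3 ≠ 1 ∧ y3 * d2 = d2 * y3 ∧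
    y33 * y33 * y33 = 1 ∧ y33 ≠ 1 ∧ y33 * q4 = q4 * y33 := by decide +kernel

theorem nC_y3 : nC y3 ≠ nC y33 ∧ nC y3 ≠ nC y33⁻¹ := by
  have h3 : y3.cycleType = {3} := card_support_eq_three_iff.mp (by decide +kernel)
  have h3' : (swap 3 4 * swap 4 5 : P9).cycleType = {3} :=
    card_support_eq_three_iff.mp (by decide +kernel)
  have hd : Equiv.Perm.Disjoint y3 (swap 3 4 * swap 4 5 : P9) := by
    change ∀ x, y3 x = x ∨ (swap 3 4 * swap 4 5 : P9) x = x
    decide +kernel
  have h33 : y33.cycleType = {3} + {3} := by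
    rw [show y33 = y3 * (swap 3 4 * swap 4 5) from rfl, hd.cycleType_mul, h3, h3']
  have h33' : y33⁻¹.cycleType = {3} + {3} := by rw [cycleType_inv, h33]
  have e1 : nC y3 = 2160 := by
    rw [nC, nat_card_centralizer, h3]; rfl
  have e2 : nC y33 = 108 := by
    rw [nC, nat_card_centralizer, h33]; rfl
  have e3 : nC y33⁻¹ = 108 := by
    rw [nC, nat_card_centralizer, h33']; rfl
  omega

theorem isConj_y3 : IsConj y3 (swap 6 7 * swap 7 8) :=
  isConj_iff.mpr ⟨swap 0 6 * swap 1 7 * swap 2 8, by decide +kernel⟩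

/-- The quotient of the last four points. -/
theorem four_table : ∀ q : Perm {x : Fin 9 // 5 ≤ x.val},
    (∀ x : {x : Fin 9 // 5 ≤ x.val}, (q x : Fin 9) ∈ ({5, 6, 7, 8} : Finset (Fin 9)) ∧
      ∀ y : {x : Fin 9 // 5 ≤ x.val}, d2 x = (y : Fin 9) → d2 (q x) = (q y : Fin 9)) →
    q ^ 3 = 1 → q = 1 := by decide +kernel

theorem five_table : ∀ a : Perm {x : Fin 9 // x.val < 5}, a ^ 15 = 1 → a ≠ 1 →
    ∃ b : Perm {x : Fin 9 // x.val < 5}, (a * (b * a * b⁻¹)) ^ 15 ≠ 1 := by decide +kernel

end CfsgLib.SymNine40.Top
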