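import Mathlib
import Cfsg.Agent.SymNine40.TopPerm
import Cfsg.Agent.SymEight40.General

/-!
Fusion of involutions into an embedded symmetric group of degree nine which contains the
centralisers of some of its elements.

* `Top.Hyp`: the embedding with the centralisers of three-cycles, of products of two three-cycles
  and of triple transpositions inside the image.
* `Top.Hyp.fusion`: conjugate involutions of the image move equally many points.
* `Top.two_classes`: the criterion with two classes, inside a subgroup.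
-/

set_option autoImplicit false
set_option maxRecDepth 20000

open Equiv Subgroup
open scoped Pointwise

namespace CfsgLib.SymNine40.Top

variable {G : Type*} [Group G]

/-- The centraliser of an element of the image lies in the image. -/
def CLe (Θ : P9 →* G) (p : P9) : Prop := ∀ g : G, Commute g (Θ p) → g ∈ Θ.range

/-- The hypotheses on the embedding. -/
structure Hyp (G : Type*) [Group G] where
  /-- the embedding -/
  Θ : P9 →* G
  inj : Function.Injective Θ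
  le_three : CLe Θ y3
  le_pair : CLe Θ y33
  le_six : CLe Θ p6

theorem CLe.conj {Θ : P9 →* G} {p q : P9} (h : CLe Θ p) (hpq : IsConj p q) : CLe Θ q := by
  intro g hg
  obtain ⟨c, rfl⟩ := isConj_iff.mp hpq
  have h1 := h ((Θ c)⁻¹ * g * Θ c) (by
    have := SymEight40.commute_conj hg (Θ c)⁻¹
    simpa [mul_assoc] using this)
  have := mul_mem (mul_mem (MonoidHom.mem_range.mpr ⟨c, rfl⟩ : Θ c ∈ Θ.range) h1)
    (inv_mem (MonoidHom.mem_range.mpr ⟨c, rfl⟩ : Θ c ∈ Θ.range))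
  simpa [mul_assoc] using this

theorem pull {Θ : P9 →* G} (inj : Function.Injective Θ) {a b : P9} :
    Commute (Θ a) (Θ b) ↔ a * b = b * a := by
  rw [commute_iff_eq, ← map_mul, ← map_mul, inj.eq_iff]

theorem sq_one {Θ : P9 →* G} (inj : Function.Injective Θ) {p q : P9} (hp : p * p = 1) {g : G}
    (h : g * Θ p * g⁻¹ = Θ q) : q * q = 1 := by
  apply inj
  rw [map_mul, map_one, ← h]
  exact SymEight40.conj_sq (by rw [← map_mul, hp, map_one]) g

/-- The order of a centraliser in the big group. -/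
noncomputable def NC (Θ : P9 →* G) (p : P9) : ℕ :=
  Nat.card (centralizer ({Θ p} : Set G))

theorem card_centralizer_eq (g a : G) :
    Nat.card (centralizer ({g * a * g⁻¹} : Set G)) = Nat.card (centralizer ({a} : Set G)) := by
  refine (Nat.card_congr ((MulAut.conj g).toEquiv.subtypeEquiv fun x => ?_)).symm
  rw [mem_centralizer_singleton_iff, mem_centralizer_singleton_iff]
  change x * a = a * x ↔ g * x * g⁻¹ * (g * a * g⁻¹) = g * a * g⁻¹ * (g * x * g⁻¹)
  exact (Commute.conj_iff g).symm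

namespace Hyp

variable (E : Hyp G)

/-- The map of centralisers. -/
noncomputable def toCent (p : P9) :
    centralizer ({p} : Set P9) →* centralizer ({E.Θ p} : Set G) :=
  (E.Θ.comp (centralizer ({p} : Set P9)).subtype).codRestrict _ fun a =>
    mem_centralizer_singleton_iff.mpr (by
      simpa using congrArg E.Θ (mem_centralizer_singleton_iff.mp a.2))

theorem toCent_injective (p : P9) : Function.Injective (E.toCent p) := fun a b h =>
  Subtype.ext (E.inj (congrArg (fun x : centralizer ({E.Θ p} : Set G) => (x : G)) h))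

theorem mem_range_toCent {p : P9} (x : centralizer ({E.Θ p} : Set G))
    (hx : (x : G) ∈ E.Θ.range) : x ∈ (E.toCent p).range := by
  obtain ⟨q, hq⟩ := MonoidHom.mem_range.mp hx
  refine ⟨⟨q, mem_centralizer_singleton_iff.mpr (E.inj ?_)⟩, Subtype.ext hq⟩
  rw [map_mul, map_mul, hq]
  exact mem_centralizer_singleton_iff.mp x.2

theorem dvd_NC (p : P9) : nC p ∣ NC E.Θ p :=
  Subgroup.card_dvd_of_injective (E.toCent p) (E.toCent_injective p)

theorem NC_eq {p : P9} (h : CLe E.Θ p) : NC E.Θ p = nC p :=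
  (Nat.card_eq_of_bijective (E.toCent p) ⟨E.toCent_injective p, fun x =>
    MonoidHom.mem_range.mp (E.mem_range_toCent x (h x (mem_centralizer_singleton_iff.mp x.2)))⟩).symm

variable [Finite G]

theorem not_nine {p y : P9} (hy : CLe E.Θ y) (h3 : y * y * y = 1) (h1 : y ≠ 1)
    (hc : y * p = p * y) (hp : ¬ 9 ∣ nC p) : ¬ 9 ∣ NC E.Θ p := by
  haveI := Fact.mk Nat.prime_three
  intro h9
  set K := centralizer ({E.Θ p} : Set G)
  let yK : K := ⟨E.Θ y, mem_centralizer_singleton_iff.mpr ((pull E.inj).mpr hc)⟩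
  have hord : orderOf yK = 3 := orderOf_eq_prime (Subtype.ext (by
      rw [pow_succ, pow_two]; change E.Θ y * E.Θ y * E.Θ y = 1
      rw [← map_mul, ← map_mul, h3, map_one])) fun e => h1 (E.inj (by
      rw [map_one]; exact congrArg Subtype.val e))
  obtain ⟨Q, hQ, hyQ⟩ := Sylow.exists_subgroup_card_pow_succ (G := K) (p := 3) (n := 1)
    (by simpa [NC] using h9) (H := zpowers yK) (by rw [Nat.card_zpowers, hord, pow_one])
  have hQle : Q ≤ (E.toCent p).range := by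
    intro x hx
    refine E.mem_range_toCent x (hy x ?_)
    have hcomm : ∀ a b : Q, a * b = b * a :=
      IsPGroup.commutative_of_card_eq_prime_sq (p := 3) (G := Q) (by simpa using hQ)
    have := congrArg (fun z : Q => ((z : K) : G))
      (hcomm ⟨x, hx⟩ ⟨yK, hyQ (mem_zpowers yK)⟩)
    exact this
  refine hp ?_
  have := Subgroup.card_dvd_of_le hQle
  rw [hQ, show Nat.card (E.toCent p).range = nC p from
    (Nat.card_congr (MonoidHom.ofInjective (E.toCent_injective p)).toEquiv).symm] at this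
  simpa using this

theorem not_nine_double : ¬ 9 ∣ NC E.Θ d2 :=
  E.not_nine E.le_three y3_facts.1 y3_facts.2.1 y3_facts.2.2.1 (by rw [nC_rep.2.1]; decide)

theorem not_nine_quad : ¬ 9 ∣ NC E.Θ q4 :=
  E.not_nine E.le_pair y3_facts.2.2.2.1 y3_facts.2.2.2.2.1 y3_facts.2.2.2.2.2
    (by rw [nC_rep.2.2.2]; decide)

theorem not_double_quad (g : G) : g * E.Θ d2 * g⁻¹ ≠ E.Θ q4 := by
  intro e
  haveI := Fact.mk Nat.prime_three
  set K := centralizer ({E.Θ q4} : Set G)
  let a : K := ⟨g * E.Θ y3 * g⁻¹, mem_centralizer_singleton_iff.mpr (by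
    rw [← e]; exact SymEight40.commute_conj ((pull E.inj).mpr y3_facts.2.2.1) g)⟩
  let b : K := ⟨E.Θ y33, mem_centralizer_singleton_iff.mpr
    ((pull E.inj).mpr y3_facts.2.2.2.2.2)⟩
  have ha : orderOf a = 3 := orderOf_eq_prime (Subtype.ext (by
      rw [pow_succ, pow_two]
      change g * E.Θ y3 * g⁻¹ * (g * E.Θ y3 * g⁻¹) * (g * E.Θ y3 * g⁻¹) = 1
      rw [show g * E.Θ y3 * g⁻¹ * (g * E.Θ y3 * g⁻¹) * (g * E.Θ y3 * g⁻¹) =
        g * (E.Θ y3 * E.Θ y3 * E.Θ y3) * g⁻¹ by group, ← map_mul, ← map_mul, y3_facts.1, map_one,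
        mul_one, mul_inv_cancel]))
    fun h => y3_facts.2.1 (E.inj (by
      rw [map_one]; exact conj_eq_one_iff.mp (congrArg Subtype.val h)))
  have hb : orderOf b = 3 := orderOf_eq_prime (Subtype.ext (by
      rw [pow_succ, pow_two]; change E.Θ y33 * E.Θ y33 * E.Θ y33 = 1
      rw [← map_mul, ← map_mul, y3_facts.2.2.2.1, map_one]))
    fun h => y3_facts.2.2.2.2.1 (E.inj (by rw [map_one]; exact congrArg Subtype.val h))
  have hpa : IsPGroup 3 (zpowers a) :=
    IsPGroup.of_card (n := 1) (by rw [Nat.card_zpowers, ha, pow_one])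
  have hpb : IsPGroup 3 (zpowers b) :=
    IsPGroup.of_card (n := 1) (by rw [Nat.card_zpowers, hb, pow_one])
  obtain ⟨P, hP⟩ := hpa.exists_le_sylow
  obtain ⟨Q, hQ⟩ := hpb.exists_le_sylow
  obtain ⟨k, hk⟩ := MulAction.exists_smul_eq K P Q
  have hmem : k * a * k⁻¹ ∈ Q := by
    rw [← hk]
    change k * a * k⁻¹ ∈ MulAut.conj k • (P : Subgroup K)
    exact Subgroup.smul_mem_pointwise_smul a (MulAut.conj k) _ (hP (mem_zpowers a))
  have hQ3 : Nat.card Q ∣ 3 := by
    obtain ⟨n, hn⟩ := Q.2.exists_card_eq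
    rcases le_or_gt n 1 with hn1 | hn1
    · rw [hn]
      calc 3 ^ n ∣ 3 ^ 1 := pow_dvd_pow 3 hn1
        _ = 3 := pow_one 3
    · exfalso
      refine E.not_nine_quad ((show 9 ∣ Nat.card Q from ?_).trans (card_subgroup_dvd_card _))
      rw [hn]; exact pow_dvd_pow 3 hn1
  have hQeq : zpowers b = (Q : Subgroup K) :=
    eq_of_le_of_card_ge hQ (by
      rw [Nat.card_zpowers, hb]; exact Nat.le_of_dvd (by norm_num) hQ3)
  replace hmem : k * a * k⁻¹ ∈ zpowers b := hQeq.symm ▸ hmem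
  have hne : k * a * k⁻¹ ≠ 1 := fun h => by
    rw [conj_eq_one_iff] at h
    rw [h, orderOf_one] at ha
    omega
  obtain ⟨i, hi, hik⟩ : ∃ i, i < 3 ∧ b ^ i = k * a * k⁻¹ := by
    obtain ⟨i, hi⟩ := (mem_powers_iff_mem_zpowers.mpr hmem)
    refine ⟨i % 3, Nat.mod_lt _ (by norm_num), ?_⟩
    rw [← hb, pow_mod_orderOf]; exact hi
  have hcases : k * a * k⁻¹ = b ∨ k * a * k⁻¹ = b⁻¹ := by
    interval_cases i
    · exact absurd (by simpa using hik.symm) hne
    · left; simpa using hik.symm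
    · right
      rw [← hik, eq_inv_iff_mul_eq_one, ← pow_succ, show (2 + 1) = orderOf b from hb.symm, pow_orderOf_eq_one]
  have key : ∀ q : P9, CLe E.Θ q → ((k * a * k⁻¹ : K) : G) = E.Θ q → nC y3 = nC q := by
    intro q hq he
    rw [← E.NC_eq E.le_three, ← E.NC_eq hq, NC, NC, ← he]
    change _ = Nat.card (centralizer ({(k : G) * (g * E.Θ y3 * g⁻¹) * (k : G)⁻¹} : Set G))
    rw [card_centralizer_eq, card_centralizer_eq]
  rcases hcases with h | h
  · exact nC_y3.1 (key y33 E.le_pair (congrArg Subtype.val h))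
  · refine nC_y3.2 (key y33⁻¹ ?_ ?_)
    · intro x hx
      rw [map_inv] at hx
      exact E.le_pair x (by simpa using hx.inv_right)
    · rw [h, map_inv]; rfl

theorem rep_fusion (i j : Fin 4) (g : G) (h : g * E.Θ (rep i) * g⁻¹ = E.Θ (rep j)) : i = j := by
  have he : NC E.Θ (rep i) = NC E.Θ (rep j) := by
    rw [NC, NC, ← h, card_centralizer_eq]
  have hpos : ∀ p, 0 < NC E.Θ p := fun p => Nat.card_pos
  have g0 : 10080 ≤ NC E.Θ (rep 0) := nC_rep.1 ▸ Nat.le_of_dvd (hpos _) (E.dvd_NC t2)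
  have g1 : 960 ≤ NC E.Θ (rep 1) := nC_rep.2.1 ▸ Nat.le_of_dvd (hpos _) (E.dvd_NC d2)
  have g2 : NC E.Θ (rep 2) = 288 := (E.NC_eq E.le_six).trans nC_rep.2.2.1
  have g3 : 384 ≤ NC E.Θ (rep 3) := nC_rep.2.2.2 ▸ Nat.le_of_dvd (hpos _) (E.dvd_NC q4)
  have g0' : 9 ∣ NC E.Θ (rep 0) :=
    (show 9 ∣ nC t2 by rw [nC_rep.1]; decide).trans (E.dvd_NC t2)
  have n1 : ¬ 9 ∣ NC E.Θ (rep 1) := E.not_nine_double
  have n3 : ¬ 9 ∣ NC E.Θ (rep 3) := E.not_nine_quad
  have n13 : ∀ x, x * E.Θ (rep 1) * x⁻¹ ≠ E.Θ (rep 3) := E.not_double_quad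
  have h' : g⁻¹ * E.Θ (rep j) * g⁻¹⁻¹ = E.Θ (rep i) := by rw [← h]; group
  obtain rfl | rfl | rfl | rfl := (by decide : ∀ a : Fin 4, a = 0 ∨ a = 1 ∨ a = 2 ∨ a = 3) i <;>
    obtain rfl | rfl | rfl | rfl := (by decide : ∀ a : Fin 4, a = 0 ∨ a = 1 ∨ a = 2 ∨ a = 3) j <;>
    first
      | rfl
      | exact absurd h (n13 g)
      | exact absurd h' (n13 g⁻¹)
      | (exfalso; omega)

/-- Conjugate involutions of the image move equally many points. -/
theorem fusion {p q : P9} (hp : p * p = 1) {g : G} (h : g * E.Θ p * g⁻¹ = E.Θ q) :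
    ca p = ca q := by
  have hq := sq_one E.inj hp h
  rcases ca_cases hp with rfl | ⟨i, hi, hic⟩
  · rw [map_one, mul_one, mul_inv_cancel] at h
    rw [← E.inj (h.symm.trans E.Θ.map_one.symm) |>.symm]
  rcases ca_cases hq with rfl | ⟨j, hj, hjc⟩
  · rw [map_one] at h
    rw [E.inj (show E.Θ p = E.Θ 1 by rw [map_one]; exact conj_eq_one_iff.mp h)]
  obtain ⟨c, hc⟩ := isConj_iff.mp hi
  obtain ⟨c', hc'⟩ := isConj_iff.mp hj
  have hij : i = j := by
    refine E.rep_fusion i j ((E.Θ c')⁻¹ * g * E.Θ c) ?_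
    rw [show (E.Θ c')⁻¹ * g * E.Θ c * E.Θ (rep i) * ((E.Θ c')⁻¹ * g * E.Θ c)⁻¹ =
      (E.Θ c')⁻¹ * (g * (E.Θ c * E.Θ (rep i) * (E.Θ c)⁻¹) * g⁻¹) * E.Θ c' by group,
      ← map_inv E.Θ c, ← map_mul, ← map_mul, hc, h, ← hc', map_mul, map_mul, map_inv]
    group
  rw [hic, hjc, hij]

end Hyp

/-- The criterion with two classes, inside a subgroup. -/
theorem two_classes [Finite G] (E : Hyp G) (K : Subgroup G) (u v : P9) (hu : u * u = 1)
    (hv : v * v = 1) (hv1 : v ≠ 1) (huK : E.Θ u ∈ K) (hvK : E.Θ v ∈ K)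
    (hne : ∀ g ∈ K, g * E.Θ u * g⁻¹ ≠ E.Θ v) (hCu : CLe E.Θ u) (hCv : CLe E.Θ v)
    (hctrl : ∀ g ∈ K, ∀ q, E.Θ q ∈ K → g * E.Θ v * g⁻¹ = E.Θ q →
      ∃ c, E.Θ c ∈ K ∧ c * v * c⁻¹ = q)
    (hw : ∀ p, E.Θ p ∈ K → p * p = 1 → p ≠ 1 → p * u = u * p →
      ((∃ g ∈ K, g * E.Θ u * g⁻¹ = E.Θ (u * p)) ∨ ∃ g ∈ K, g * E.Θ v * g⁻¹ = E.Θ (u * p)) →
      ∀ g ∈ K, Commute g (E.Θ p) → g ∈ E.Θ.range) : K ≤ E.Θ.range := by
  suffices h : E.Θ.range.subgroupOf K = ⊤ from fun g hg =>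
    mem_subgroupOf.mp (h.symm ▸ mem_top (⟨g, hg⟩ : K) : (⟨g, hg⟩ : K) ∈ E.Θ.range.subgroupOf K)
  refine SymEight40.top_of_two_classes _ (⟨E.Θ u, huK⟩ : K) ⟨E.Θ v, hvK⟩
    (Subtype.ext (by change E.Θ u * E.Θ u = 1; rw [← map_mul, hu, map_one]))
    (Subtype.ext (by change E.Θ v * E.Θ v = 1; rw [← map_mul, hv, map_one]))
    (fun g e => hne g g.2 (congrArg Subtype.val e))
    (fun e => hv1 (E.inj (by rw [map_one]; exact congrArg Subtype.val e)))
    (fun g hg => hCu g (congrArg Subtype.val hg.eq)) (fun g hg => hCv g (congrArg Subtype.val hg.eq))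
    (fun g hg => ?_) (fun w hwu hw2 hw1 hconj g hg => ?_)
  · obtain ⟨q, hq⟩ := MonoidHom.mem_range.mp (mem_subgroupOf.mp hg)
    obtain ⟨c, hcK, hc⟩ := hctrl g g.2 q (hq ▸ (g * ⟨E.Θ v, hvK⟩ * g⁻¹ : K).2) hq.symm
    refine ⟨⟨E.Θ c, hcK⟩, MonoidHom.mem_range.mpr ⟨c, rfl⟩, Subtype.ext ?_⟩
    change E.Θ c * E.Θ v * (E.Θ c)⁻¹ = _
    rw [← map_inv, ← map_mul, ← map_mul, hc, hq]
  · obtain ⟨p, hp⟩ := MonoidHom.mem_range.mp (hCu w (congrArg Subtype.val hwu.eq))
    refine hw p (hp ▸ w.2) (E.inj ?_) (fun e => hw1 (Subtype.ext ?_))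
      ((pull E.inj).mp ?_) ?_ g g.2 ?_
    · rw [map_mul, hp, map_one]; exact congrArg Subtype.val hw2
    · rw [← hp, e, map_one]; rfl
    · rw [hp]; exact congrArg Subtype.val hwu.eq
    · rw [map_mul, hp]
      rcases hconj with ⟨x, hx⟩ | ⟨x, hx⟩
      · exact Or.inl ⟨x, x.2, congrArg Subtype.val hx⟩
      · exact Or.inr ⟨x, x.2, congrArg Subtype.val hx⟩
    · rw [hp]; exact congrArg Subtype.val hg.eq

end CfsgLib.SymNine40.Top
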