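import Mathlib
import Cfsg.Agent.SymNine40.TopFusion

/-!
The centralisers of transpositions and of double transpositions lie in the embedded symmetric
group of degree nine, which is then the whole group.

* `Top.Hyp.le_two_swaps`, `Top.Hyp.le_swap`, `Top.Hyp.le_double`: the centralisers.
* `Top.Hyp.range_eq_top`: the conclusion.
-/

set_option autoImplicit false
set_option maxRecDepth 20000

open Equiv Subgroup

namespace CfsgLib.SymNine40.Top

/-- The numbers of moved points in a coset of the group of `t1` and `t2`. -/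
def sig4 (q : P9) : List ℕ := [ca q, ca (q * t1), ca (q * t2), ca (q * (t1 * t2))]

/-- A triple transposition containing `t2`. -/
def uB : P9 := swap 0 1 * swap 2 3 * t2
/-- A triple transposition containing `t1` and `t2`. -/
def vA : P9 := swap 0 1 * (t1 * t2)
/-- A triple transposition disjoint from `t2`. -/
def vB : P9 := swap 0 1 * swap 2 3 * swap 4 5

theorem uv_facts : uB * uB = 1 ∧ vA * vA = 1 ∧ vB * vB = 1 ∧ vA ≠ 1 ∧ vB ≠ 1 ∧
    ca uB = 6 ∧ ca vA = 6 ∧ ca vB = 6 ∧ ca (uB * (t1 * t2)) = 6 ∧ ca (vA * (t1 * t2)) = 2 ∧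
    ca (uB * t2) = 4 ∧ ca (vB * t2) = 8 ∧
    uB * t1 = t1 * uB ∧ uB * t2 = t2 * uB ∧ vA * t1 = t1 * vA ∧ vA * t2 = t2 * vA ∧
    vB * t2 = t2 * vB := by decide +kernel

theorem t_facts : t1 * t1 = 1 ∧ t2 * t2 = 1 ∧ t1 * t2 = t2 * t1 ∧ t1 * (t1 * t2) = t2 ∧
    t2 * (t1 * t2) = t1 ∧ t1 * t2 * (t1 * t2) = 1 ∧ t1 * d2 = t2 ∧ t1 * d2 = d2 * t1 ∧
    d2 * t1 = t2 ∧ d2 * d2 = 1 ∧ d2 ≠ 1 ∧ t1 ≠ 1 ∧ ca t1 = 2 ∧ ca t2 = 2 ∧ ca d2 = 4 := by
  decide +kernel

theorem z_table1 : sig4 (uB * t1) ≠ sig4 uB ∧ sig4 (uB * t1) ≠ sig4 vA := by decide +kernel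

theorem z_table2 : sig4 (uB * t2) ≠ sig4 uB ∧ sig4 (uB * t2) ≠ sig4 vA := by decide +kernel

theorem z_table3 :
    sig4 (uB * (t1 * t2)) ≠ sig4 uB ∧ sig4 (uB * (t1 * t2)) ≠ sig4 vA := by decide +kernel

theorem double_table : ∀ a b : Fin 9,
    (a ≠ b → ca (swap a b * d2) = 2 → swap a b = t1 ∨ swap a b = t2) ∧
    swap a b * t1 * (swap a b)⁻¹ ≠ t2 := by decide +kernel

theorem move_table : swap 5 7 * swap 6 8 * t1 * (swap 5 7 * swap 6 8 : P9)⁻¹ = t2 ∧
    (swap 0 1 : P9) * d2 = d2 * swap 0 1 ∧ (swap 1 2 : P9) * d2 = d2 * swap 1 2 ∧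
    ca (swap 0 1 : P9) = 2 ∧ ca (swap 1 2 : P9) = 2 ∧
    d2.support = ({5, 6, 7, 8} : Finset (Fin 9)) := by decide +kernel

theorem sq_mul {p s : P9} (hp : p * p = 1) (hs : s * s = 1) (h : p * s = s * p) :
    p * s * (p * s) = 1 := by
  rw [← mul_assoc, mul_assoc p s p, ← h, ← mul_assoc, hp, one_mul, hs]

theorem ca_cast_rep {p : P9} (hp : p * p = 1) (j : Fin 4) (h : ca p = 2 * (j.val + 1)) :
    IsConj (rep j) p :=
  isConj_of_ca (rep_facts j).1 hp ((rep_facts j).2.trans h.symm)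

namespace Hyp

variable {G : Type*} [Group G] (E : Hyp G)

theorem cle_six {p : P9} (hp : p * p = 1) (h : ca p = 6) : CLe E.Θ p :=
  E.le_six.conj (ca_cast_rep hp 2 h)

variable [Finite G]

theorem fusion_mul {p q s : P9} (hp : p * p = 1) (hs : s * s = 1) (hps : p * s = s * p) {g : G}
    (hg : Commute g (E.Θ s)) (h : g * E.Θ p * g⁻¹ = E.Θ q) : ca (p * s) = ca (q * s) := by
  refine E.fusion (sq_mul hp hs hps) (g := g) ?_
  rw [map_mul, map_mul, ← h, show g * (E.Θ p * E.Θ s) * g⁻¹ =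
    g * E.Θ p * g⁻¹ * (g * E.Θ s * g⁻¹) by group, SymEight40.conj_eq_of_commute hg]

theorem le_two_swaps (g : G) (h1 : Commute g (E.Θ t1)) (h2 : Commute g (E.Θ t2)) :
    g ∈ E.Θ.range := by
  obtain ⟨fu, fvA, -, fvA1, -, cu, cvA, -, cu3, cvA3, -, -, cu1, cu2, cv1, cv2, -⟩ := uv_facts
  obtain ⟨ht1, ht2, ht12, e1, e2, e3, -⟩ := t_facts
  set K : Subgroup G := centralizer ({E.Θ t1} : Set G) ⊓ centralizer ({E.Θ t2} : Set G)
  have hK : ∀ x, x ∈ K ↔ Commute x (E.Θ t1) ∧ Commute x (E.Θ t2) := fun x => by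
    rw [mem_inf, mem_centralizer_singleton_iff, mem_centralizer_singleton_iff]; rfl
  have hKp : ∀ p, E.Θ p ∈ K ↔ p * t1 = t1 * p ∧ p * t2 = t2 * p := fun p => by
    rw [hK, pull E.inj, pull E.inj]
  have h3 : ∀ x ∈ K, Commute x (E.Θ (t1 * t2)) := fun x hx => by
    rw [map_mul]; exact ((hK x).mp hx).1.mul_right ((hK x).mp hx).2
  have c12 : t1 * t2 * (t1 * t2) = 1 := e3
  have hsig : ∀ p q : P9, p * p = 1 → p * t1 = t1 * p → p * t2 = t2 * p → ∀ x ∈ K,
      x * E.Θ p * x⁻¹ = E.Θ q → sig4 q = sig4 p := by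
    intro p q hp hp1 hp2 x hx he
    have hp3 : p * (t1 * t2) = t1 * t2 * p := by rw [← mul_assoc, hp1, mul_assoc, hp2, ← mul_assoc]
    simp only [sig4, E.fusion hp he, E.fusion_mul hp ht1 hp1 ((hK x).mp hx).1 he,
      E.fusion_mul hp ht2 hp2 ((hK x).mp hx).2 he, E.fusion_mul hp c12 hp3 (h3 x hx) he]
  refine two_classes E K uB vA fu fvA fvA1 ((hKp _).mpr ⟨cu1, cu2⟩) ((hKp _).mpr ⟨cv1, cv2⟩)
    (fun x hx he => ?_) (E.cle_six fu cu) (E.cle_six fvA cvA) (fun x hx q hq he => ?_)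
    (fun p hp hp2 hp1 hpu hconj x hx hxp => ?_) ((hK g).mpr ⟨h1, h2⟩)
  · have := E.fusion_mul fu c12 (by rw [← mul_assoc, cu1, mul_assoc, cu2, ← mul_assoc]) (h3 x hx) he
    omega
  · have hq2 := sq_one E.inj fvA he
    have f0 := E.fusion fvA he
    have f3 := E.fusion_mul fvA c12 (by rw [← mul_assoc, cv1, mul_assoc, cv2, ← mul_assoc])
      (h3 x hx) he
    obtain ⟨a, ha, haF, hqa, k1, k2, k3⟩ := decomp_two hq2 ((hKp q).mp hq).1 ((hKp q).mp hq).2
    rcases hqa with rfl | rfl | rfl | rfl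
    · omega
    · rw [mul_assoc, e1] at f3; omega
    · rw [mul_assoc, e2] at f3; omega
    · have hsw : ca (swap 0 1 : P9) = 2 := move_table.2.2.2.1
      obtain ⟨c, hcF, hc⟩ := exists_conj_fixing {5, 6, 7, 8} (a := swap 0 1) (b := a)
        (swap_mul_self _ _) ha (by decide) haF (by omega)
      have hc1 : c * t1 = t1 * c := commute_swap_of_fix (hcF 5 (by decide)) (hcF 6 (by decide))
      have hc2 : c * t2 = t2 * c := commute_swap_of_fix (hcF 7 (by decide)) (hcF 8 (by decide))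
      refine ⟨c, (hKp c).mpr ⟨hc1, hc2⟩, ?_⟩
      rw [← hc, vA, show c * (swap 0 1 * (t1 * t2)) * c⁻¹ =
        c * swap 0 1 * c⁻¹ * (c * t1 * c⁻¹ * (c * t2 * c⁻¹)) by group,
        hc1, hc2, mul_inv_cancel_right, mul_inv_cancel_right]
  · obtain ⟨a, ha, haF, hpa, k1, k2, k3⟩ := decomp_two hp2 ((hKp p).mp hp).1 ((hKp p).mp hp).2
    obtain ⟨k, hk⟩ := ca_even ha
    have hle := ca_le_of_fix _ haF
    simp only [Finset.card_insert_of_notMem, Finset.mem_insert, Finset.mem_singleton,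
      Finset.card_singleton, Fin.reduceEq, or_self, not_false_eq_true] at hle
    obtain ⟨hxt1, hxt2⟩ := (hK x).mp hx
    have hxa : Commute x (E.Θ a) := by
      rcases hpa with e | e | e | e
      · rw [← e]; exact hxp
      · rw [show a = p * t1 by rw [e, mul_assoc, ht1, mul_one], map_mul]; exact hxp.mul_right hxt1
      · rw [show a = p * t2 by rw [e, mul_assoc, ht2, mul_one], map_mul]; exact hxp.mul_right hxt2
      · rw [show a = p * (t1 * t2) by rw [e, mul_assoc, c12, mul_one], map_mul]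
        exact hxp.mul_right (h3 x hx)
    have cm : ∀ i j : Fin 9, a i = i → a j = j → a * swap i j = swap i j * a :=
      fun i j => commute_swap_of_fix
    have ca1 : a * t1 = t1 * a := cm 5 6 (haF 5 (by decide)) (haF 6 (by decide))
    have ca2 : a * t2 = t2 * a := cm 7 8 (haF 7 (by decide)) (haF 8 (by decide))
    rcases (show k = 0 ∨ k = 1 ∨ k = 2 by omega) with rfl | rfl | rfl
    · exfalso
      have ha1 : a = 1 := Equiv.Perm.support_eq_empty_iff.mp (Finset.card_eq_zero.mp hk)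
      subst ha1
      simp only [one_mul] at hpa
      obtain ⟨n1, n2⟩ : sig4 (uB * p) ≠ sig4 uB ∧ sig4 (uB * p) ≠ sig4 vA := by
        rcases hpa with e | e | e | e
        · exact absurd e hp1
        · rw [e]; exact z_table1
        · rw [e]; exact z_table2
        · rw [e]; exact z_table3
      rcases hconj with ⟨y, hy, he⟩ | ⟨y, hy, he⟩
      · exact n1 (hsig _ _ fu cu1 cu2 y hy he)
      · exact n2 (hsig _ _ fvA cv1 cv2 y hy he)
    · refine E.cle_six (p := a * (t1 * t2)) (sq_mul ha c12 ?_) (by omega) x ?_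
      · rw [← mul_assoc, ca1, mul_assoc, ca2, ← mul_assoc]
      · rw [map_mul]; exact hxa.mul_right (h3 x hx)
    · refine E.cle_six (p := a * t2) (sq_mul ha ht2 ca2) (by omega) x ?_
      rw [map_mul]; exact hxa.mul_right hxt2

theorem le_swap : CLe E.Θ t2 := by
  intro g hg
  obtain ⟨fu, -, fvB, -, fvB1, cu, -, cvB, -, -, cu2', cv2', -, cu2, -, -, cvB2⟩ := uv_facts
  obtain ⟨ht1, ht2, -⟩ := t_facts
  set K : Subgroup G := centralizer ({E.Θ t2} : Set G)
  have hK : ∀ x, x ∈ K ↔ Commute x (E.Θ t2) := fun x => mem_centralizer_singleton_iff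
  have hKp : ∀ p, E.Θ p ∈ K ↔ p * t2 = t2 * p := fun p => by rw [hK, pull E.inj]
  refine two_classes E K uB vB fu fvB fvB1 ((hKp _).mpr cu2) ((hKp _).mpr cvB2)
    (fun x hx he => ?_) (E.cle_six fu cu) (E.cle_six fvB cvB) (fun x hx q hq he => ?_)
    (fun p hp hp2 hp1 hpu hconj x hx hxp => ?_) ((hK g).mpr hg)
  · have := E.fusion_mul fu ht2 cu2 ((hK x).mp hx) he
    omega
  · have hq2 := sq_one E.inj fvB he
    have f0 := E.fusion fvB he
    have f2 := E.fusion_mul fvB ht2 cvB2 ((hK x).mp hx) he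
    obtain ⟨a, ha, a7, a8, hqa, k2, -⟩ := decomp_one hq2 ((hKp q).mp hq)
    rcases hqa with rfl | rfl
    · obtain ⟨c, hcF, hc⟩ := exists_conj_fixing {7, 8} (a := vB) (b := q) fvB ha
        (by decide +kernel)
        (by simp only [Finset.mem_insert, Finset.mem_singleton, forall_eq_or_imp, forall_eq]
            exact ⟨a7, a8⟩) (by omega)
      exact ⟨c, (hKp c).mpr (commute_swap_of_fix (hcF 7 (by decide)) (hcF 8 (by decide))), hc⟩
    · rw [mul_assoc, ht2, mul_one] at f2; omega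
  · obtain ⟨a, ha, a7, a8, hpa, k2, hat⟩ := decomp_one hp2 ((hKp p).mp hp)
    obtain ⟨k, hk⟩ := ca_even ha
    have haF : ∀ y ∈ ({7, 8} : Finset (Fin 9)), a y = y := by
      simp only [Finset.mem_insert, Finset.mem_singleton, forall_eq_or_imp, forall_eq]
      exact ⟨a7, a8⟩
    have hle := ca_le_of_fix _ haF
    rw [Finset.card_pair (by decide)] at hle
    have hxt := (hK x).mp hx
    have hxa : Commute x (E.Θ a) := by
      rcases hpa with e | e
      · rw [← e]; exact hxp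
      · rw [show a = p * t2 by rw [e, mul_assoc, ht2, mul_one], map_mul]; exact hxp.mul_right hxt
    rcases (show k = 0 ∨ k = 1 ∨ k = 2 ∨ k = 3 by omega) with rfl | rfl | rfl | rfl
    · exfalso
      have ha1 : a = 1 := Equiv.Perm.support_eq_empty_iff.mp (Finset.card_eq_zero.mp hk)
      subst ha1
      rw [one_mul] at hpa
      rcases hpa with e | e
      · exact hp1 e
      subst e
      rcases hconj with ⟨y, -, he⟩ | ⟨y, -, he⟩
      · have := E.fusion fu he; omega
      · have := E.fusion fvB he; omega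
    · obtain ⟨c, hcF, hc⟩ := exists_conj_fixing {7, 8} (a := t1) (b := a) ht1 ha
        (by decide +kernel) haF (by have := t_facts.2.2.2.2.2.2.2.2.2.2.2.2.1; omega)
      have hct : c⁻¹ * t2 * c = t2 := by
        rw [mul_assoc, ← show c * t2 = t2 * c from
          commute_swap_of_fix (hcF 7 (by decide)) (hcF 8 (by decide)), inv_mul_cancel_left]
      have hc1 : c⁻¹ * a * c = t1 := by rw [← hc]; group
      have hmove : ∀ r r' : P9, c⁻¹ * r * c = r' → Commute x (E.Θ r) →
          Commute ((E.Θ c)⁻¹ * x * E.Θ c) (E.Θ r') := fun r r' hr hxr => by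
        have := SymEight40.commute_conj hxr (E.Θ c)⁻¹
        rw [← hr, map_mul, map_mul, map_inv]
        simpa [mul_assoc] using this
      have := E.le_two_swaps _ (hmove a t1 hc1 hxa) (hmove t2 t2 hct hxt)
      have := mul_mem (mul_mem (MonoidHom.mem_range.mpr ⟨c, rfl⟩ : E.Θ c ∈ E.Θ.range) this)
        (inv_mem (MonoidHom.mem_range.mpr ⟨c, rfl⟩ : E.Θ c ∈ E.Θ.range))
      simpa [mul_assoc] using this
    · refine E.cle_six (p := a * t2) (sq_mul ha ht2 hat) (by omega) x ?_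
      rw [map_mul]; exact hxa.mul_right hxt
    · exact E.cle_six ha (by omega) x hxa

theorem cle_two {p : P9} (hp : p * p = 1) (h : ca p = 2) : CLe E.Θ p :=
  E.le_swap.conj (ca_cast_rep hp 0 h)

theorem class_swap {g : G} {q : P9} (h : g * E.Θ t1 * g⁻¹ = E.Θ q) :
    ∃ a b, a ≠ b ∧ q = swap a b := by
  have h2 := E.fusion t_facts.1 h
  rw [t_facts.2.2.2.2.2.2.2.2.2.2.2.2.1] at h2
  obtain ⟨a, b, hab, he⟩ := Equiv.Perm.card_support_eq_two.mp h2.symm
  exact ⟨a, b, hab, he⟩

theorem odd_fixed {W : Subgroup G} (hodd : Odd (Nat.card W))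
    (hn : ∀ g, Commute g (E.Θ d2) → ∀ x ∈ W, g * x * g⁻¹ ∈ W)
    (hW : ∀ x ∈ W, Commute x (E.Θ d2)) : ∀ x ∈ W, x ∈ E.Θ.range → x = 1 := by
  rintro _ hx ⟨p, rfl⟩
  have hpow : ∀ q, E.Θ q ∈ W → q ^ Nat.card W = 1 := fun q hq => E.inj (by
    rw [map_pow, map_one]
    exact orderOf_dvd_iff_pow_eq_one.mp (Subgroup.orderOf_dvd_natCard W hq))
  have hc : p * d2 = d2 * p := (pull E.inj).mp (hW _ hx)
  have hs : d2.support = ({5, 6, 7, 8} : Finset (Fin 9)) := move_table.2.2.2.2.2
  have hsmem : ∀ x : Fin 9, 5 ≤ x.val ↔ x ∈ d2.support := by rw [hs]; decide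
  have h1 : ∀ x : Fin 9, 5 ≤ (p x).val ↔ 5 ≤ x.val := fun x => by
    rw [hsmem, hsmem, Equiv.Perm.mem_support, Equiv.Perm.mem_support]
    have : d2 (p x) = p (d2 x) := (DFunLike.congr_fun hc x).symm
    rw [this]
    exact p.injective.ne_iff
  have h1' : ∀ x : Fin 9, (p x).val < 5 ↔ x.val < 5 := fun x => by
    have := h1 x; omega
  have hfix : ∀ x : Fin 9, 5 ≤ x.val → p x = x := by
    set r : Perm {x : Fin 9 // 5 ≤ x.val} := p.subtypePerm h1 with hr
    have hrN : r ^ Nat.card W = 1 := by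
      refine Equiv.ext fun x => Subtype.ext ?_
      simp [hr, Equiv.Perm.subtypePerm_pow, hpow p hx]
    have hr24 : orderOf r ∣ 24 := by
      refine dvd_trans orderOf_dvd_card ?_
      rw [Fintype.card_perm, show Fintype.card {x : Fin 9 // 5 ≤ x.val} = 4 by decide]
      decide
    have hr3 : orderOf r ∣ 3 := Nat.Coprime.dvd_of_dvd_mul_left
      ((Nat.coprime_two_right.mpr (hodd.of_dvd_nat (orderOf_dvd_of_pow_eq_one hrN))).pow_right 3)
      (show orderOf r ∣ 2 ^ 3 * 3 from hr24)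
    have hr1 := four_table r (fun x => ⟨?_, fun y hy => ?_⟩) (orderOf_dvd_iff_pow_eq_one.mp hr3)
    · intro x hx5
      exact congrArg Subtype.val (DFunLike.congr_fun hr1 ⟨x, hx5⟩)
    · rw [← hs]; exact (hsmem _).mp (r x).2
    · change d2 (p (x : Fin 9)) = p (y : Fin 9)
      rw [← hy]
      exact (DFunLike.congr_fun hc (x : Fin 9)).symm
  set s : Perm {x : Fin 9 // x.val < 5} := p.subtypePerm h1' with hsdef
  have hp : Equiv.Perm.ofSubtype s = p :=
    Equiv.Perm.ofSubtype_subtypePerm h1' fun x hx' => by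
      by_contra hge
      exact hx' (hfix x (by omega))
  have h15 : ∀ q : Perm {x : Fin 9 // x.val < 5}, E.Θ (Equiv.Perm.ofSubtype q) ∈ W →
      q ^ 15 = 1 := by
    intro q hq
    have hN : q ^ Nat.card W = 1 := Equiv.Perm.ofSubtype_injective (by
      rw [map_pow, map_one]; exact hpow _ hq)
    have hq120 : orderOf q ∣ 120 := by
      refine dvd_trans orderOf_dvd_card ?_
      rw [Fintype.card_perm, show Fintype.card {x : Fin 9 // x.val < 5} = 5 by decide]
      decide
    exact orderOf_dvd_iff_pow_eq_one.mp (Nat.Coprime.dvd_of_dvd_mul_left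
      ((Nat.coprime_two_right.mpr (hodd.of_dvd_nat (orderOf_dvd_of_pow_eq_one hN))).pow_right 3)
      (show orderOf q ∣ 2 ^ 3 * 15 from hq120))
  by_cases h : s = 1
  · rw [← hp, h, map_one, map_one]
  exfalso
  obtain ⟨b, hb⟩ := five_table s (h15 s (by rw [hp]; exact hx)) h
  refine hb (h15 _ ?_)
  have e : Equiv.Perm.ofSubtype (s * (b * s * b⁻¹)) =
      p * (Equiv.Perm.ofSubtype b * p * (Equiv.Perm.ofSubtype b)⁻¹) := by
    rw [map_mul, map_mul, map_mul, map_inv, hp]
  rw [e, map_mul E.Θ]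
  refine mul_mem hx ?_
  rw [map_mul, map_mul, map_inv]
  refine hn _ ((pull E.inj).mpr ?_) _ hx
  have hbF : ∀ x : Fin 9, 5 ≤ x.val → Equiv.Perm.ofSubtype b x = x := fun x hx5 =>
    Equiv.Perm.ofSubtype_apply_of_not_mem b (by omega)
  have c1 := commute_swap_of_fix (hbF 5 (by decide)) (hbF 6 (by decide))
  have c2 := commute_swap_of_fix (hbF 7 (by decide)) (hbF 8 (by decide))
  rw [d2, ← mul_assoc, t1, c1, mul_assoc, t2, c2, ← mul_assoc]

theorem le_double : CLe E.Θ d2 := by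
  obtain ⟨ht1, ht2, -, -, -, -, e1, e2, e4, hd, hd1, ht11, ct1, ct2, cd⟩ := t_facts
  obtain ⟨hmove, ha01, ha12, c01, c12, -⟩ := move_table
  have hL1 : CLe E.Θ t1 := E.cle_two ht1 ct1
  set L := centralizer ({E.Θ d2} : Set G) with hL
  have hmem : ∀ g, g ∈ L ↔ Commute g (E.Θ d2) := fun g => mem_centralizer_singleton_iff
  set t := E.Θ t1 with htdef
  set v := E.Θ d2 with hvdef
  have htv : Commute t v := (pull E.inj).mpr e2
  have htt : t * t = 1 := by rw [htdef, ← map_mul, ht1, map_one]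
  set c := E.Θ (swap 5 7 * swap 6 8) with hcdef
  have hct : c * t * c⁻¹ = E.Θ t2 := by
    rw [hcdef, htdef, ← map_inv, ← map_mul, ← map_mul, hmove]
  have hmove' : ∀ y : G, y * t * y⁻¹ = E.Θ t2 → y ∈ E.Θ.range := fun y hy => by
    have hc : Commute (c⁻¹ * y) t := SymEight40.commute_of_conj_eq (by
      calc c⁻¹ * y * t * (c⁻¹ * y)⁻¹ = c⁻¹ * (y * t * y⁻¹) * c := by group
        _ = t := by rw [hy, ← hct]; group)
    exact mul_inv_cancel_left c y ▸ mul_mem (MonoidHom.mem_range.mpr ⟨_, rfl⟩) (hL1 _ hc)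
  obtain ⟨W, hWn, hWodd, hW⟩ := SymEight40.exists_core (⟨t, (hmem _).mpr htv⟩ : L)
    ⟨v, (hmem _).mpr (Commute.refl v)⟩ (Subtype.ext htt)
    (Subtype.ext (by change v * v = 1; rw [hvdef, ← map_mul, hd, map_one]))
    (fun g => Subtype.ext ((hmem g).mp g.2).eq)
    (fun e => by
      have := E.inj (congrArg Subtype.val e : t = v)
      rw [this] at ct1; omega)
    (fun e => ht11 (E.inj (by rw [map_one]; exact congrArg Subtype.val e))) (by
      intro g hg
      set δ : G := (g : G) * t * (g : G)⁻¹ with hδ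
      have hd2 : δ * δ = 1 := SymEight40.conj_sq htt _
      rcases hg with hg | hg
      · have hg' : δ * t * δ * t = 1 := congrArg Subtype.val hg
        have hdt : Commute δ t := by
          have := eq_inv_of_mul_eq_one_left hg'
          rw [SymEight40.inv_of_sq htt] at this
          have h' := congrArg (· * δ) this
          simp only [mul_assoc, hd2, mul_one] at h'
          exact h'
        obtain ⟨q, hq⟩ := hL1 δ hdt
        obtain ⟨a, b, hab, rfl⟩ := E.class_swap (g := (g : G)) hq.symm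
        have hprod : ca (swap a b * d2) = 2 := by
          rw [← E.fusion_mul ht1 hd e2 ((hmem _).mp g.2) hq.symm, e1, ct2]
        rcases (double_table a b).1 hab hprod with h | h
        · left
          refine Subtype.ext ?_
          change δ = t
          rw [← hq, h]
        · right
          refine Subtype.ext ?_
          change δ = t * v
          rw [← hq, h, htdef, hvdef, ← map_mul, e1]
      · exfalso
        have hg' : δ * t * δ * t = v := congrArg Subtype.val hg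
        have hdt : δ * t * δ⁻¹ = E.Θ t2 := by
          rw [SymEight40.inv_of_sq hd2, ← e4, map_mul, ← hvdef, ← htdef, ← hg',
            mul_assoc (δ * t * δ), htt, mul_one]
        obtain ⟨q, hq⟩ := hmove' δ hdt
        obtain ⟨a, b, -, rfl⟩ := E.class_swap (g := (g : G)) hq.symm
        refine (double_table a b).2 (E.inj ?_)
        rw [map_mul, map_mul, map_inv, hq]
        exact hdt)
  set W' := W.map L.subtype
  have hW'odd : Odd (Nat.card W') := by
    rwa [← Nat.card_congr (equivMapOfInjective W _ L.subtype_injective).toEquiv]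
  have hW'n : ∀ g, Commute g v → ∀ x ∈ W', g * x * g⁻¹ ∈ W' := by
    rintro g hg _ ⟨x, hx, rfl⟩
    exact ⟨_, hWn.conj_mem x hx ⟨g, (hmem g).mpr hg⟩, rfl⟩
  have hWH : ∀ x ∈ W', x ∈ E.Θ.range → x = 1 := E.odd_fixed hW'odd hW'n (by
    rintro _ ⟨x, -, rfl⟩
    exact (hmem _).mp x.2)
  have hinv : ∀ a b : Fin 9, ca (swap a b : P9) = 2 → (swap a b : P9) * d2 = d2 * swap a b →
      ∀ x ∈ W', E.Θ (swap a b) * x * E.Θ (swap a b) = x⁻¹ := by
    intro a b hab hc
    refine SymEight40.inverted_of_fixfree W' (by rw [← map_mul, swap_mul_self, map_one])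
      (fun x hx => ?_) fun x hx hxc => hWH x hx (E.cle_two (swap_mul_self a b) hab x hxc.symm)
    have := hW'n (E.Θ (swap a b)) ((pull E.inj).mpr hc) x hx
    rwa [← map_inv, swap_inv] at this
  have hW1 : ∀ x ∈ W', x = 1 := fun x hx => hWH x hx (E.le_three x (by
    rw [y3, map_mul]
    exact (SymEight40.commute_mul_of_inverted (by rw [← map_mul, swap_mul_self, map_one])
      (by rw [← map_mul, swap_mul_self, map_one]) (hinv 0 1 c01 ha01) (hinv 1 2 c12 ha12) x
      hx).symm))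
  intro g hg
  obtain ⟨x, hx, h⟩ := hW ⟨g, (hmem g).mpr hg⟩
  have hx1 : (x : G) = 1 := hW1 _ ⟨x, hx, rfl⟩
  rcases h with h | h
  · have h' : (x : G) * g * t * ((x : G) * g)⁻¹ = t := congrArg Subtype.val h
    rw [hx1, one_mul] at h'
    exact hL1 g (SymEight40.commute_of_conj_eq h')
  · have h' : (x : G) * g * t * ((x : G) * g)⁻¹ = t * v := congrArg Subtype.val h
    rw [hx1, one_mul, htdef, hvdef, ← map_mul, e1, ← htdef] at h'
    exact hmove' g h'

/-- The embedded group is the whole group. -/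
theorem range_eq_top : E.Θ.range = ⊤ := by
  obtain ⟨-, ht2, -, -, -, -, -, -, -, hd, hd1, -, -, ct2, cd⟩ := t_facts
  refine eq_top_iff.mpr (two_classes E ⊤ t2 d2 ht2 hd hd1 (mem_top _) (mem_top _)
    (fun x _ he => ?_) E.le_swap E.le_double (fun x _ q _ he => ?_)
    (fun p _ hp2 hp1 hpu hconj x _ hxp => ?_))
  · have := E.fusion ht2 he; omega
  · obtain ⟨c, hc⟩ := isConj_iff.mp
      (isConj_of_ca hd (sq_one E.inj hd he) (E.fusion hd he))
    exact ⟨c, mem_top _, hc⟩
  · have hcase : ca (t2 * p) = 2 ∨ ca (t2 * p) = 4 := by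
      rcases hconj with ⟨y, -, he⟩ | ⟨y, -, he⟩
      · left; rw [← E.fusion ht2 he, ct2]
      · right; rw [← E.fusion hd he, cd]
    obtain ⟨a, ha, -, -, hpa, k2, hat⟩ := decomp_one hp2 hpu
    have hp6 : ca p ≤ 6 := by
      rcases hpa with rfl | rfl
      · rw [← hat] at hcase; omega
      · rw [← mul_assoc, ← hat, mul_assoc, ht2, mul_one] at hcase; omega
    rcases ca_cases hp2 with e | ⟨j, hj, hjc⟩
    · exact absurd e hp1
    obtain rfl | rfl | rfl : j = 0 ∨ j = 1 ∨ j = 2 := by omega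
    · exact E.le_swap.conj hj x hxp
    · exact E.le_double.conj hj x hxp
    · exact E.le_six.conj hj x hxp

end Hyp

end CfsgLib.SymNine40.Top
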