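import Cfsg.Agent.SymNine40.Interface
import Cfsg.Agent.CN.Quotient

/-!
Weak closure of the translations and its consequences.

* `Ctx.unique_J`: the only elementary abelian subgroup of order 27 in the monomial group.
* `Ctx.mem_N_of_conj_T`, `Ctx.mem_N_of_conj_x`: control of fusion.
* `Ctx.xType_of_conj`: which translations meet the classes outside the translations.
* `Ctx.normal_of_three_normal`, `Ctx.normal_of_solvable`: normal solvable subgroups.
-/

set_option autoImplicit false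
set_option maxRecDepth 20000

open Equiv Subgroup

namespace CfsgLib.SymNine40

open Mw

/-- The elements whose linear part is a power of that of `m`. -/
def ovr (m : Mw) (p : Vec × Fin 3) : Mw :=
  ⟨p.1, if p.2 = 0 then 0 else if p.2 = 1 then m.w else lmul m.w m.w⟩

theorem comm_lin_table : ∀ a b : Fin 48, a ≠ 0 → lmul (lmul a a) a = 0 → lmul (lmul b b) b = 0 →
    lmul a b = lmul b a → b = 0 ∨ b = a ∨ b = lmul a a := by decide +kernel

theorem over_table : ∀ m : Mw, m.w ≠ 0 → lmul (lmul m.w m.w) m.w = 0 →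
    (Finset.univ.filter fun p : Vec × Fin 3 => ovr m p * m = m * ovr m p).card ≤ 26 := by
  decide +kernel

theorem inP_not_central : ∀ a : Fin 48, a ≠ 0 → bits a = 0 →
    pcode a ∈ ([0, 3, 4] : List (Fin 6)) → ∀ u : Vec, ∃ v : Vec,
    tr v * (⟨u, a⟩ : Mw) * (tr v)⁻¹ * ⟨u, a⟩ ≠ ⟨u, a⟩ * (tr v * (⟨u, a⟩ : Mw) * (tr v)⁻¹) := by
  decide +kernel

theorem twelve_table : ∀ a : Fin 48,
    (let b := lmul a a; let c := lmul b b; lmul (lmul c c) c = 0) := by decide +kernel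

theorem stab_three : ∀ k : Fin 4, ∀ v : Vec, v ≠ 0 → ¬ XType k v → ∀ a, Ok k a → lact a v = v →
    lmul (lmul a a) a = 0 → a = 0 := by decide +kernel

theorem mw_cube_tr : ∀ m : Mw, m.w = 0 → m * m * m = 1 := by decide +kernel

/-- The linear part as a permutation of vectors. -/
def linH : Mw →* Perm Vec where
  toFun m := lp m.w
  map_one' := lp_zero
  map_mul' m n := (lp_mul m.w n.w).symm

namespace Ctx

variable {G : Type*} [Group G] {k : Fin 4} (C : Ctx G k)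

theorem mem_J_iff {m : Mw} (hm : Ok k m.w) : C.X m ∈ C.J ↔ m.w = 0 := by
  refine ⟨fun h => ?_, fun h => C.mem_J.mpr ⟨m.v, congrArg C.X ?_⟩⟩
  · obtain ⟨v, hv⟩ := C.mem_J.mp h
    rw [← C.X_inj (ok_one k) hm hv]
    rfl
  · rw [tr, ← h]

theorem unique_J [Finite G] {A : Subgroup G} (hA : A ≤ C.N) (hcard : Nat.card A = 27)
    (hcube : ∀ a ∈ A, a * a * a = 1) (hcomm : ∀ a ∈ A, ∀ b ∈ A, Commute a b) : A = C.J := by
  classical
  suffices h : ∀ a ∈ A, a ∈ C.J from
    Subgroup.eq_of_le_of_card_ge h (by rw [hcard, C.card_J])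
  intro a ha
  obtain ⟨m, hm, rfl⟩ := C.mem_N.mp (hA ha)
  rw [C.mem_J_iff hm]
  by_contra hw
  have hcw : ∀ {n : Mw}, Ok k n.w → C.X n ∈ A → lmul (lmul n.w n.w) n.w = 0 := fun {n} hn h =>
    congrArg Mw.w (C.X_eq_one (ok_mul k _ _ (ok_mul k _ _ hn hn) hn : Ok k (n * n * n).w)
      (by rw [C.X_mul (a := n * n) (ok_mul k _ _ hn hn) hn, C.X_mul hn hn]; exact hcube _ h))
  have hall : ∀ g : A, ∃ p : Vec × Fin 3, ovr m p * m = m * ovr m p ∧ C.X (ovr m p) = (g : G) := by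
    intro g
    obtain ⟨n, hn, e⟩ := C.mem_N.mp (hA g.2)
    have hg : C.X n ∈ A := e.symm ▸ g.2
    have hc : n * m = m * n := (C.X_commute hn hm).mp (hcomm _ hg _ ha)
    obtain ⟨i, hi⟩ : ∃ i : Fin 3, n.w = (ovr m (n.v, i)).w := by
      rcases comm_lin_table m.w n.w hw (hcw hm ha) (hcw hn hg)
        (congrArg Mw.w hc).symm with e | e | e
      · exact ⟨0, e⟩
      · exact ⟨1, e⟩
      · exact ⟨2, e⟩
    have hn' : ovr m (n.v, i) = n := by
      change (⟨n.v, (ovr m (n.v, i)).w⟩ : Mw) = n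
      rw [← hi]
    exact ⟨(n.v, i), by rw [hn']; exact hc, by rw [hn']; exact e⟩
  choose p hp1 hp2 using hall
  have hle := Nat.card_le_card_of_injective
    (fun g => (⟨p g, by simp [hp1 g]⟩ : {q // q ∈ Finset.univ.filter
      fun q : Vec × Fin 3 => ovr m q * m = m * ovr m q}))
    (fun g g' e => Subtype.ext ((hp2 g).symm.trans (by
      rw [show p g = p g' from congrArg Subtype.val e]; exact hp2 g')))
  rw [hcard, Nat.card_eq_finsetCard] at hle
  have := over_table m hw (hcw hm ha)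
  omega

theorem mem_N_of_conj_J [Finite G] {g : G} (h : ∀ v, g * C.T v * g⁻¹ ∈ C.N) : g ∈ C.N := by
  have he : C.J.map (MulAut.conj g).toMonoidHom = C.J := by
    refine C.unique_J ?_ ?_ ?_ ?_
    · rintro _ ⟨j, hj, rfl⟩
      obtain ⟨v, rfl⟩ := C.mem_J.mp hj
      exact h v
    · rw [card_map_of_injective (MulAut.conj g).injective, C.card_J]
    · rintro _ ⟨j, hj, rfl⟩
      obtain ⟨v, rfl⟩ := C.mem_J.mp hj
      rw [← map_mul, ← map_mul, C.T_cube, map_one]
    · rintro _ ⟨j, hj, rfl⟩ _ ⟨j', hj', rfl⟩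
      exact (C.J_comm hj hj').map (MulAut.conj g).toMonoidHom
  refine C.mem_N_of_norm fun v => ?_
  obtain ⟨w, hw⟩ := C.mem_J.mp (he.le ⟨_, C.T_mem_J v, rfl⟩)
  exact ⟨w, hw.symm⟩

theorem mem_N_of_conj_T [Finite G] {v w : Vec} (hv : C.CentLe v) {g : G}
    (e : g * C.T v * g⁻¹ = C.T w) : g ∈ C.N := by
  have h : g⁻¹ ∈ C.N := by
    refine C.mem_N_of_conj_J fun u => hv _ ?_
    have hc := (Commute.conj_iff g⁻¹).mpr (C.T_comm u w)
    rwa [← e, show g⁻¹ * (g * C.T v * g⁻¹) * g⁻¹⁻¹ = C.T v by group] at hc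
  simpa using inv_mem h

theorem mem_N_of_conj_x [Finite G] {g : G}
    (e : g * C.x * g⁻¹ = C.x ∨ g * C.x * g⁻¹ = C.x⁻¹) : g ∈ C.N := by
  rcases e with e | e
  · exact C.mem_N_of_conj_T C.centLe_x (w := xv) e
  · refine C.mem_N_of_conj_T C.centLe_x (w := -xv) ?_
    rw [C.T_neg]; exact e

theorem cent_T_card [Finite G] {v : Vec} (hv : v ≠ 0) (hx : ¬ XType k v) (Q : Sylow 3 G)
    (hJ : C.J ≤ (Q : Subgroup G)) : ¬ ∀ q ∈ (Q : Subgroup G), Commute q (C.T v) := by
  intro hQ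
  haveI := Fact.mk Nat.prime_three
  have hJQ : C.J < (Q : Subgroup G) := by
    refine lt_of_le_of_ne hJ fun e => ?_
    have h81 : Nat.card (Q : Subgroup G) = 81 := C.sylow_card Q
    rw [← e, C.card_J] at h81
    norm_num at h81
  haveI := Q.2.isNilpotent
  have hlt : C.J.subgroupOf (Q : Subgroup G) < ⊤ := by
    rw [lt_top_iff_ne_top, Ne, subgroupOf_eq_top]
    exact hJQ.not_ge
  obtain ⟨⟨q, hqQ⟩, hqn, hqJ⟩ := SetLike.exists_of_lt
    (Group.normalizerCondition_of_isNilpotent _ hlt)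
  have hqJ' : q ∉ C.J := hqJ
  have hqN : q ∈ C.N := by
    refine C.mem_N_of_norm fun u => ?_
    have := (mem_normalizer_iff.mp hqn ⟨C.T u, hJ (C.T_mem_J u)⟩).mp (C.T_mem_J u)
    obtain ⟨w, hw⟩ := C.mem_J.mp (mem_subgroupOf.mp this)
    exact ⟨w, hw.symm⟩
  obtain ⟨n, hn, rfl⟩ := C.mem_N.mp hqN
  refine hqJ' ((C.mem_J_iff hn).mpr ?_)
  obtain ⟨i, hi⟩ := Q.2 ⟨C.X n, hqQ⟩
  have hi' : C.X n ^ 3 ^ i = 1 := congrArg Subtype.val hi
  have hn0 : n ^ 3 ^ i = 1 := by
    rw [C.X_eq ⟨n, hn⟩, ← map_pow] at hi'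
    exact congrArg Subtype.val (C.inj (hi'.trans C.ι.map_one.symm))
  have h1 : lp n.w ^ 3 ^ i = 1 := by
    have h := congrArg linH hn0
    rwa [map_pow, map_one] at h
  have h12 : lp n.w ^ 12 = 1 := by
    rw [show (12 : ℕ) = 2 * 2 * 3 from rfl, pow_mul, pow_mul]
    simp only [pow_succ, pow_zero, one_mul, lp_mul, twelve_table n.w, lp_zero]
  obtain ⟨d, -, hd⟩ := (Nat.dvd_prime_pow Nat.prime_three).mp (orderOf_dvd_of_pow_eq_one h1)
  have hdd : 3 ^ d ∣ 12 := hd ▸ orderOf_dvd_of_pow_eq_one h12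
  have hd1 : d ≤ 1 := by
    by_contra hlt
    have := (Nat.pow_dvd_pow 3 (show 2 ≤ d by omega)).trans hdd
    norm_num at this
  have h3 : lp n.w ^ 3 = 1 := by
    rw [← orderOf_dvd_iff_pow_eq_one, hd]
    exact (pow_dvd_pow 3 hd1).trans (by norm_num)
  refine stab_three k v hv hx n.w hn ?_ (lp_injective (by
    rw [lp_zero, ← lp_mul, ← lp_mul, ← h3, pow_succ, sq]))
  have hc := C.X_conj_T hn v
  rw [conj_eq_of_commute' (hQ _ hqQ)] at hc
  exact (C.T_inj hc).symm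
where
  conj_eq_of_commute' {a b : G} (h : Commute a b) : a * b * a⁻¹ = b := by
    rw [h.eq, mul_inv_cancel_right]

theorem xType_of_conj [Finite G] {m : Mw} (hm : Ok 0 m.w) (h3 : m * m * m = 1) (hw : m.w ≠ 0)
    {g : G} {v : Vec} (e : g * C.X m * g⁻¹ = C.T v) : XType k v := by
  haveI := Fact.mk Nat.prime_three
  by_contra hx
  have hmk := ok_zero_le k _ hm
  have hv0 : v ≠ 0 := by
    rintro rfl
    rw [C.T_zero, conj_eq_one_iff] at e
    exact hw (congrArg Mw.w (C.X_eq_one hmk e))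
  set D := centralizer ({C.T v} : Set G)
  have hJD : C.J ≤ D := fun j hj => mem_centralizer_singleton_iff.mpr
    (C.J_comm hj (C.T_mem_J v)).eq
  have hJp : IsPGroup 3 C.J := IsPGroup.of_card (n := 3) (by rw [C.card_J]; norm_num)
  obtain ⟨S, hS⟩ := (hJp.comap_subtype (K := D)).exists_le_sylow
  obtain ⟨Q, hQ⟩ := (S.2.map D.subtype).exists_le_sylow
  have hJS : ∀ j ∈ C.J, ∀ h : j ∈ D, (⟨j, h⟩ : D) ∈ (S : Subgroup D) := fun j hj h => hS hj
  -- the Sylow subgroup of the centraliser is the translations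
  have hSJ : ∀ s ∈ (S : Subgroup D), (s : G) ∈ C.J := by
    by_contra hcon
    push Not at hcon
    obtain ⟨s, hs, hsJ⟩ := hcon
    have hlt : C.J < (S : Subgroup D).map D.subtype := lt_of_le_of_ne
      (fun j hj => ⟨⟨j, hJD hj⟩, hJS j hj _, rfl⟩)
      (fun e' => hsJ (e'.symm ▸ mem_map_of_mem D.subtype hs))
    obtain ⟨r, hr⟩ := (S.2.map D.subtype).exists_card_eq
    have h4 : 4 ≤ r := by
      have := Set.ncard_lt_ncard (SetLike.coe_ssubset_coe.mpr hlt)
      rw [← Nat.card_coe_set_eq, ← Nat.card_coe_set_eq] at this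
      simp only [SetLike.coe_sort_coe] at this
      rw [C.card_J, hr] at this
      by_contra h
      have := Nat.pow_le_pow_right (show 1 ≤ 3 by norm_num) (show r ≤ 3 by omega)
      omega
    have heq : (S : Subgroup D).map D.subtype = (Q : Subgroup G) := by
      refine Subgroup.eq_of_le_of_card_ge hQ ?_
      rw [C.sylow_card Q, hr]
      exact le_trans (by norm_num) (Nat.pow_le_pow_right (by norm_num) h4)
    refine C.cent_T_card hv0 hx Q (fun j hj => heq ▸ ⟨⟨j, hJD hj⟩, hJS j hj _, rfl⟩) fun q hq => ?_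
    obtain ⟨d, -, rfl⟩ := heq.symm ▸ hq
    exact mem_centralizer_singleton_iff.mp d.2
  set y := g * C.x * g⁻¹ with hy
  have hyD : y ∈ D := by
    refine mem_centralizer_singleton_iff.mpr ?_
    rw [hy, ← e]
    exact ((Commute.conj_iff g).mpr ((C.X_commute (ok_one k) hmk).mpr
      ((by decide +kernel : ∀ u a, Ok 0 a → tr xv * (⟨u, a⟩ : Mw) = ⟨u, a⟩ * tr xv) m.v m.w hm))).eq
  have hyp : IsPGroup 3 (zpowers (⟨y, hyD⟩ : D)) := by
    rintro ⟨z, i, rfl⟩
    refine ⟨1, Subtype.ext ?_⟩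
    change ((⟨y, hyD⟩ : D) ^ i) ^ 3 ^ 1 = 1
    rw [← zpow_natCast, ← zpow_mul, mul_comm, zpow_mul, zpow_natCast,
      show (⟨y, hyD⟩ : D) ^ 3 ^ 1 = 1 from Subtype.ext (by
        simp only [pow_one, SubgroupClass.coe_pow, OneMemClass.coe_one, hy, conj_pow]
        rw [pow_succ, sq, show C.x * C.x * C.x = 1 from C.T_cube xv, mul_one, mul_inv_cancel]),
      one_zpow]
  obtain ⟨S', hS'⟩ := hyp.exists_le_sylow
  obtain ⟨c, hc⟩ := MulAction.exists_smul_eq D S' S
  have hcy : (c : G) * y * (c : G)⁻¹ ∈ C.J := by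
    have h := smul_mem_pointwise_smul _ (MulAut.conj c) _ (hS' (mem_zpowers (⟨y, hyD⟩ : D)))
    rw [← Sylow.coe_subgroup_smul, hc] at h
    exact hSJ _ h
  set d := (c : G) * g with hd
  obtain ⟨u, hu⟩ := C.mem_J.mp hcy
  have hdN : d ∈ C.N := by
    refine C.mem_N_of_conj_T C.centLe_x (w := u) ?_
    rw [hu, hy]
    change (c : G) * g * C.x * ((c : G) * g)⁻¹ = _
    group
  obtain ⟨n, hn, hn'⟩ := C.mem_N.mp hdN
  have hdm : d * C.X m * d⁻¹ = C.T v := by
    calc d * C.X m * d⁻¹ = (c : G) * (g * C.X m * g⁻¹) * (c : G)⁻¹ := by rw [hd]; group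
      _ = C.T v := by
        rw [e, (mem_centralizer_singleton_iff.mp c.2 : (c : G) * C.T v = C.T v * c),
          mul_inv_cancel_right]
  refine hw ((C.mem_J_iff hmk).mp ?_)
  have hback : C.X m = C.T (lact (linv n.w) v) := by
    calc C.X m = d⁻¹ * (d * C.X m * d⁻¹) * d := by group
      _ = C.X n⁻¹ * C.T v * (C.X n⁻¹)⁻¹ := by rw [hdm, ← hn', C.X_inv hn, inv_inv]
      _ = _ := by rw [C.X_conj_T (ok_inv k _ hn : Ok k (n⁻¹).w)]; rfl
  rw [hback]
  exact C.T_mem_J _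

theorem normal_of_three_normal [Finite G] (R : Subgroup G) [R.Normal] (hR : IsPGroup 3 R)
    (h1 : R ≠ ⊥) : C.J.Normal := by
  haveI := Fact.mk Nat.prime_three
  have hPp : IsPGroup 3 C.P := IsPGroup.of_card (n := 4) (by rw [C.card_P]; norm_num)
  obtain ⟨Q, hQ⟩ := hPp.exists_le_sylow
  have hQP : (Q : Subgroup G) = C.P := (Subgroup.eq_of_le_of_card_ge hQ
    (by rw [C.sylow_card Q, C.card_P])).symm
  have hRP : R ≤ C.P := by
    rw [← hQP]
    intro r hr
    obtain ⟨Q0, hQ0⟩ := hR.exists_le_sylow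
    obtain ⟨c, hc⟩ := MulAction.exists_smul_eq G Q0 Q
    have h := smul_mem_pointwise_smul _ (MulAut.conj c) _
      (hQ0 ((inferInstance : R.Normal).conj_mem r hr c⁻¹))
    rw [← Sylow.coe_subgroup_smul, hc] at h
    convert h using 1
    simp [MulAut.conj_apply, mul_assoc]
  obtain ⟨z, hzR, hz1, hzc⟩ : ∃ z ∈ R, z ≠ 1 ∧ ∀ p ∈ C.P, Commute z p := by
    letI : MulAction C.P R := MulAction.compHom R ((MulAut.conjNormal (H := R)).comp C.P.subtype)
    have hd : 3 ∣ Nat.card R := by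
      obtain ⟨n, hn⟩ := hR.exists_card_eq
      rcases n with _ | n
      · exact absurd (Subgroup.card_eq_one.mp (by rw [hn, pow_zero])) h1
      · exact hn ▸ dvd_pow_self 3 n.succ_ne_zero
    have ha : (1 : R) ∈ MulAction.fixedPoints C.P R := fun p => Subtype.ext (by
      change ((MulAut.conjNormal (H := R) (p : G) (1 : R) : R) : G) = _
      rw [map_one])
    obtain ⟨z, hz, hne⟩ := hPp.exists_fixed_point_of_prime_dvd_card_of_fixed_point R hd ha
    refine ⟨z, z.2, fun e => hne (Subtype.ext e.symm), fun p hp => ?_⟩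
    have h : ((MulAut.conjNormal (H := R) p z : R) : G) = z := congrArg Subtype.val (hz ⟨p, hp⟩)
    rw [MulAut.conjNormal_apply, mul_inv_eq_iff_eq_mul] at h
    exact h.symm
  obtain ⟨m, hm, rfl⟩ := hRP hzR
  have hm0 : ∀ k', Ok k' m.w := inP_ok _ hm.1
  obtain ⟨c, hc⟩ := central_table m (hm0 0)
    (fun v => (C.X_commute (hm0 k) (ok_one k)).mp (hzc _ (C.J_le_P (C.T_mem_J v))))
    ((C.X_commute (hm0 k) (inP_ok 3 (by decide +kernel) k)).mp
      (hzc _ ⟨lin 3, by decide +kernel, rfl⟩))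
  have hxR : C.x ∈ R := by
    have hc0 : c ≠ 0 := by rintro rfl; exact hz1 (hc ▸ C.X_one)
    obtain ⟨i, hi⟩ := (by decide +kernel : ∀ c : Fin 3, c ≠ 0 → ∃ i : Fin 3,
      i.val • ((c, c, c) : Vec) = xv) c hc0
    rw [x, ← hi]
    have : ∀ n : ℕ, C.X (tr (n • ((c, c, c) : Vec))) ∈ R := by
      intro n
      induction n with
      | zero => rw [zero_nsmul, tr_zero, C.X_one]; exact one_mem _
      | succ n ih => rw [succ_nsmul, tr_add, C.X_mul (ok_one k) (ok_one k), ← hc]; exact mul_mem ih hzR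
    exact this _
  let Z : Subgroup G :=
    { carrier := {z | z ∈ R ∧ z * z * z = 1 ∧ ∀ r ∈ R, Commute z r}
      one_mem' := ⟨one_mem _, by simp, fun r _ => Commute.one_left r⟩
      mul_mem' := fun {a b} ha hb => ⟨mul_mem ha.1 hb.1, by
        have hab : Commute a b := ha.2.2 b hb.1
        calc a * b * (a * b) * (a * b) = (a * b) ^ 3 := by rw [pow_succ, sq]
          _ = a ^ 3 * b ^ 3 := hab.mul_pow 3
          _ = 1 := by rw [pow_succ, sq, ha.2.1, pow_succ, sq, hb.2.1, one_mul],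
        fun r hr => (ha.2.2 r hr).mul_left (hb.2.2 r hr)⟩
      inv_mem' := fun {a} ha => ⟨inv_mem ha.1, by
        rw [← mul_inv_rev, ← mul_inv_rev, ← mul_assoc, ha.2.1, inv_one],
        fun r hr => (ha.2.2 r hr).inv_left⟩ }
  haveI hZn : Z.Normal := ⟨fun n hn g => ⟨(inferInstance : R.Normal).conj_mem n hn.1 g, by
      rw [show g * n * g⁻¹ * (g * n * g⁻¹) * (g * n * g⁻¹) = g * (n * n * n) * g⁻¹ by group, hn.2.1,
        mul_one, mul_inv_cancel],
    fun r hr => by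
      have h := (Commute.conj_iff g).mpr (hn.2.2 _ ((inferInstance : R.Normal).conj_mem r hr g⁻¹))
      rwa [show g * (g⁻¹ * r * g⁻¹⁻¹) * g⁻¹ = r by group] at h⟩⟩
  have hxZ : C.x ∈ Z := by
    refine ⟨hxR, C.T_cube xv, fun r hr => ?_⟩
    obtain ⟨n, hn, rfl⟩ := hRP hr
    exact (C.X_commute (ok_one k) (inP_ok _ hn.1 k)).mpr
      ((by decide +kernel : ∀ u a, Ok 0 a → tr xv * (⟨u, a⟩ : Mw) = ⟨u, a⟩ * tr xv)
        n.v n.w (inP_ok _ hn.1 0))
  have hZJ : Z ≤ C.J := by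
    intro z hz
    obtain ⟨n, hn, rfl⟩ := hRP hz.1
    rw [C.mem_J_iff (inP_ok _ hn.1 k)]
    by_contra hne
    obtain ⟨v, hv⟩ := inP_not_central n.w hne hn.1 hn.2 n.v
    refine hv ((C.X_commute ?_ (inP_ok _ hn.1 k)).mp ?_)
    · exact ok_mul k _ _ (ok_mul k _ _ (ok_one k) (inP_ok _ hn.1 k)) (ok_inv k _ (ok_one k))
    · rw [← C.X_conj (ok_one k) (inP_ok _ hn.1 k)]
      exact (hz.2.2 _ ((inferInstance : R.Normal).conj_mem _ hz.1 _)).symm
  refine ⟨fun j hj g => ?_⟩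
  have hN : g ∈ C.N := by
    refine C.mem_N_of_conj_J fun v => C.mem_N_of_cent_x ?_
    have h := (Commute.conj_iff g).mpr (C.J_comm (C.T_mem_J v)
      (hZJ (hZn.conj_mem _ hxZ g⁻¹)))
    rwa [show g * (g⁻¹ * C.x * g⁻¹⁻¹) * g⁻¹ = C.x by group] at h
  exact (mem_normalizer_iff.mp (C.N_le_normalizer hN) j).mp hj

theorem normal_of_solvable [Finite G] (K : Subgroup G) [K.Normal] (hK : Group.IsSolvable K)
    (h1 : K ≠ ⊥) : C.J.Normal := by
  obtain ⟨p, R, hp, hRn, -, hR1, hRp⟩ := CN.exists_normal_pGroup_le K hK h1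
  haveI := hRn
  by_cases h3 : p = 3
  · subst h3; exact C.normal_of_three_normal R hRp hR1
  · refine absurd (C.sig ?_ fun v a ha => hRn.conj_mem a ha _) hR1
    haveI := Fact.mk hp
    obtain ⟨n, hn⟩ := hRp.exists_card_eq
    rw [hn]
    exact Nat.Coprime.pow_left n ((Nat.coprime_primes hp Nat.prime_three).mpr h3)

end Ctx

end CfsgLib.SymNine40
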